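import Groth.Agent.Gaga.H989.LauHom
import Mathlib.Analysis.Complex.TaylorSeries
import Mathlib.Algebra.MvPolynomial.Eval
import Mathlib.RingTheory.MvPolynomial.Homogeneous

/-!
# Entire homogeneous functions with holomorphic parameters are polynomials

`exists_poly`: a section of `O(d)`, `d ≥ 0`, on `univ ×ˢ W` is a homogeneous polynomial of degree
`d` whose coefficients are holomorphic functions on `W`.
-/

set_option autoImplicit false
set_option linter.unusedSectionVars false

open Complex Metric Set MeasureTheory Filter Topology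
open Groth.Agent.Gaga.H506.Scv Groth.Agent.Gaga.H989.LauOne Groth.Agent.Gaga.H989.LauDom
open Groth.Agent.Gaga.H989.LauHom

namespace Groth.Agent.Gaga.H989.LauPoly

variable {ι : Type*} [Fintype ι] [DecidableEq ι]
variable {E : Type*} [NormedAddCommGroup E] [NormedSpace ℂ E]

/-- The coefficient of `(z a)^k`. -/
noncomputable def co (a : ι) (k : ℕ) (F : (ι → ℂ) × E → ℂ) (p : (ι → ℂ) × E) : ℂ :=
  (2 * Real.pi * I : ℂ)⁻¹ • ∮ ζ in C(0, 1), (1 / (ζ - 0) ^ (k + 1)) •
    F (Function.update p.1 a ζ, p.2)

theorem slice_entire {r : ℝ} {W : Set E} (hW : IsOpen W) {F : (ι → ℂ) × E → ℂ}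
    (hF : DifferentiableOn ℂ F (Dom r (∅ : Finset ι) ×ˢ W)) (a : ι) (z : ι → ℂ) {w : E}
    (hw : w ∈ W) : Differentiable ℂ fun ζ => F (Function.update z a ζ, w) :=
  fun _ => differentiableAt_slice (differentiableAt_of hW hF (by simp) hw)

theorem co_eq {r : ℝ} {W : Set E} (hW : IsOpen W) {F : (ι → ℂ) × E → ℂ}
    (hF : DifferentiableOn ℂ F (Dom r (∅ : Finset ι) ×ˢ W)) (a : ι) (k : ℕ) (z : ι → ℂ) {w : E}
    (hw : w ∈ W) {R : ℝ} (hR : 0 < R) :
    co a k F (z, w) = (2 * Real.pi * I : ℂ)⁻¹ • ∮ ζ in C(0, R), (1 / (ζ - 0) ^ (k + 1)) •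
      F (Function.update z a ζ, w) := by
  have h := slice_entire hW hF a z hw
  unfold co
  rw [h.differentiableOn.circleIntegral_one_div_sub_center_pow_smul one_pos k,
    h.differentiableOn.circleIntegral_one_div_sub_center_pow_smul hR k]

theorem hasSum_co {r : ℝ} {W : Set E} (hW : IsOpen W) {F : (ι → ℂ) × E → ℂ}
    (hF : DifferentiableOn ℂ F (Dom r (∅ : Finset ι) ×ˢ W)) (a : ι) (z : ι → ℂ) {w : E}
    (hw : w ∈ W) : HasSum (fun k => (z a) ^ k * co a k F (z, w)) (F (z, w)) := by
  have h := slice_entire hW hF a z hw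
  have h1 := Complex.hasSum_taylorSeries_of_entire h 0 (z a)
  simp only [Function.update_eq_self] at h1
  have hk : ∀ k : ℕ, (z a) ^ k * co a k F (z, w) = ((k.factorial : ℂ))⁻¹ • (z a - 0) ^ k •
      iteratedDeriv k (fun ζ => F (Function.update z a ζ, w)) 0 := by
    intro k
    have h4 := h.differentiableOn.circleIntegral_one_div_sub_center_pow_smul (c := 0) one_pos k
      (R := 1)
    unfold co
    rw [h4]
    have h2 : (2 * Real.pi * I : ℂ) ≠ 0 := two_pi_I_ne
    have h3 : (k.factorial : ℂ) ≠ 0 := by exact_mod_cast k.factorial_ne_zero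
    simp only [smul_eq_mul, sub_zero]
    field_simp
  simp only [hk]
  exact h1

theorem differentiableOn_co {r : ℝ} {W : Set E} (hW : IsOpen W) {F : (ι → ℂ) × E → ℂ}
    (hF : DifferentiableOn ℂ F (Dom r (∅ : Finset ι) ×ˢ W)) (a : ι) (k : ℕ) :
    DifferentiableOn ℂ (co a k F) (Dom r (∅ : Finset ι) ×ˢ W) := by
  rintro ⟨z, w⟩ ⟨hz, hw⟩
  have hmain : DifferentiableAt ℂ (fun p : (ι → ℂ) × E => ∮ ζ in C(0, 1),
      (1 / (ζ - 0) ^ (k + 1)) • F (Function.update p.1 a ζ, p.2)) (z, w) := by
    refine differentiableAt_circleIntegral fun ζ hζ => ?_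
    have hζ' : ‖ζ‖ = 1 := by simpa using hζ
    have hζ0 : ζ ≠ 0 := by
      rintro rfl
      simp at hζ'
    have a1 : HolAt (fun q : ((ι → ℂ) × E) × ℂ => ((q.2 - 0) ^ (k + 1))⁻¹) ((z, w), ζ) := by
      refine HolAt.inv (f := fun q : ((ι → ℂ) × E) × ℂ => (q.2 - 0) ^ (k + 1))
        (Eventually.of_forall fun _ => by fun_prop) ?_
      simpa using hζ0
    have a2 : HolAt (fun q : ((ι → ℂ) × E) × ℂ => F (Function.update q.1.1 a q.2, q.1.2))
        ((z, w), ζ) := by
      refine HolAt.comp (f := F)
        (g := fun q : ((ι → ℂ) × E) × ℂ => (Function.update q.1.1 a q.2, q.1.2)) ?_ ?_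
      · exact holAt_of_differentiableOn ((isOpen_Dom r (∅ : Finset ι)).prod hW) hF
          ⟨by simp, hw⟩
      · refine Eventually.of_forall fun q => ?_
        exact (differentiable_update₂ a (by fun_prop) (by fun_prop)).prodMk (by fun_prop)
    simp only [one_div]
    exact a1.smul a2
  exact (hmain.const_smul ((2 * Real.pi * I : ℂ)⁻¹)).differentiableWithinAt

theorem isO_co {r : ℝ} {j : ℤ} {W : Set E} (hW : IsOpen W) {F : (ι → ℂ) × E → ℂ}
    (hF : IsO r j W (∅ : Finset ι) F) (a : ι) (k : ℕ) :
    IsO r (j - k) W (∅ : Finset ι) (co a k F) := by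
  refine ⟨differentiableOn_co hW hF.diff a k, fun z hz w hw t ht => ?_⟩
  have ht' : 0 < ‖t‖ := norm_pos_iff.2 ht
  rw [co_eq hW hF.diff a k (t • z) hw (R := ‖t‖ * 1) (by positivity), circleIntegral_mul]
  have h1 : (∮ ζ in C(0, 1), (1 / (t * ζ - 0) ^ (k + 1)) •
      F (Function.update (t • z) a (t * ζ), w)) = (t ^ (k + 1))⁻¹ * t ^ j *
      ∮ ζ in C(0, 1), (1 / (ζ - 0) ^ (k + 1)) • F (Function.update z a ζ, w) := by
    rw [← circleIntegral.integral_const_mul]
    congr 1
    funext ζ
    have h2 : Function.update (t • z) a (t * ζ) = t • Function.update z a ζ := by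
      rw [← smul_eq_mul, Function.update_smul]
    rw [h2, hF.hom _ (by simp) w hw t ht]
    simp only [sub_zero, one_div, mul_pow, mul_inv, smul_eq_mul]
    ring
  rw [h1]
  unfold co
  simp only [smul_eq_mul]
  rw [zpow_sub₀ ht, zpow_natCast, pow_succ]
  field_simp

theorem eq_of_indep {W : Set E} {F : (ι → ℂ) × E → ℂ}
    (h : ∀ (l : ι) (z : ι → ℂ) (ζ : ℂ), ∀ w ∈ W, F (Function.update z l ζ, w) = F (z, w))
    (z : ι → ℂ) {w : E} (hw : w ∈ W) : F (z, w) = F (0, w) := by
  have key : ∀ T : Finset ι, F (T.piecewise (0 : ι → ℂ) z, w) = F (z, w) := by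
    intro T
    induction T using Finset.induction_on with
    | empty => simp
    | insert a T ha ih =>
      rw [Finset.piecewise_insert, h a _ _ w hw, ih]
  have := key Finset.univ
  rw [Finset.piecewise_univ] at this
  exact this.symm

/-- **Homogeneous entire functions are polynomials** (with parameters). -/
theorem exists_poly {r : ℝ} {W : Set E} (hW : IsOpen W) (d : ℕ) {F : (ι → ℂ) × E → ℂ}
    (hF : IsO r d W (∅ : Finset ι) F) :
    ∃ P : E → MvPolynomial ι ℂ, (∀ w, (P w).IsHomogeneous d) ∧
      (∀ α, DifferentiableOn ℂ (fun w => (P w).coeff α) W) ∧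
      ∀ z, ∀ w ∈ W, F (z, w) = MvPolynomial.eval z (P w) := by
  have key : ∀ S : Finset ι, ∀ d : ℕ, ∀ F : (ι → ℂ) × E → ℂ, IsO r d W (∅ : Finset ι) F →
      (∀ l ∉ S, ∀ (z : ι → ℂ) (ζ : ℂ), ∀ w ∈ W, F (Function.update z l ζ, w) = F (z, w)) →
      ∃ P : E → MvPolynomial ι ℂ, (∀ w, (P w).IsHomogeneous d) ∧
      (∀ α, DifferentiableOn ℂ (fun w => (P w).coeff α) W) ∧
      ∀ z, ∀ w ∈ W, F (z, w) = MvPolynomial.eval z (P w) := by
    intro S
    induction S using Finset.induction_on with
    | empty =>
      intro d F hF hind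
      have h0 : ∀ z, ∀ w ∈ W, F (z, w) = F (0, w) := fun z w hw =>
        eq_of_indep (fun l => hind l (by simp)) z hw
      by_cases hd : d = 0
      · subst hd
        refine ⟨fun w => MvPolynomial.C (F (0, w)), fun w => MvPolynomial.isHomogeneous_C _ _,
          fun α => ?_, fun z w hw => ?_⟩
        · simp only [MvPolynomial.coeff_C]
          split_ifs with h
          · intro w hw
            have h1 : DifferentiableAt ℂ F (0, w) := differentiableAt_of hW hF.diff (by simp) hw
            have h2 : DifferentiableAt ℂ (fun w : E => ((0 : ι → ℂ), w)) w := by fun_prop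
            exact (DifferentiableAt.comp w (g := F) (f := fun w : E => ((0 : ι → ℂ), w)) h1
              h2).differentiableWithinAt
          · exact differentiableOn_const 0
        · rw [MvPolynomial.eval_C]
          exact h0 z w hw
      · refine ⟨fun _ => 0, fun w => MvPolynomial.isHomogeneous_zero _ _ _,
          fun α => by simp, fun z w hw => ?_⟩
        rw [h0 z w hw, map_zero]
        have h1 := hF.hom 0 (by simp) w hw 2 two_ne_zero
        rw [smul_zero, zpow_natCast] at h1
        have h2 : (2 : ℂ) ^ d ≠ 1 := by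
          intro h
          have h3 : ((2 ^ d : ℕ) : ℂ) = ((1 : ℕ) : ℂ) := by push_cast; exact h
          have h4 : 2 ^ d = 1 := by exact_mod_cast h3
          exact hd (by simpa using h4)
        have h3 : ((2 : ℂ) ^ d - 1) * F (0, w) = 0 := by linear_combination -h1
        rcases mul_eq_zero.1 h3 with h4 | h4
        · exact absurd (sub_eq_zero.1 h4) h2
        · exact h4
    | insert a S ha ih =>
      intro d F hF hind
      have hcoO : ∀ k ≤ d, IsO r ((d - k : ℕ) : ℤ) W (∅ : Finset ι) (co a k F) := by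
        intro k hk
        have := isO_co hW hF a k
        rwa [← Nat.cast_sub hk] at this
      have hcoI : ∀ k, ∀ l ∉ S, ∀ (z : ι → ℂ) (ζ : ℂ), ∀ w ∈ W,
          co a k F (Function.update z l ζ, w) = co a k F (z, w) := by
        intro k l hl z ζ w hw
        unfold co
        congr 2
        funext ξ
        simp only
        congr 1
        by_cases hla : l = a
        · subst hla
          rw [Function.update_idem]
        · rw [Function.update_comm hla]
          exact hind l (by simp [hla, hl]) _ _ w hw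
      have hex : ∀ k : ℕ, ∃ P : E → MvPolynomial ι ℂ, k ≤ d → ((∀ w, (P w).IsHomogeneous (d - k)) ∧
          (∀ α, DifferentiableOn ℂ (fun w => (P w).coeff α) W) ∧
          ∀ z, ∀ w ∈ W, co a k F (z, w) = MvPolynomial.eval z (P w)) := by
        intro k
        by_cases hk : k ≤ d
        · obtain ⟨P, hP⟩ := ih (d - k) (co a k F) (hcoO k hk) (hcoI k)
          exact ⟨P, fun _ => hP⟩
        · exact ⟨fun _ => 0, fun h => absurd h hk⟩
      choose P hP using hex
      refine ⟨fun w => ∑ k ∈ Finset.range (d + 1), MvPolynomial.X a ^ k * P k w, ?_, ?_, ?_⟩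
      · intro w
        refine MvPolynomial.IsHomogeneous.sum _ _ _ fun k hk => ?_
        have hk' : k ≤ d := Nat.lt_succ_iff.1 (Finset.mem_range.1 hk)
        have h1 := (MvPolynomial.isHomogeneous_X_pow (R := ℂ) a k).mul ((hP k hk').1 w)
        rwa [Nat.add_sub_cancel' hk'] at h1
      · intro α
        simp only [MvPolynomial.coeff_sum]
        refine DifferentiableOn.fun_sum fun k hk => ?_
        have hk' : k ≤ d := Nat.lt_succ_iff.1 (Finset.mem_range.1 hk)
        simp only [MvPolynomial.X_pow_eq_monomial, MvPolynomial.coeff_monomial_mul']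
        split_ifs with h
        · simpa using (hP k hk').2.1 _
        · exact differentiableOn_const 0
      · intro z w hw
        rw [map_sum]
        have h1 := hasSum_co hW hF.diff a z hw
        have h2 : ∀ k ∉ Finset.range (d + 1), (z a) ^ k * co a k F (z, w) = 0 := by
          intro k hk
          have hk' : d < k := by simpa [Finset.mem_range] using hk
          rw [eq_zero_of_neg (by omega) hW (isO_co hW hF a k) z hw, mul_zero]
        have h3 := h1.unique (hasSum_sum_of_ne_finset_zero h2)
        rw [h3]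
        refine Finset.sum_congr rfl fun k hk => ?_
        have hk' : k ≤ d := Nat.lt_succ_iff.1 (Finset.mem_range.1 hk)
        rw [map_mul, map_pow, MvPolynomial.eval_X, ← (hP k hk').2.2 z w hw]
  exact key Finset.univ d F hF fun l hl => absurd (Finset.mem_univ l) hl

/-- Conversely, such polynomials are sections of `O(d)` over every cone. -/
theorem isO_poly (r : ℝ) {W : Set E} (hW : IsOpen W) (d : ℕ) (P : E → MvPolynomial ι ℂ)
    (hP : ∀ w, (P w).IsHomogeneous d) (hP' : ∀ α, DifferentiableOn ℂ (fun w => (P w).coeff α) W)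
    (I : Finset ι) :
    IsO r d W I (fun p => MvPolynomial.eval p.1 (P p.2)) := by
  have hsum : ∀ p : (ι → ℂ) × E, MvPolynomial.eval p.1 (P p.2) =
      ∑ α ∈ Finset.finsuppAntidiag Finset.univ d, (P p.2).coeff α * ∏ i, p.1 i ^ α i := by
    intro p
    rw [MvPolynomial.eval_eq']
    refine Finset.sum_subset ?_ ?_
    · intro α hα
      rw [Finset.mem_finsuppAntidiag]
      refine ⟨?_, Finset.subset_univ _⟩
      have h1 := hP p.2 (MvPolynomial.mem_support_iff.1 hα)
      rw [Finsupp.weight_apply, Finsupp.sum_fintype _ _ (by simp)] at h1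
      simpa using h1
    · intro α _ hα
      rw [MvPolynomial.notMem_support_iff.1 hα, zero_mul]
  refine ⟨?_, ?_⟩
  · simp only [hsum]
    refine DifferentiableOn.fun_sum fun α _ => ?_
    rintro ⟨z, w⟩ ⟨hz, hw⟩
    refine DifferentiableAt.differentiableWithinAt ?_
    refine DifferentiableAt.mul ?_ ?_
    · have h1 : DifferentiableAt ℂ (fun w => (P w).coeff α) w :=
        ((hP' α) w hw).differentiableAt (hW.mem_nhds hw)
      exact DifferentiableAt.comp (z, w) (g := fun w => (P w).coeff α)
        (f := fun p : (ι → ℂ) × E => p.2) h1 differentiableAt_snd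
    · exact differentiableAt_prod Finset.univ (fun l (p : (ι → ℂ) × E) => p.1 l ^ α l)
        fun l _ => by fun_prop
  · intro z _ w _ t _
    simp only
    rw [hsum (t • z, w), hsum (z, w), Finset.mul_sum]
    refine Finset.sum_congr rfl fun α hα => ?_
    rw [Finset.mem_finsuppAntidiag] at hα
    simp only [Pi.smul_apply, smul_eq_mul, mul_pow, Finset.prod_mul_distrib]
    rw [Finset.prod_pow_eq_pow_sum]
    have h1 : ∑ i, α i = d := hα.1
    rw [h1, zpow_natCast]
    ring

end Groth.Agent.Gaga.H989.LauPoly
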