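import Groth.Agent.Gaga.H989.LauGerm
import Groth.Agent.Gaga.H989.LauPoly
import Groth.Agent.Gaga.H294.Cone

/-!
# Čech germ cochains of `O(j)` along the fibre `P^n(ℂ) × {y}`

`C : HomCoords X ι κ` homogeneous coordinates, `H : HomSheaf C F j` the explicit description of the
sections of `F = O(j)^an`, `Kc C y i = {|z l| ≤ |z i| for all l} × {y}`.

* `cech_exact`: for `j > - card ι` every all-tuples germ cocycle of positive degree for the closed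
  cover `Kc C y i` is a coboundary.
* `exists_poly_of_section`: sections over a set containing `p⁻¹(W₀)` are polynomials over `W₀`.
-/

set_option autoImplicit false
set_option linter.unusedSectionVars false

open CategoryTheory TopologicalSpace Opposite Topology
open Groth.Agent.Gaga.H989.LauDom Groth.Agent.Gaga.H989.LauHom Groth.Agent.Gaga.H989.LauGerm
open Groth.Agent.Gaga.H294.Cone

noncomputable section

namespace Groth.Agent.Gaga.H989.LauSheaf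

variable {X : TopCat.{0}} {ι κ : Type} [Fintype ι] [DecidableEq ι] [Fintype κ]

/-- The closed piece `{|z l| ≤ |z i|} × {y}` of the fibre over `y`. -/
def Kc (C : HomCoords X ι κ) (y : κ → ℂ) (i : ι) : Set X :=
  C.pt '' {p | p.1 ≠ 0 ∧ (∀ l, ‖p.1 l‖ ≤ ‖p.1 i‖) ∧ p.2 = y}

theorem mem_Kc_iff (C : HomCoords X ι κ) (y : κ → ℂ) (i : ι) {z : ι → ℂ} {w : κ → ℂ}
    (hz : z ≠ 0) : C.pt (z, w) ∈ Kc C y i ↔ (∀ l, ‖z l‖ ≤ ‖z i‖) ∧ w = y := by
  constructor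
  · rintro ⟨p, ⟨hp0, hp1, hp2⟩, hp⟩
    obtain ⟨h1, t, ht, h2⟩ := (C.pt_eq_iff p (z, w) hp0 hz).1 hp
    simp only at h1 h2
    refine ⟨fun l => ?_, by rw [← h1, hp2]⟩
    rw [h2]
    simp only [Pi.smul_apply, smul_eq_mul, norm_mul]
    exact mul_le_mul_of_nonneg_left (hp1 l) (norm_nonneg t)
  · rintro ⟨h1, h2⟩
    exact ⟨(z, w), ⟨hz, h1, h2⟩, rfl⟩

theorem mem_iInter_Kc (C : HomCoords X ι κ) (y : κ → ℂ) {m : ℕ} (J : Fin (m + 1) → ι) {x : X}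
    (hx : x ∈ ⋂ k, Kc C y (J k)) :
    ∃ z ∈ KC (Finset.univ.image J), C.pt (z, y) = x := by
  rw [Set.mem_iInter] at hx
  obtain ⟨p, ⟨hp0, hp1, hp2⟩, hp⟩ := hx 0
  obtain ⟨z, w⟩ := p
  simp only at hp0 hp1 hp2
  subst hp2
  refine ⟨z, ⟨hp0, ?_⟩, hp⟩
  intro i hi
  obtain ⟨k, -, rfl⟩ := Finset.mem_image.1 hi
  have := hx k
  rw [← hp, mem_Kc_iff C w (J k) hp0] at this
  exact this.1

theorem pt_mem_iInter_Kc (C : HomCoords X ι κ) (y : κ → ℂ) {m : ℕ} (J : Fin m → ι) {z : ι → ℂ}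
    (hz : z ∈ KC (Finset.univ.image J)) : C.pt (z, y) ∈ ⋂ k, Kc C y (J k) := by
  rw [Set.mem_iInter]
  intro k
  rw [mem_Kc_iff C y (J k) hz.1]
  exact ⟨hz.2 _ (Finset.mem_image_of_mem J (Finset.mem_univ k)), rfl⟩

theorem isOpen_cone (C : HomCoords X ι κ) (W : Opens X) : IsOpen (C.cone W) := by
  have h1 : IsOpen {p : (ι → ℂ) × (κ → ℂ) | p.1 ≠ 0} :=
    isOpen_ne.preimage continuous_fst
  exact C.continuousOn_pt.isOpen_inter_preimage h1 W.isOpen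

theorem smul_mem_cone (C : HomCoords X ι κ) (W : Opens X) {z : ι → ℂ} {w : κ → ℂ} {t : ℂ}
    (ht : t ≠ 0) (h : (z, w) ∈ C.cone W) : (t • z, w) ∈ C.cone W := by
  obtain ⟨h1, h2⟩ := h
  have h3 : (t • z, w).1 ≠ 0 := smul_ne_zero ht h1
  refine ⟨h3, ?_⟩
  have : C.pt (z, w) = C.pt (t • z, w) :=
    (C.pt_eq_iff (z, w) (t • z, w) h1 h3).2 ⟨rfl, t, ht, rfl⟩
  rw [← this]
  exact h2

/-- The open subset `{z ∈ Dom r I} × W₀` of `X`. -/
def op' (C : HomCoords X ι κ) (r : ℝ) {I : Finset ι} (hI : I.Nonempty) {W₀ : Set (κ → ℂ)}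
    (hW₀ : IsOpen W₀) : Opens X :=
  ⟨C.pt '' (Dom r I ×ˢ W₀), C.isOpen_image _ ((isOpen_Dom r I).prod hW₀)
    fun _ hp => ne_zero_of_mem hI hp.1⟩

theorem cone_op' (C : HomCoords X ι κ) (r : ℝ) {I : Finset ι} (hI : I.Nonempty) {W₀ : Set (κ → ℂ)}
    (hW₀ : IsOpen W₀) : C.cone (op' C r hI hW₀) = Dom r I ×ˢ W₀ := by
  ext ⟨z, w⟩
  constructor
  · rintro ⟨h0, ⟨p, ⟨hp1, hp2⟩, hp⟩⟩
    have hp0 : p.1 ≠ 0 := ne_zero_of_mem hI hp1
    obtain ⟨h1, t, ht, h2⟩ := (C.pt_eq_iff p (z, w) hp0 h0).1 hp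
    simp only at h1 h2
    refine ⟨?_, ?_⟩
    · change z ∈ Dom r I
      rw [h2]
      exact smul_mem_Dom hp1 ht
    · change w ∈ W₀
      rw [← h1]
      exact hp2
  · rintro ⟨h1, h2⟩
    exact ⟨ne_zero_of_mem hI h1, ⟨(z, w), ⟨h1, h2⟩, rfl⟩⟩

theorem op'_le (C : HomCoords X ι κ) (r : ℝ) {I : Finset ι} (hI : I.Nonempty) {W₀ : Set (κ → ℂ)}
    (hW₀ : IsOpen W₀) {W : Opens X} (h : Dom r I ×ˢ W₀ ⊆ C.cone W) : op' C r hI hW₀ ≤ W := by
  rintro x ⟨p, hp, rfl⟩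
  exact (h hp).2

theorem cone_mono (C : HomCoords X ι κ) {V W : Opens X} (h : V ≤ W) : C.cone V ⊆ C.cone W :=
  fun _ hp => ⟨hp.1, h hp.2⟩

theorem le_of_cone (C : HomCoords X ι κ) {V W : Opens X} (h : C.cone V ⊆ C.cone W) : V ≤ W := by
  intro x hx
  obtain ⟨p, hp, rfl⟩ := C.exists_pt x
  exact (h ⟨hp, hx⟩).2

section HomSheaf

variable {C : HomCoords X ι κ} {F : CohTop.Ab X} {j : ℤ} (H : HomSheaf C F j)

theorem ev_zero (W : Opens X) {p : (ι → ℂ) × (κ → ℂ)} (hp : p ∈ C.cone W) :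
    H.ev W 0 p = 0 := by
  have := H.ev_add W 0 0 p hp
  rw [add_zero] at this
  simpa using this

theorem ev_neg (W : Opens X) (s : F.obj.obj (op W)) {p : (ι → ℂ) × (κ → ℂ)}
    (hp : p ∈ C.cone W) : H.ev W (-s) p = - H.ev W s p := by
  have := H.ev_add W (-s) s p hp
  rw [neg_add_cancel, ev_zero H W hp] at this
  linear_combination -this

theorem ev_sum {α : Type*} (S : Finset α) (W : Opens X) (s : α → F.obj.obj (op W))
    {p : (ι → ℂ) × (κ → ℂ)} (hp : p ∈ C.cone W) :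
    H.ev W (∑ a ∈ S, s a) p = ∑ a ∈ S, H.ev W (s a) p := by
  classical
  induction S using Finset.induction_on with
  | empty => simpa using ev_zero H W hp
  | insert a S ha ih => rw [Finset.sum_insert ha, Finset.sum_insert ha, H.ev_add _ _ _ p hp, ih]

theorem ev_neg_one_pow (k : ℕ) (W : Opens X) (s : F.obj.obj (op W))
    {p : (ι → ℂ) × (κ → ℂ)} (hp : p ∈ C.cone W) :
    H.ev W ((-1 : ℤ) ^ k • s) p = (-1 : ℂ) ^ k * H.ev W s p := by
  rcases Nat.even_or_odd k with h | h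
  · rw [h.neg_one_pow, h.neg_one_pow, one_smul, one_mul]
  · rw [h.neg_one_pow, h.neg_one_pow, neg_smul, one_smul, ev_neg H W s hp]
    ring

theorem isO_ev {r : ℝ} {I : Finset ι} {W₀ : Set (κ → ℂ)} {W : Opens X}
    (h : Dom r I ×ˢ W₀ ⊆ C.cone W) (s : F.obj.obj (op W)) : IsO r j W₀ I (H.ev W s) :=
  ⟨(H.ev_diff W s).mono h, fun z hz w hw t ht => H.ev_hom W s (z, w) (h ⟨hz, hw⟩) t ht⟩

/-- Sections over `op'` are the `IsO` functions. -/
theorem exists_section {r : ℝ} {I : Finset ι} (hI : I.Nonempty) {W₀ : Set (κ → ℂ)}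
    (hW₀ : IsOpen W₀) {f : (ι → ℂ) × (κ → ℂ) → ℂ} (hf : IsO r j W₀ I f) :
    ∃ s : F.obj.obj (op (op' C r hI hW₀)), ∀ p ∈ Dom r I ×ˢ W₀,
      H.ev (op' C r hI hW₀) s p = f p := by
  obtain ⟨s, hs⟩ := H.ev_surj (op' C r hI hW₀) f (by rw [cone_op']; exact hf.diff)
    (by
      rw [cone_op']
      exact fun p hp t ht => hf.hom p.1 hp.1 p.2 hp.2 t ht)
  rw [cone_op'] at hs
  exact ⟨s, hs⟩

include H in
/-- **Exactness of the germ Čech complex of `O(j)`, `j > -(n+1)`, in positive degrees**, for the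
closed cover `Kc C y i` of the fibre over `y`, all-tuples version. -/
theorem cech_exact (hj : -(Fintype.card ι : ℤ) < j) (y : κ → ℂ) (q : ℕ)
    (W : (Fin (q + 2) → ι) → Opens X) (hW : ∀ J, (⋂ k, Kc C y (J k)) ⊆ W J)
    (s : ∀ J, F.obj.obj (op (W J)))
    (hs : ∀ J : Fin (q + 3) → ι, ∃ (V : Opens X) (hV : ∀ k : Fin (q + 3), V ≤ W (J ∘ k.succAbove)),
      (⋂ k, Kc C y (J k)) ⊆ V ∧
        ∑ k : Fin (q + 3), (-1 : ℤ) ^ (k : ℕ) •
          F.obj.map (homOfLE (hV k)).op (s (J ∘ k.succAbove)) = 0) :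
    ∃ (W' : (Fin (q + 1) → ι) → Opens X) (t : ∀ J, F.obj.obj (op (W' J))),
      (∀ J, (⋂ k, Kc C y (J k)) ⊆ W' J) ∧
      ∀ J : Fin (q + 2) → ι, ∃ (V : Opens X) (hV : V ≤ W J)
        (hV' : ∀ k : Fin (q + 2), V ≤ W' (J ∘ k.succAbove)), (⋂ k, Kc C y (J k)) ⊆ V ∧
        F.obj.map (homOfLE hV).op (s J) = ∑ k : Fin (q + 2), (-1 : ℤ) ^ (k : ℕ) •
          F.obj.map (homOfLE (hV' k)).op (t (J ∘ k.succAbove)) := by
  choose V hV hVK hV0 using hs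
  -- common radius and neighbourhood of `y`
  have himg : ∀ {m : ℕ} (J : Fin (m + 1) → ι), (Finset.univ.image J).Nonempty := fun J =>
    ⟨J 0, Finset.mem_image_of_mem J (Finset.mem_univ 0)⟩
  obtain ⟨r, hr, W₀, hW₀, hy, hsub⟩ := exists_Dom_subset_finite (E := κ → ℂ)
    (κ := (Fin (q + 2) → ι) ⊕ (Fin (q + 3) → ι))
    (Sum.elim (fun J => Finset.univ.image J) (fun J => Finset.univ.image J))
    (by rintro (J | J) <;> exact himg J)
    (U := Sum.elim (fun J => C.cone (W J)) (fun J => C.cone (V J)))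
    (by rintro (J | J) <;> exact isOpen_cone C _)
    (by rintro (J | J) z w t ht h <;> exact smul_mem_cone C _ ht h) y
    (by
      rintro (J | J) z hz
      · exact ⟨hz.1, hW J (pt_mem_iInter_Kc C y J hz)⟩
      · exact ⟨hz.1, hVK J (pt_mem_iInter_Kc C y J hz)⟩)
  have hsubW : ∀ J, Dom r (Finset.univ.image J) ×ˢ W₀ ⊆ C.cone (W J) := fun J => hsub (Sum.inl J)
  have hsubV : ∀ J, Dom r (Finset.univ.image J) ×ˢ W₀ ⊆ C.cone (V J) := fun J => hsub (Sum.inr J)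
  obtain ⟨b, hb, hb'⟩ := LauCech.cech_pos hr hj hW₀ q (fun J => H.ev (W J) (s J))
    (fun J => isO_ev H (hsubW J) (s J)) (by
      intro J p hp
      have hpV : p ∈ C.cone (V J) := hsubV J hp
      have h1 := congrArg (fun σ => H.ev (V J) σ p) (hV0 J)
      simp only [ev_sum H _ _ _ hpV, ev_neg_one_pow H _ _ _ hpV, ev_zero H _ hpV,
        H.ev_res _ _ (hV J _) _ p hpV] at h1
      exact h1)
  choose t ht using fun J : Fin (q + 1) → ι => exists_section H (himg J) hW₀ (hb J)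
  have hmono : ∀ (J : Fin (q + 2) → ι) (k : Fin (q + 2)),
      op' C r (himg J) hW₀ ≤ op' C r (himg (J ∘ k.succAbove)) hW₀ := by
    intro J k
    refine le_of_cone C ?_
    rw [cone_op', cone_op']
    exact Set.prod_mono (Dom_mono (LauCech.image_univ_comp_subset J _)) subset_rfl
  have hK : ∀ {m : ℕ} (J : Fin (m + 1) → ι), (⋂ k, Kc C y (J k)) ⊆ op' C r (himg J) hW₀ := by
    intro m J x hx
    obtain ⟨z, hz, rfl⟩ := mem_iInter_Kc C y J hx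
    exact ⟨(z, y), ⟨KC_subset_Dom hr _ hz, hy⟩, rfl⟩
  refine ⟨fun J => op' C r (himg J) hW₀, t, fun J => hK J, fun J =>
    ⟨op' C r (himg J) hW₀, op'_le C r (himg J) hW₀ (hsubW J), hmono J, hK J, ?_⟩⟩
  refine H.ev_inj _ _ _ fun p hp => ?_
  have hp' : p ∈ Dom r (Finset.univ.image J) ×ˢ W₀ := by rwa [cone_op'] at hp
  rw [H.ev_res _ _ _ _ p hp, hb' J p hp', ev_sum H _ _ _ hp]
  refine Finset.sum_congr rfl fun k _ => ?_
  rw [ev_neg_one_pow H _ _ _ hp, H.ev_res _ _ (hmono J k) _ p hp]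
  have hp'' : p ∈ Dom r (Finset.univ.image (J ∘ k.succAbove)) ×ˢ W₀ :=
    Set.prod_mono (Dom_mono (LauCech.image_univ_comp_subset J _)) subset_rfl hp'
  rw [ht (J ∘ k.succAbove) p hp'']

theorem exists_mem_Dom_singleton {r : ℝ} (hr : 1 < r) {z : ι → ℂ} (hz : z ≠ 0) :
    ∃ i, z ∈ Dom r {i} := by
  have hne : Nonempty ι := by
    by_contra h
    rw [not_nonempty_iff] at h
    exact hz (Subsingleton.elim _ _)
  obtain ⟨i, -, hi⟩ := Finset.exists_max_image Finset.univ (fun i => ‖z i‖)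
    Finset.univ_nonempty
  refine ⟨i, KC_subset_Dom hr {i} ⟨hz, ?_⟩⟩
  intro i' hi' l
  rw [Finset.mem_singleton] at hi'
  subst hi'
  exact hi l (Finset.mem_univ l)

/-- **Sections over `p⁻¹(W₀)` are polynomials** with coefficients holomorphic on `W₀`. -/
theorem exists_poly_of_section [Nonempty ι] {d : ℕ} (H : HomSheaf C F d) {W₀ : Set (κ → ℂ)}
    (hW₀ : IsOpen W₀) (W : Opens X) (hW : ∀ z : ι → ℂ, z ≠ 0 → ∀ w ∈ W₀, (z, w) ∈ C.cone W)
    (s : F.obj.obj (op W)) :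
    ∃ P : (κ → ℂ) → MvPolynomial ι ℂ, (∀ w, (P w).IsHomogeneous d) ∧
      (∀ α, DifferentiableOn ℂ (fun w => (P w).coeff α) W₀) ∧
      ∀ z : ι → ℂ, z ≠ 0 → ∀ w ∈ W₀, H.ev W s (z, w) = MvPolynomial.eval z (P w) := by
  have hj : -(Fintype.card ι : ℤ) < (d : ℤ) := by
    have : 0 < Fintype.card ι := Fintype.card_pos
    omega
  have hr : (1 : ℝ) < 2 := by norm_num
  have hsub : ∀ i : ι, Dom 2 {i} ×ˢ W₀ ⊆ C.cone W := fun i p hp =>
    hW p.1 (ne_zero_of_mem (Finset.singleton_nonempty i) hp.1) p.2 hp.2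
  obtain ⟨G, hG, hG'⟩ := LauCech.cech_deg_zero hr hj hW₀ (fun _ => H.ev W s)
    (fun i => isO_ev H (hsub i) s) (fun _ _ _ _ => rfl)
  obtain ⟨P, hP1, hP2, hP3⟩ := LauPoly.exists_poly hW₀ d hG
  refine ⟨P, hP1, hP2, fun z hz w hw => ?_⟩
  obtain ⟨i, hi⟩ := exists_mem_Dom_singleton hr hz
  rw [hG' i (z, w) ⟨hi, hw⟩, hP3 z w hw]

/-- For `j < 0` (and `j > - card ι`) there are no sections over `p⁻¹(W₀)`. -/
theorem eq_zero_of_section [Nonempty ι] (hj : -(Fintype.card ι : ℤ) < j) (hj' : j < 0)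
    {W₀ : Set (κ → ℂ)}
    (hW₀ : IsOpen W₀) (W : Opens X) (hW : ∀ z : ι → ℂ, z ≠ 0 → ∀ w ∈ W₀, (z, w) ∈ C.cone W)
    (s : F.obj.obj (op W)) :
    ∀ z : ι → ℂ, z ≠ 0 → ∀ w ∈ W₀, H.ev W s (z, w) = 0 := by
  have hr : (1 : ℝ) < 2 := by norm_num
  have hsub : ∀ i : ι, Dom 2 {i} ×ˢ W₀ ⊆ C.cone W := fun i p hp =>
    hW p.1 (ne_zero_of_mem (Finset.singleton_nonempty i) hp.1) p.2 hp.2
  obtain ⟨G, hG, hG'⟩ := LauCech.cech_deg_zero hr hj hW₀ (fun _ => H.ev W s)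
    (fun i => isO_ev H (hsub i) s) (fun _ _ _ _ => rfl)
  intro z hz w hw
  obtain ⟨i, hi⟩ := exists_mem_Dom_singleton hr hz
  rw [hG' i (z, w) ⟨hi, hw⟩]
  exact eq_zero_of_neg hj' hW₀ hG z hw

/-- Every neighbourhood of the fibre over `y` contains `p⁻¹(W₀)` for a neighbourhood `W₀` of `y`. -/
theorem exists_tube [Nonempty ι] (C : HomCoords X ι κ) (y : κ → ℂ) (W : Opens X)
    (hW : ∀ z : ι → ℂ, z ≠ 0 → C.pt (z, y) ∈ W) :
    ∃ W₀ : Set (κ → ℂ), IsOpen W₀ ∧ y ∈ W₀ ∧ ∀ z : ι → ℂ, z ≠ 0 → ∀ w ∈ W₀, (z, w) ∈ C.cone W := by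
  obtain ⟨r, hr, W₀, hW₀, hy, hsub⟩ := exists_Dom_subset_finite (E := κ → ℂ) (κ := ι)
    (fun i => {i}) (fun i => Finset.singleton_nonempty i) (U := fun _ => C.cone W)
    (fun _ => isOpen_cone C W) (fun _ z w t ht h => smul_mem_cone C W ht h) y
    (fun i z hz => ⟨hz.1, hW z hz.1⟩)
  refine ⟨W₀, hW₀, hy, fun z hz w hw => ?_⟩
  obtain ⟨i, hi⟩ := exists_mem_Dom_singleton hr hz
  exact hsub i ⟨hi, hw⟩

/-- Polynomials give sections. -/
theorem exists_section_of_poly {d : ℕ} (H : HomSheaf C F d) {W₀ : Set (κ → ℂ)}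
    (hW₀ : IsOpen W₀) (W : Opens X) (hW : ∀ p ∈ C.cone W, p.2 ∈ W₀)
    (P : (κ → ℂ) → MvPolynomial ι ℂ) (hP : ∀ w, (P w).IsHomogeneous d)
    (hP' : ∀ α, DifferentiableOn ℂ (fun w => (P w).coeff α) W₀) :
    ∃ s : F.obj.obj (op W), ∀ p ∈ C.cone W, H.ev W s p = MvPolynomial.eval p.1 (P p.2) := by
  have h1 := LauPoly.isO_poly (2 : ℝ) hW₀ d P hP hP' (∅ : Finset ι)
  have hsub : C.cone W ⊆ Dom 2 (∅ : Finset ι) ×ˢ W₀ := fun p hp => ⟨by simp, hW p hp⟩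
  exact H.ev_surj W _ (h1.diff.mono hsub)
    (fun p hp t ht => h1.hom p.1 (by simp) p.2 (hW p hp) t ht)

end HomSheaf

end Groth.Agent.Gaga.H989.LauSheaf
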