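import Groth.Agent.Gaga.H988.PnPts
import Groth.Prelude.Def_Twist2
import Groth.Prelude.Def_AnHol

/-!
# Values of homogeneous fractions at the complex points of projective space

`IsVal x e q c` : the fraction `q` of the local ring at `x` has value `c` under `e`.
`isVal_ev` : the value of a regular function at `pnt χ z` is the value of the corresponding fraction.
-/

set_option autoImplicit false

open CategoryTheory TopologicalSpace Opposite AlgebraicGeometry

noncomputable section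

namespace Groth.Agent.Gaga.H989.OAnVal

open Groth.Agent.Gaga.H988.PnPts CohB1 HomogeneousLocalization

section IsVal

variable {R A : Type} [CommRing R] [CommRing A] [Algebra R A] {𝒜 : ℕ → Submodule R A} [GradedAlgebra 𝒜]

/-- The fraction `q` has value `c`. -/
def IsVal (x : ProjectiveSpectrum 𝒜) (e : A →+* ℂ) (q : Twist.Loc 𝒜 x) (c : ℂ) : Prop :=
  ∃ (a s : A) (hs : s ∉ x.asHomogeneousIdeal.toIdeal), q = Localization.mk a ⟨s, hs⟩ ∧ e s ≠ 0 ∧ c * e s = e a

variable {x : ProjectiveSpectrum 𝒜} {e : A →+* ℂ}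

theorem isVal_mk (a s : A) (hs : s ∉ x.asHomogeneousIdeal.toIdeal) (h : e s ≠ 0) :
    IsVal x e (Localization.mk a ⟨s, hs⟩) (e a / e s) := ⟨a, s, hs, rfl, h, div_mul_cancel₀ _ h⟩

theorem IsVal.unique [IsDomain A] {q : Twist.Loc 𝒜 x} {c c' : ℂ} (h : IsVal x e q c) (h' : IsVal x e q c') :
    c = c' := by
  obtain ⟨a, s, hs, rfl, h1, h2⟩ := h
  obtain ⟨a', s', hs', h3, h1', h2'⟩ := h'
  rw [Localization.mk_eq_mk_iff, Localization.r_iff_exists] at h3
  obtain ⟨u, hu⟩ := h3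
  have hu0 : (u : A) ≠ 0 := fun h0 => u.2 (by rw [h0]; exact Ideal.zero_mem _)
  have h4 := congrArg e (mul_left_cancel₀ hu0 hu)
  simp only [map_mul] at h4
  have h5 : (c - c') * (e s * e s') = 0 := by
    have : (c - c') * (e s * e s') = e s' * (c * e s) - e s * (c' * e s') := by ring
    rw [this, h2, h2', h4, sub_self]
  exact sub_eq_zero.1 ((mul_eq_zero.1 h5).resolve_right (mul_ne_zero h1 h1'))

theorem IsVal.add {q q' : Twist.Loc 𝒜 x} {c c' : ℂ} (h : IsVal x e q c) (h' : IsVal x e q' c') :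
    IsVal x e (q + q') (c + c') := by
  obtain ⟨a, s, hs, rfl, h1, h2⟩ := h
  obtain ⟨a', s', hs', rfl, h1', h2'⟩ := h'
  refine ⟨s * a' + s' * a, s * s', fun h => (x.isPrime.mem_or_mem h).elim hs hs', ?_, ?_, ?_⟩
  · rw [Localization.add_mk]
    rfl
  · rw [map_mul]
    exact mul_ne_zero h1 h1'
  · rw [map_add, map_mul, map_mul, map_mul, ← h2, ← h2']
    ring

theorem IsVal.mul {q q' : Twist.Loc 𝒜 x} {c c' : ℂ} (h : IsVal x e q c) (h' : IsVal x e q' c') :
    IsVal x e (q * q') (c * c') := by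
  obtain ⟨a, s, hs, rfl, h1, h2⟩ := h
  obtain ⟨a', s', hs', rfl, h1', h2'⟩ := h'
  refine ⟨a * a', s * s', fun h => (x.isPrime.mem_or_mem h).elim hs hs', ?_, ?_, ?_⟩
  · rw [Localization.mk_mul]
    rfl
  · rw [map_mul]
    exact mul_ne_zero h1 h1'
  · rw [map_mul, map_mul, ← h2, ← h2']
    ring

variable (x e) in
/-- The value of a fraction. -/
def val (q : Twist.Loc 𝒜 x) : ℂ := by
  classical exact if h : ∃ c, IsVal x e q c then h.choose else 0

theorem val_eq [IsDomain A] {q : Twist.Loc 𝒜 x} {c : ℂ} (h : IsVal x e q c) : val x e q = c := by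
  have h' : ∃ c, IsVal x e q c := ⟨c, h⟩
  have : val x e q = h'.choose := dif_pos h'
  rw [this]
  exact h'.choose_spec.unique h

end IsVal

variable {n : ℕ} {R : Type} [CommRing R] [Algebra ℂ R] [(ProjSpace n R).Over An.SC] [StdOver n R]
  (χ : R →ₐ[ℂ] ℂ) (z : Fin (n + 1) → ℂ) (hz : z ≠ 0)

/-- The point of `Proj` under a complex point. -/
abbrev ppt : ProjectiveSpectrum (polyGrading n R) := (pnt χ z hz).pt

theorem notMem_iff {s : MvPolynomial (Fin (n + 1)) R} {m : ℕ} (hs : s ∈ polyGrading n R m) :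
    s ∉ (ppt χ z hz).asHomogeneousIdeal.toIdeal ↔ evA χ z s ≠ 0 := by
  obtain ⟨i, hi⟩ := Function.ne_iff.1 hz
  have hX := Groth.Agent.CohqB.ProjBC.X_mem (A := R) n i
  have h1 := pnt_mem_iff χ z hz hX one_pos
  have h2 := pnt_mem_iff χ z hz (SetLike.mul_mem_graded hs hX) (Nat.succ_pos m)
  have h3 : (MvPolynomial.X i : MvPolynomial (Fin (n + 1)) R) ∉ (ppt χ z hz).asHomogeneousIdeal.toIdeal := by
    refine h1.2 ?_
    rw [evA_X]
    exact hi
  constructor
  · intro h h0
    refine h2.1 (fun h' => ((ppt χ z hz).isPrime.mem_or_mem h').elim h h3) ?_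
    rw [map_mul, h0, zero_mul]
  · intro h h'
    refine h2.2 ?_ (Ideal.mul_mem_right _ _ h')
    rw [map_mul, evA_X]
    exact mul_ne_zero h hi

/-- The germ of a regular function, as a fraction. -/
def loc {U : (ProjSpace n R).Opens} (r : Γ(ProjSpace n R, U)) (x : ProjectiveSpectrum (polyGrading n R)) (h : x ∈ U) :
    Twist.Loc (polyGrading n R) x := (r.1 ⟨x, h⟩).val

omit [Algebra ℂ R] [(ProjSpace n R).Over An.SC] [StdOver n R] in
theorem exists_basic {V : (ProjSpace n R).Opens} {x : ProjectiveSpectrum (polyGrading n R)} (hx : x ∈ V) :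
    ∃ (m : ℕ) (f : MvPolynomial (Fin (n + 1)) R), f ∈ polyGrading n R m ∧ f ∉ x.asHomogeneousIdeal.toIdeal ∧
      ∀ y : ProjectiveSpectrum (polyGrading n R), f ∉ y.asHomogeneousIdeal.toIdeal → y ∈ V := by
  obtain ⟨_, ⟨f, rfl⟩, h1, h2⟩ := (ProjectiveSpectrum.isTopologicalBasis_basic_opens
    (polyGrading n R)).exists_subset_of_mem_open hx V.2
  have h3 := ProjectiveSpectrum.basicOpen_eq_union_of_projection (polyGrading n R) f
  have h4 : x ∈ ProjectiveSpectrum.basicOpen (polyGrading n R) f := h1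
  rw [h3] at h4
  obtain ⟨i, hi⟩ := Opens.mem_iSup.1 h4
  refine ⟨i, GradedRing.proj (polyGrading n R) i f, ?_, hi, fun y hy => h2 ?_⟩
  · rw [GradedRing.proj_apply]
    exact SetLike.coe_mem _
  · change y ∈ ProjectiveSpectrum.basicOpen (polyGrading n R) f
    rw [h3]
    exact Opens.mem_iSup.2 ⟨i, hy⟩

/-- The value of a regular function at a complex point is the value of the fraction. -/
theorem isVal_ev {U : (ProjSpace n R).Opens} (h : (pnt χ z hz).pt ∈ U) (r : Γ(ProjSpace n R, U)) :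
    IsVal (ppt χ z hz) (evA χ z) (loc r (ppt χ z hz) h) ((pnt χ z hz).ev U h r) := by
  obtain ⟨V, hxV, k, d, a, s, nin, w⟩ := r.2 ⟨(pnt χ z hz).pt, h⟩
  obtain ⟨m, f, hf, hfx, hfV⟩ := exists_basic (V := V) hxV
  obtain ⟨i, hi⟩ := Function.ne_iff.1 hz
  have hX := Groth.Agent.CohqB.ProjBC.X_mem (A := R) n i
  have hmt : s.1 * (f * MvPolynomial.X i) ∈ polyGrading n R (d + (m + 1)) :=
    SetLike.mul_mem_graded s.2 (SetLike.mul_mem_graded hf hX)
  have hma : a.1 * (f * MvPolynomial.X i) ∈ polyGrading n R (1 • (d + (m + 1))) := by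
    rw [one_smul]
    exact SetLike.mul_mem_graded a.2 (SetLike.mul_mem_graded hf hX)
  have hs : evA χ z s.1 ≠ 0 := (notMem_iff χ z hz s.2).1 (nin ⟨_, hxV⟩)
  have hf0 : evA χ z f ≠ 0 := (notMem_iff χ z hz hf).1 hfx
  have ht0 : evA χ z (s.1 * (f * MvPolynomial.X i)) ≠ 0 := by
    rw [map_mul, map_mul, evA_X]
    exact mul_ne_zero hs (mul_ne_zero hf0 hi)
  have hmem : (pnt χ z hz).pt ∈ Dp (s.1 * (f * MvPolynomial.X i)) :=
    (pnt_mem_iff χ z hz hmt (Nat.succ_pos _)).2 ht0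
  have hle' : ∀ y : ProjectiveSpectrum (polyGrading n R), y ∈ Dp (s.1 * (f * MvPolynomial.X i)) → y ∈ V :=
    fun y hy => hfV y fun h' => hy (Ideal.mul_mem_left _ _ (Ideal.mul_mem_right _ _ h'))
  have hle : Dp (s.1 * (f * MvPolynomial.X i)) ≤ U := fun y hy => k.le (hle' y hy)
  have key : (ProjSpace n R).presheaf.map (homOfLE hle).op r =
      (sec (s.1 * (f * MvPolynomial.X i))).hom (Away.mk _ hmt 1 (a.1 * (f * MvPolynomial.X i)) hma) := by
    refine Subtype.ext (funext fun y => HomogeneousLocalization.val_injective _ ?_)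
    have h1 : (r.1 ⟨y.1, hle y.2⟩).val = Localization.mk a.1 ⟨s.1, nin ⟨y.1, hle' y.1 y.2⟩⟩ :=
      congrArg HomogeneousLocalization.val (w ⟨y.1, hle' y.1 y.2⟩)
    refine Eq.trans h1 ?_
    refine Eq.trans (b := Localization.mk (a.1 * (f * MvPolynomial.X i))
      ⟨(s.1 * (f * MvPolynomial.X i)) ^ 1, ?_⟩) ?_ rfl
    · rw [pow_one]
      exact y.2
    · rw [Localization.mk_eq_mk_iff, Localization.r_iff_exists]
      refine ⟨1, ?_⟩
      simp only [OneMemClass.coe_one, one_mul]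
      ring
  have hev : (pnt χ z hz).ev U h r = evA χ z a.1 / evA χ z s.1 := by
    have h1 := An.ev_res (pnt χ z hz) hle hmem r
    rw [← h1, key, ev_pnt χ z hz hmt (Nat.succ_pos _) hmem 1 _ hma, pow_one, map_mul, map_mul, map_mul, map_mul,
      evA_X]
    exact mul_div_mul_right _ _ (mul_ne_zero hf0 hi)
  rw [hev]
  have h2 : loc r (ppt χ z hz) h = Localization.mk a.1 ⟨s.1, nin ⟨_, hxV⟩⟩ :=
    congrArg HomogeneousLocalization.val (w ⟨_, hxV⟩)
  rw [h2]
  exact isVal_mk _ _ _ hs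

end Groth.Agent.Gaga.H989.OAnVal
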