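import Groth.Agent.Gaga.H989.OAn
import Groth.Agent.Gaga.H989.OAnVal
import Groth.Agent.Ega2.TwistInv

/-!
# `O(j)^an` is the sheaf of homogeneous holomorphic functions of degree `j` on the cone

`X = P^n_R` with `R` a domain over `ℂ`, `C` homogeneous coordinates of `X(ℂ)` of the form `pnt` (`Std C`) and
`HolIff C`. `toOAn : O(j) ⟶ anPush (OAn j)`, `isIso_toOAn : O(j)^an ≅ OAn j`, and
`homSheaf : HomSheaf C (toAb (O(j)^an)) j`.
-/

set_option autoImplicit false

open CategoryTheory TopologicalSpace Opposite AlgebraicGeometry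

noncomputable section

namespace Groth.Agent.Gaga.H989.OAnMap

open Groth.Agent.Gaga.H294.Cone Groth.Agent.Gaga.H975.ModSec Groth.Agent.Gaga.H988.PnPts CohB1
  Groth.Agent.Gaga.H989.OAn Groth.Agent.Gaga.H989.OAnVal

open Groth.Agent.Gaga.H986.Pull (pre ofPush toPush cm)

variable {n : ℕ} {R : Type} [CommRing R] [Algebra ℂ R] [(ProjSpace n R).Over An.SC] [StdOver n R]
  {κ : Type} [Fintype κ] (C : HomCoords (An.top (ProjSpace n R)) (Fin (n + 1)) κ)

/-- The homogeneous coordinates are the standard ones. -/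
structure Std where
  /-- the point of the base -/
  b : (κ → ℂ) → (R →ₐ[ℂ] ℂ)
  pt_eq : ∀ (p : (Fin (n + 1) → ℂ) × (κ → ℂ)) (hp : p.1 ≠ 0), C.pt p = pnt (b p.2) p.1 hp
  diff : ∀ r : R, Differentiable ℂ (fun w => b w r)

variable {C} (S : Std C)

/-- Evaluation at a point of the cone. -/
def E (p : (Fin (n + 1) → ℂ) × (κ → ℂ)) : MvPolynomial (Fin (n + 1)) R →+* ℂ := evA (S.b p.2) p.1

theorem E_X (p : (Fin (n + 1) → ℂ) × (κ → ℂ)) (i : Fin (n + 1)) : E S p (MvPolynomial.X i) = p.1 i := evA_X _ _ _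

theorem E_smul (p : (Fin (n + 1) → ℂ) × (κ → ℂ)) (t : ℂ) {m : ℕ} {a : MvPolynomial (Fin (n + 1)) R}
    (ha : a ∈ polyGrading n R m) : E S (t • p.1, p.2) a = t ^ m * E S p a := evA_smul _ _ _ ha

theorem differentiable_E (a : MvPolynomial (Fin (n + 1)) R) : Differentiable ℂ (fun p => E S p a) := by
  induction a using MvPolynomial.induction_on with
  | C r =>
    have h : (fun p => E S p (MvPolynomial.C r)) = (fun w => S.b w r) ∘ Prod.snd := funext fun p => evA_C _ _ _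
    rw [h]
    exact (S.diff r).comp differentiable_snd
  | add a b ha hb =>
    simp only [map_add]
    exact ha.add hb
  | mul_X a i ha =>
    simp only [map_mul, E_X]
    refine ha.mul ?_
    fun_prop

/-- The point of `Proj` under a complex point. -/
abbrev ps (x : An.Pts (ProjSpace n R)) : ProjectiveSpectrum (polyGrading n R) := x.pt

/-- The preimage in `X(ℂ)`. -/
abbrev preX (U : (ProjSpace n R).Opens) : Opens (An.top (ProjSpace n R)) := (An.baseF (ProjSpace n R)).obj U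

omit [Algebra ℂ R] [StdOver n R] in
theorem mem_preX {U : (ProjSpace n R).Opens} {x : An.top (ProjSpace n R)} : x ∈ preX U ↔ An.Pts.pt x ∈ U := Iff.rfl

theorem notMem_iff' {p : (Fin (n + 1) → ℂ) × (κ → ℂ)} (hp : p.1 ≠ 0) {s : MvPolynomial (Fin (n + 1)) R} {m : ℕ}
    (hs : s ∈ polyGrading n R m) :
    s ∉ (ps (C.pt p)).asHomogeneousIdeal.toIdeal ↔ E S p s ≠ 0 := by
  rw [S.pt_eq p hp]
  exact notMem_iff (S.b p.2) p.1 hp hs

omit [Algebra ℂ R] in
theorem IsVal.of_eq {A : Type} [CommRing A] [Algebra R A] {𝒜 : ℕ → Submodule R A} [GradedAlgebra 𝒜]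
    {x : ProjectiveSpectrum 𝒜} {e : A →+* ℂ} {q q' : Twist.Loc 𝒜 x} {c : ℂ} (h : q = q') (h1 : IsVal x e q' c) :
    IsVal x e q c := h ▸ h1

theorem isVal_ev' {p : (Fin (n + 1) → ℂ) × (κ → ℂ)} (hp : p.1 ≠ 0) {U : (ProjSpace n R).Opens}
    (h : (C.pt p).pt ∈ U) (r : Γ(ProjSpace n R, U)) :
    IsVal (ps (C.pt p)) (E S p) (loc r (C.pt p).pt h)
      (An.Pts.ev (C.pt p) U h r) := by
  have key : ∀ (x : An.Pts (ProjSpace n R)) (_ : x = pnt (S.b p.2) p.1 hp) (h : x.pt ∈ U),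
      IsVal (ps x) (E S p) (loc r x.pt h) (An.Pts.ev x U h r) := by
    rintro x rfl h
    exact isVal_ev (S.b p.2) p.1 hp h r
  exact key _ (S.pt_eq p hp) h

variable {j : ℤ}

open Classical in
/-- The function on the cone attached to a family of fractions. -/
def fn {U : (ProjSpace n R).Opens} (f : ∀ x : U, Twist.twistAt (polyGrading n R) j x.1)
    (p : (Fin (n + 1) → ℂ) × (κ → ℂ)) : ℂ :=
  if h : p ∈ C.cone (preX U) then
    val (ps (C.pt p)) (E S p) (f ⟨(C.pt p).pt, h.2⟩).1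
  else 0

theorem fn_of_mem {U : (ProjSpace n R).Opens} (f : ∀ x : U, Twist.twistAt (polyGrading n R) j x.1)
    {p : (Fin (n + 1) → ℂ) × (κ → ℂ)} (h : p ∈ C.cone (preX U)) : fn S f p =
      val (ps (C.pt p)) (E S p) (f ⟨(C.pt p).pt, h.2⟩).1 :=
  dif_pos h

theorem fn_of_notMem {U : (ProjSpace n R).Opens} (f : ∀ x : U, Twist.twistAt (polyGrading n R) j x.1)
    {p : (Fin (n + 1) → ℂ) × (κ → ℂ)} (h : p ∉ C.cone (preX U)) : fn S f p = 0 :=
  dif_neg h

theorem isVal_frac {p : (Fin (n + 1) → ℂ) × (κ → ℂ)} (hp : p.1 ≠ 0) {d : ℕ}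
    (a s : MvPolynomial (Fin (n + 1)) R) (hs : s ∈ polyGrading n R d)
    (hs' : s ∉ (ps (C.pt p)).asHomogeneousIdeal.toIdeal) :
    IsVal (ps (C.pt p)) (E S p) (Localization.mk a ⟨s, hs'⟩)
      (E S p a / E S p s) := isVal_mk _ _ hs' ((notMem_iff' S hp hs).1 hs')

theorem exists_isVal {U : (ProjSpace n R).Opens} {f : ∀ x : U, Twist.twistAt (polyGrading n R) j x.1}
    (hf : (Twist.isLocFracN (polyGrading n R) j).pred f) {p : (Fin (n + 1) → ℂ) × (κ → ℂ)}
    (h : p ∈ C.cone (preX U)) : ∃ c,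
      IsVal (ps (C.pt p)) (E S p) (f ⟨(C.pt p).pt, h.2⟩).1 c := by
  obtain ⟨V, hxV, k, i, d, a, s, hs, -, hfs⟩ := hf ⟨(C.pt p).pt, h.2⟩
  have h1 := hfs ⟨(C.pt p).pt, hxV⟩
  have h2 : (f ⟨(C.pt p).pt, h.2⟩).1 = Localization.mk a.1 ⟨s.1, hs ⟨(C.pt p).pt, hxV⟩⟩ := h1
  rw [h2]
  exact ⟨_, isVal_frac S h.1 a.1 s.1 s.2 _⟩

variable [IsDomain R]

theorem isVal_fn {U : (ProjSpace n R).Opens} {f : ∀ x : U, Twist.twistAt (polyGrading n R) j x.1}
    (hf : (Twist.isLocFracN (polyGrading n R) j).pred f) {p : (Fin (n + 1) → ℂ) × (κ → ℂ)}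
    (h : p ∈ C.cone (preX U)) :
    IsVal (ps (C.pt p)) (E S p) (f ⟨(C.pt p).pt, h.2⟩).1
      (fn S f p) := by
  obtain ⟨c, hc⟩ := exists_isVal S hf h
  rw [fn_of_mem S f h, val_eq hc]
  exact hc

theorem fn_eq {U V : (ProjSpace n R).Opens} (k : V ≤ U) (f : ∀ x : U, Twist.twistAt (polyGrading n R) j x.1)
    {i d : ℕ} (a : polyGrading n R i) (s : polyGrading n R d)
    (hs : ∀ x : V, s.1 ∉ (show ProjectiveSpectrum (polyGrading n R) from x.1).asHomogeneousIdeal.toIdeal)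
    (hf : ∀ x : V, (f ⟨x.1, k x.2⟩).1 = Localization.mk a.1 ⟨s.1, hs x⟩)
    {p : (Fin (n + 1) → ℂ) × (κ → ℂ)} (h : p ∈ C.cone (preX V)) :
    fn S f p = E S p a.1 / E S p s.1 := by
  rw [fn_of_mem S f ⟨h.1, k h.2⟩]
  have h2 : (f ⟨(C.pt p).pt, k h.2⟩).1 = Localization.mk a.1 ⟨s.1, hs ⟨(C.pt p).pt, h.2⟩⟩ :=
    hf ⟨(C.pt p).pt, h.2⟩
  rw [h2]
  exact val_eq (isVal_frac S h.1 a.1 s.1 s.2 _)

theorem fn_mem {U : (ProjSpace n R).Opens} {f : ∀ x : U, Twist.twistAt (polyGrading n R) j x.1}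
    (hf : (Twist.isLocFracN (polyGrading n R) j).pred f) : fn S f ∈ HF C j (preX U) := by
  refine ⟨fun p hp => ?_, fun p hp t ht => ?_, fun p hp => fn_of_notMem S f hp⟩
  · obtain ⟨V, hxV, k, i, d, a, s, hs, -, hfs⟩ := hf ⟨(C.pt p).pt, hp.2⟩
    have hpV : p ∈ C.cone (preX V) := ⟨hp.1, hxV⟩
    have h1 : DifferentiableAt ℂ (fun q => E S q a.1 / E S q s.1) p := by
      simp only [div_eq_mul_inv]
      exact (differentiable_E S a.1 p).mul
        ((differentiable_E S s.1 p).fun_inv ((notMem_iff' S hp.1 s.2).1 (hs ⟨_, hxV⟩)))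
    refine (h1.congr_of_eventuallyEq ?_).differentiableWithinAt
    filter_upwards [(isOpen_cone C (preX V)).mem_nhds hpV] with q hq
    exact fn_eq S k.le f a s hs hfs hq
  · obtain ⟨V, hxV, k, i, d, a, s, hs, hd, hfs⟩ := hf ⟨(C.pt p).pt, hp.2⟩
    have hpV : p ∈ C.cone (preX V) := ⟨hp.1, hxV⟩
    have e1 : fn S f p = E S p a.1 / E S p s.1 := fn_eq S k.le f a s hs hfs hpV
    have e2 : fn S f (t • p.1, p.2) = E S (t • p.1, p.2) a.1 / E S (t • p.1, p.2) s.1 :=
      fn_eq S k.le f a s hs hfs (smul_mem_cone C hpV ht)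
    rw [e1, e2]
    rcases hd with hd | hd
    · rw [E_smul S p t a.2, E_smul S p t s.2, mul_div_mul_comm, ← zpow_natCast, ← zpow_natCast,
        ← zpow_sub₀ ht]
      congr 2
      omega
    · have h0 : a.1 = 0 := hd
      rw [h0]
      simp

variable (hol : HolIff C)

/-- The function attached to a section of `O(j)`. -/
def fnS {U : (ProjSpace n R).Opens} (f : Twist.sectN (𝒜 := polyGrading n R) j (op U)) : HF C j (preX U) :=
  ⟨fn S f.1, fn_mem S f.2⟩

theorem fnS_add {U : (ProjSpace n R).Opens} (f g : Twist.sectN (𝒜 := polyGrading n R) j (op U)) :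
    fnS S (f + g) = fnS S f + fnS S g := HF_ext fun p hp => by
  change fn S (f + g).1 p = fn S f.1 p + fn S g.1 p
  have h1 := isVal_fn S f.2 hp
  have h2 := isVal_fn S g.2 hp
  exact (isVal_fn S (f + g).2 hp).unique (h1.add h2)

theorem fnS_smul {U : (ProjSpace n R).Opens} (r : Γ(ProjSpace n R, U))
    (f : Twist.sectN (𝒜 := polyGrading n R) j (op U)) :
    (fnS S (Groth.Agent.Ega2.TwistBasic.smulS j (U := U) r f)).1 =
      lft C (preX U) (cm (An.anRingHom (ProjSpace n R)) U r).1 * (fnS S f).1 := by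
  funext p
  by_cases hp : p ∈ C.cone (preX U)
  · rw [Pi.mul_apply, lft_of_mem C _ hp.2]
    refine (isVal_fn S (Groth.Agent.Ega2.TwistBasic.smulS j (U := U) r f).2 hp).unique ?_
    have h1 := (isVal_ev' S hp.1 hp.2 r).mul (isVal_fn S f.2 hp)
    have h2 := Groth.Agent.Ega2.TwistBasic.smulS_val j (U := U) r f ⟨(C.pt p).pt, hp.2⟩
    exact IsVal.of_eq h2 h1
  · rw [Pi.mul_apply, (fnS S f).2.2.2 p hp, mul_zero]
    exact (fnS S _).2.2.2 p hp

theorem fnS_res {U V : (ProjSpace n R).Opens} (h : V ≤ U) (f : Twist.sectN (𝒜 := polyGrading n R) j (op U)) :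
    fnS S (Twist.resN j (homOfLE h).op f) = resHF C j (fun _ hx => h hx) (fnS S f) := HF_ext fun p hp => by
  rw [resHF_apply _ _ hp]
  change fn S (Twist.resN j (homOfLE h).op f).1 p = fn S f.1 p
  exact (isVal_fn S (Twist.resN j (homOfLE h).op f).2 hp).unique
    (isVal_fn S f.2 (⟨hp.1, h hp.2⟩ : p ∈ C.cone (preX U)))

variable {S} in
theorem fnS_powSec (i : Fin (n + 1)) {U : (ProjSpace n R).Opens} (hU : U ≤ Dp (MvPolynomial.X i))
    {p : (Fin (n + 1) → ℂ) × (κ → ℂ)} (hp : p ∈ C.cone (preX U)) :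
    (fnS S (Groth.Agent.Ega2.TwistInv.powSec (𝒜 := polyGrading n R)
      ⟨MvPolynomial.X i, Groth.Agent.CohqB.ProjBC.X_mem n i⟩ j U (fun _ hx => hU hx))).1 p = p.1 i ^ j := by
  refine (fn_eq S (le_refl U) _ (Groth.Agent.Ega2.TwistInv.powOne (𝒜 := polyGrading n R)
    ⟨MvPolynomial.X i, Groth.Agent.CohqB.ProjBC.X_mem n i⟩ j.toNat)
    (Groth.Agent.Ega2.TwistInv.powOne (𝒜 := polyGrading n R)
    ⟨MvPolynomial.X i, Groth.Agent.CohqB.ProjBC.X_mem n i⟩ (-j).toNat)
    (fun x => Groth.Agent.Ega2.TwistInv.powOne_notMem (𝒜 := polyGrading n R)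
      (f := ⟨MvPolynomial.X i, Groth.Agent.CohqB.ProjBC.X_mem n i⟩) (x := x.1) (hU x.2) _)
    (fun x => rfl) hp).trans ?_
  have hi : p.1 i ≠ 0 := by
    have h1 := (notMem_iff' S hp.1 (Groth.Agent.CohqB.ProjBC.X_mem (A := R) n i)).1 (hU hp.2)
    rwa [E_X] at h1
  simp only [Groth.Agent.Ega2.TwistInv.powOne_val, map_pow, E_X]
  rw [← zpow_natCast, ← zpow_natCast, ← zpow_sub₀ hi]
  congr 1
  omega

/-- The map from `O(j)` to the direct image of `OAn`. -/
def toOAn : Twist.twistProjSpace n R j ⟶ (An.anPush (ProjSpace n R)).obj (OAn hol j) :=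
  homMk (R := (ProjSpace n R).sheaf) (M := Twist.twistProjSpace n R j)
    (N := (An.anPush (ProjSpace n R)).obj (OAn hol j))
    (fun _ => AddMonoidHom.mk' (fun f => toPush (An.anRingHom (ProjSpace n R)) (toSec hol j (fnS S f))) (fnS_add S))
    (fun _ r f => Subtype.ext (fnS_smul S r f))
    (fun _ _ h f => fnS_res S h f)

theorem ofSec_toOAn {U : (ProjSpace n R).Opens} (f : Twist.sectN (𝒜 := polyGrading n R) j (op U)) :
    ofSec hol j (ofPush (An.anRingHom (ProjSpace n R)) (app (R := (ProjSpace n R).sheaf) (toOAn S hol) U f)) =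
      fnS S f := rfl

omit [IsDomain R] [Algebra ℂ R] [StdOver n R] in
/-- A function on the cone which is homogeneous of degree zero comes from a function on the space. -/
theorem exists_desc {W : Opens (An.top (ProjSpace n R))} (F : (Fin (n + 1) → ℂ) × (κ → ℂ) → ℂ)
    (hF : ∀ p ∈ C.cone W, ∀ t : ℂ, t ≠ 0 → F (t • p.1, p.2) = F p) :
    ∃ g : W → ℂ, ∀ p ∈ C.cone W, lft C W g p = F p := by
  refine ⟨fun x => F (C.exists_pt x.1).choose, fun p hp => ?_⟩
  rw [lft_of_mem C _ hp.2]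
  have h := (C.exists_pt (C.pt p)).choose_spec
  obtain ⟨h1, t, ht, h2⟩ := (C.pt_eq_iff _ _ hp.1 h.1).1 h.2.symm
  change F (C.exists_pt (C.pt p)).choose = F p
  rw [← hF p hp t ht]
  congr 1
  exact Prod.ext h2 h1.symm

open Groth.Agent.Gaga.H294.GenIso in
theorem isIso_toOAn : IsIso (((An.analytifyAdj (ProjSpace n R)).homEquiv (Twist.twistProjSpace n R j)
    (OAn hol j)).symm (toOAn S hol)) := by
  refine isIso_analytify_adj (toOAn S hol) fun x => ?_
  obtain ⟨p, hp, rfl⟩ := C.exists_pt x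
  obtain ⟨i, hi⟩ := Function.ne_iff.1 hp
  have hxU : (C.pt p).pt ∈ Dp (MvPolynomial.X i : MvPolynomial (Fin (n + 1)) R) :=
    (notMem_iff' S hp (Groth.Agent.CohqB.ProjBC.X_mem (A := R) n i)).2 (by rw [E_X]; exact hi)
  have hne : ∀ q ∈ C.cone (preX (Dp (MvPolynomial.X i : MvPolynomial (Fin (n + 1)) R))), q.1 i ≠ 0 := by
    intro q hq
    have h1 := (notMem_iff' S hq.1 (Groth.Agent.CohqB.ProjBC.X_mem (A := R) n i)).1 hq.2
    rwa [E_X] at h1
  let s := (Groth.Agent.Ega2.TwistInv.powSec (𝒜 := polyGrading n R)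
      ⟨MvPolynomial.X i, Groth.Agent.CohqB.ProjBC.X_mem n i⟩ j (Dp (MvPolynomial.X i)) (fun _ hx => hx))
  have hs : ∀ q ∈ C.cone (preX (Dp (MvPolynomial.X i : MvPolynomial (Fin (n + 1)) R))),
      (fnS S s).1 q = q.1 i ^ j := fun q hq => fnS_powSec i (le_refl _) hq
  refine ⟨1, Dp (MvPolynomial.X i), hxU, fun _ => s, ?_, ?_, ?_⟩
  · intro V hxV m
    obtain ⟨c, hc⟩ := ((Groth.Agent.Ega2.TwistInv.isGen_powSec (𝒜 := polyGrading n R)
      ⟨MvPolynomial.X i, Groth.Agent.CohqB.ProjBC.X_mem n i⟩ j (Dp (MvPolynomial.X i)) (fun _ hx => hx))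
      (V ⊓ Dp (MvPolynomial.X i)) inf_le_right).2 (res (R := (ProjSpace n R).sheaf) (Twist.twistProjSpace n R j)
        (inf_le_left : V ⊓ Dp (MvPolynomial.X i) ≤ V) m)
    refine ⟨V ⊓ Dp (MvPolynomial.X i), inf_le_left, inf_le_right, ⟨hxV, hxU⟩, fun _ => c, ?_⟩
    rw [Fin.sum_univ_one]
    exact hc.symm
  · intro V hxV m
    have hW : C.cone (V ⊓ preX (Dp (MvPolynomial.X i : MvPolynomial (Fin (n + 1)) R))) ⊆ C.cone V :=
      cone_mono C inf_le_left
    have hW' : C.cone (V ⊓ preX (Dp (MvPolynomial.X i : MvPolynomial (Fin (n + 1)) R))) ⊆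
      C.cone (preX (Dp (MvPolynomial.X i : MvPolynomial (Fin (n + 1)) R))) := cone_mono C inf_le_right
    obtain ⟨g, hg⟩ := exists_desc (C := C) (W := V ⊓ preX (Dp (MvPolynomial.X i : MvPolynomial (Fin (n + 1)) R)))
      (fun q => (ofSec hol j m).1 q * (q.1 i ^ j)⁻¹) (fun q hq t ht => by
        rw [(ofSec hol j m).2.2.1 q (hW hq) t ht]
        simp only [Pi.smul_apply, smul_eq_mul, mul_zpow, mul_inv]
        have : t ^ j ≠ 0 := zpow_ne_zero _ ht
        field_simp)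
    have hd : DifferentiableOn ℂ (lft C _ g) (C.cone (V ⊓ preX (Dp (MvPolynomial.X i)))) := by
      refine DifferentiableOn.congr (f := fun q => (ofSec hol j m).1 q * (q.1 i ^ j)⁻¹) (fun q hq => ?_) hg
      have h1 : DifferentiableAt ℂ (fun q : (Fin (n + 1) → ℂ) × (κ → ℂ) => q.1 i) q := by fun_prop
      have h2 : DifferentiableAt ℂ (fun q : (Fin (n + 1) → ℂ) × (κ → ℂ) => (q.1 i) ^ j) q :=
        DifferentiableAt.comp (g := fun w : ℂ => w ^ j) q
          (differentiableAt_zpow.2 (Or.inl (hne q (hW' hq)))) h1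
      exact (((ofSec hol j m).2.1 q (hW hq)).mono hW).mul
        (h2.fun_inv (zpow_ne_zero _ (hne q (hW' hq)))).differentiableWithinAt
    refine ⟨V ⊓ preX (Dp (MvPolynomial.X i)), inf_le_left, inf_le_right, ⟨hxV, hxU⟩,
      fun _ => (⟨g, (hol _ g).2 hd⟩ : An.holSub _), ?_⟩
    rw [Fin.sum_univ_one]
    refine HF_ext fun q hq => ?_
    refine (resHF_apply (C := C) inf_le_left (ofSec hol j m) hq).trans ?_
    refine Eq.trans ?_ (congrFun (ofSec_smul hol j _ _) q).symm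
    rw [Pi.mul_apply, ofSec_res, resHF_apply _ _ hq, hg q hq, ofSec_toOAn, hs q (hW' hq)]
    exact (inv_mul_cancel_right₀ (zpow_ne_zero _ (hne q (hW' hq))) _).symm
  · intro V hVU hxV a h
    refine ⟨V, le_refl V, hxV, fun l => ?_⟩
    rw [resO_self]
    refine Subtype.ext (funext fun x' => ?_)
    obtain ⟨q, hq, hqx⟩ := C.exists_pt x'.1
    have hq' : q ∈ C.cone V := ⟨hq, hqx ▸ x'.2⟩
    rw [Fin.sum_univ_one] at h
    have h1 := congrArg (fun f : Sec (R := An.hol (ProjSpace n R)) (OAn hol j) V => (ofSec hol j f).1 q) h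
    dsimp only at h1
    rw [ofSec_smul, Pi.mul_apply, ofSec_res, resHF_apply _ _ hq', ofSec_toOAn, hs q (cone_mono C hVU hq'),
      lft_of_mem C _ hq'.2] at h1
    have h2 := (mul_eq_zero.1 h1).resolve_right (zpow_ne_zero _ (hne q (cone_mono C hVU hq')))
    have hl : l = 0 := Subsingleton.elim _ _
    subst hl
    have h3 : (⟨C.pt q, hq'.2⟩ : V) = x' := Subtype.ext hqx
    rw [h3] at h2
    exact h2

/-- `O(j)^an ≅ OAn j`. -/
def isoOAn : (An.analytify (ProjSpace n R)).obj (Twist.twistProjSpace n R j) ≅ OAn hol j :=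
  have := isIso_toOAn S hol (j := j)
  asIso (((An.analytifyAdj (ProjSpace n R)).homEquiv (Twist.twistProjSpace n R j) (OAn hol j)).symm (toOAn S hol))

/-- The sections of `O(j)^an` are the homogeneous holomorphic functions of degree `j` on the cone. -/
def homSheaf : HomSheaf C (An.AnMod.toAb ((An.analytify (ProjSpace n R)).obj (Twist.twistProjSpace n R j))) j :=
  HomSheaf.ofIso (homSheaf_OAn hol j) ((SheafOfModules.toSheaf (An.holRing (ProjSpace n R))).mapIso (isoOAn S hol))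

end Groth.Agent.Gaga.H989.OAnMap
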