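import Groth.Agent.Gaga.H988.PnInst
import Groth.Agent.Gaga.H988.Base
import Groth.Agent.Gaga.H294.FibreVan
import Groth.Agent.Gaga.H989.OAnMap

/-!
# `O(j)^an` on `P^n(ℂ) × ℂ^N`: the instance

`R = ℂ[y_1, …, y_N]` (`c : Coord N R`), `P = P^n_R`. `homSheaf c j : HomSheaf (homCoords c) (toAb (O(j)^an)) j`,
`indZero_fib`, and `acyc`: the cohomology of `O(j)^an` vanishes along the fibres of `P(ℂ) → (Spec R)(ℂ)`,
`j > -(n + 1)`.
-/

set_option autoImplicit false

open CategoryTheory TopologicalSpace Opposite AlgebraicGeometry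

noncomputable section

namespace Groth.Agent.Gaga.H989.OAnInst

open Groth.Agent.Gaga.H294.Cone Groth.Agent.Gaga.H988.PnPts Groth.Agent.Gaga.H988.PnCoord CohB1
  Groth.Agent.Gaga.H989.OAn Groth.Agent.Gaga.H989.OAnMap Groth.Agent.Gaga.H990.ChartAt
  Groth.Agent.Gaga.H41.Ind

variable {n N : ℕ} {R : Type} [CommRing R] [Algebra ℂ R] (c : Coord N R)
  [(ProjSpace n R).Over An.SC] [StdOver n R]

omit [(ProjSpace n R).Over An.SC] [StdOver n R] in
include c in
theorem isDomain_of_coord : IsDomain R :=
  (AlgEquiv.ofBijective _ c.bij).symm.toRingEquiv.toMulEquiv.isDomain _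

/-- Holomorphic functions are the differentiable functions on the cone. -/
theorem holIff : HolIff (homCoords (n := n) (R := R) c) := by
  intro W g
  rw [Groth.Agent.Gaga.H988.PnHol.holPred_iff c g]
  have h : Set.EqOn (fun q : E n N => ext0 W g (pt c q)) (lft (homCoords (n := n) (R := R) c) W g)
      ((homCoords (n := n) (R := R) c).cone W) := by
    intro q hq
    rw [lft_of_mem _ g hq.2]
    exact dif_pos hq.2
  exact ⟨fun h1 => h1.congr fun q hq => (h hq).symm, fun h1 => h1.congr h⟩

/-- The homogeneous coordinates are the standard ones. -/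
def std : Std (homCoords (n := n) (R := R) c) where
  b := c.chi
  pt_eq _ hp := pt_of_ne c hp
  diff := c.differentiable_chi

/-- `O(j)^an ≅ OAn j`. -/
def isoOAn' (j : ℤ) :
    (An.analytify (ProjSpace n R)).obj (Twist.twistProjSpace n R j) ≅ OAn (holIff (n := n) c) j :=
  have := isDomain_of_coord c
  isoOAn (std c) (holIff c)

/-- The sections of `O(j)^an` are the homogeneous holomorphic functions of degree `j` on the cone. -/
def homSheaf' (j : ℤ) : HomSheaf (homCoords (n := n) (R := R) c)
    (An.AnMod.toAb ((An.analytify (ProjSpace n R)).obj (Twist.twistProjSpace n R j))) j :=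
  have := isDomain_of_coord c
  homSheaf (std c) (holIff c)

/-- Vanishing along the fibres. -/
theorem indZero_fib [T2Space (An.top (ProjSpace n R))] {j : ℤ} (hj : -(n + 1 : ℤ) < j) (y : Fin N → ℂ) (q : ℕ) :
    IndZero (An.AnMod.toAb ((An.analytify (ProjSpace n R)).obj (Twist.twistProjSpace n R j)))
      ((homCoords (n := n) (R := R) c).fib y) (q + 1) :=
  (homSheaf' c j).indZero_fib (by simpa using hj) y q

variable [(Spec (CommRingCat.of R)).Over An.SC] [Groth.Agent.Gaga.H988.Base.StdB R]

theorem fib_eq (y : An.Pts (Spec (CommRingCat.of R))) :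
    ({x : An.Pts (ProjSpace n R) | An.Pts.map (ProjSpace.toSpec n R) x = y} : Set (An.top (ProjSpace n R))) =
      (homCoords (n := n) (R := R) c).fib ((Groth.Agent.Gaga.H988.Base.ptB c).symm y) := by
  ext x
  obtain ⟨p, hp, rfl⟩ := (homCoords (n := n) (R := R) c).exists_pt x
  rw [(homCoords (n := n) (R := R) c).pt_mem_fib _ hp]
  change An.Pts.map (ProjSpace.toSpec n R) (pt c p) = y ↔ _
  rw [Groth.Agent.Gaga.H988.Base.map_pt c hp, Homeomorph.eq_symm_apply]

include c in
/-- **Acyclicity of `O(k)^an`, `k > -(n + 1)`, along the fibres of `P^n_R → Spec R`.** -/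
theorem acyc [T2Space (An.top (ProjSpace n R))] {k : ℤ} (hk : -(n + 1 : ℤ) < k) (q : ℕ) (hq : 1 ≤ q)
    (y : An.Pts (Spec (CommRingCat.of R))) :
    IndZero (An.AnMod.toAb ((An.analytify (ProjSpace n R)).obj (Twist.twistProjSpace n R k)))
      {x : An.Pts (ProjSpace n R) | An.Pts.map (ProjSpace.toSpec n R) x = y} q := by
  obtain ⟨q, rfl⟩ := Nat.exists_eq_add_of_le' hq
  rw [fib_eq c y]
  exact indZero_fib c hk _ q

end Groth.Agent.Gaga.H989.OAnInst
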