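import Mathlib.RingTheory.Unramified.LocalRing
import Mathlib.RingTheory.Nakayama
import Mathlib.RingTheory.LocalRing.MaximalIdeal.Basic

/-!
# Comparing maximal ideals along maps inducing isomorphisms on completions
-/

set_option autoImplicit false

namespace Groth.Agent.Gaga.H989.Alg

open IsLocalRing

/-- `A` Noetherian local, `phi : A → B` with `A/m^2 → B/(mB)^2` "bijective". An ideal `I ≤ m` whose
extension to `B` is `m B` is `m`. -/
theorem eq_maximalIdeal_of_map_eq {A B : Type*} [CommRing A] [CommRing B] [IsLocalRing A]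
    [IsNoetherianRing A] (φ : A →+* B)
    (h1 : ∀ b : B, ∃ a : A, φ a - b ∈ (maximalIdeal A).map φ)
    (h2 : ∀ a : A, φ a ∈ ((maximalIdeal A).map φ) ^ 2 → a ∈ maximalIdeal A ^ 2)
    (I : Ideal A) (hI : I ≤ maximalIdeal A) (h : I.map φ = (maximalIdeal A).map φ) :
    I = maximalIdeal A := by
  apply le_antisymm hI
  have hfg : (maximalIdeal A).FG := IsNoetherian.noetherian _
  have key : maximalIdeal A ≤ I ⊔ maximalIdeal A • maximalIdeal A := by
    intro a ha
    have ha' : φ a ∈ I.map φ := by rw [h]; exact Ideal.mem_map_of_mem _ ha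
    -- every element of `I B` is congruent modulo `(m B)^2` to the image of an element of `I`
    have main : ∀ b ∈ I.map φ, ∃ c ∈ I, φ c - b ∈ ((maximalIdeal A).map φ) ^ 2 := by
      intro b hb
      unfold Ideal.map at hb
      refine Submodule.span_induction ?_ ?_ ?_ ?_ hb
      · rintro _ ⟨c, hc, rfl⟩
        exact ⟨c, hc, by simp⟩
      · exact ⟨0, zero_mem _, by simp⟩
      · rintro x y - - ⟨c, hc, hx⟩ ⟨d, hd, hy⟩
        refine ⟨c + d, add_mem hc hd, ?_⟩
        have : φ (c + d) - (x + y) = (φ c - x) + (φ d - y) := by rw [map_add]; ring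
        rw [this]
        exact add_mem hx hy
      · rintro r x hx ⟨c, hc, hx'⟩
        obtain ⟨s, hs⟩ := h1 r
        refine ⟨s * c, I.mul_mem_left _ hc, ?_⟩
        have hxm : φ c ∈ (maximalIdeal A).map φ := Ideal.mem_map_of_mem _ (hI hc)
        have : φ (s * c) - r • x = r * (φ c - x) + (φ s - r) * φ c := by
          rw [map_mul, smul_eq_mul]; ring
        rw [this]
        refine add_mem (Ideal.mul_mem_left _ _ hx') ?_
        rw [pow_two]
        exact Ideal.mul_mem_mul hs hxm
    obtain ⟨c, hc, hc'⟩ := main _ ha'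
    have h3 : c - a ∈ maximalIdeal A ^ 2 := h2 _ (by rwa [map_sub])
    have h4 : a = c + (-(c - a)) := by ring
    rw [h4]
    refine Submodule.add_mem_sup hc ?_
    rw [smul_eq_mul, ← pow_two]
    exact neg_mem h3
  exact Submodule.le_of_le_smul_of_le_jacobson_bot hfg (maximalIdeal_le_jacobson _) key

end Groth.Agent.Gaga.H989.Alg
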