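import Mathlib.Algebra.BigOperators.Fin
import Mathlib.Algebra.Group.Hom.Basic
import Mathlib.Algebra.Module.BigOperators
import Mathlib.Tactic.Abel

/-!
# The Čech complex attached to commuting idempotents

`M` an abelian group with commuting idempotent endomorphisms `P l`, `l : ι` (finite). The
all-tuples Čech complex with `C^q = {c : (Fin (q+1) → ι) → M | P m (c s) = c s for m ∉ range s}` is
exact in positive degrees if `⋂ ker P l = 0`.
-/

set_option autoImplicit false

namespace Groth.Agent.Gaga.H989.LauAlg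

variable {M : Type*} [AddCommGroup M] {ι : Type*} [Fintype ι]

theorem exists_partition (P : ι → M →+ M) (hc : ∀ l m f, P l (P m f) = P m (P l f))
    (hid : ∀ l f, P l (P l f) = P l f) :
    ∃ T : ι → (M →+ M), (∀ l m f, T l (P m f) = P m (T l f)) ∧
      ∀ f, ∀ m, P m (f - ∑ l, P l (T l f)) = 0 := by
  classical
  have key : ∀ S : Finset ι, ∃ T : ι → (M →+ M), (∀ l m f, T l (P m f) = P m (T l f)) ∧
      ∀ f, ∀ m ∈ S, P m (f - ∑ l ∈ S, P l (T l f)) = 0 := by
    intro S
    induction S using Finset.induction_on with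
    | empty => exact ⟨fun _ => 0, fun _ _ _ => by simp, fun _ _ h => by simp at h⟩
    | insert a S ha ih =>
      obtain ⟨T, hT, hT'⟩ := ih
      refine ⟨fun l => if l = a then AddMonoidHom.id M else T l - (P a).comp (T l), ?_, ?_⟩
      · intro l m f
        beta_reduce
        split_ifs with h
        · rfl
        · simp only [AddMonoidHom.sub_apply, AddMonoidHom.comp_apply, map_sub]
          rw [hT, hc a m]
      · intro f m hm
        have e : f - ∑ l ∈ insert a S, P l ((if l = a then AddMonoidHom.id M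
            else T l - (P a).comp (T l)) f) = (f - ∑ l ∈ S, P l (T l f)) -
              P a (f - ∑ l ∈ S, P l (T l f)) := by
          rw [Finset.sum_insert ha, if_pos rfl]
          have : ∑ l ∈ S, P l ((if l = a then AddMonoidHom.id M
              else T l - (P a).comp (T l)) f) = ∑ l ∈ S, P l (T l f) -
                P a (∑ l ∈ S, P l (T l f)) := by
            rw [map_sum, ← Finset.sum_sub_distrib]
            refine Finset.sum_congr rfl fun l hl => ?_
            have hla : l ≠ a := fun h => ha (h ▸ hl)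
            rw [if_neg hla]
            simp only [AddMonoidHom.sub_apply, AddMonoidHom.comp_apply, map_sub]
            rw [hc l a]
          rw [this, map_sub]
          simp only [AddMonoidHom.id_apply]
          abel
        beta_reduce
        rw [e, map_sub]
        rcases Finset.mem_insert.1 hm with rfl | hm
        · rw [hid, sub_self]
        · rw [hc m a, hT' f m hm, map_zero, sub_zero]
  obtain ⟨T, h1, h2⟩ := key Finset.univ
  exact ⟨T, h1, fun f m => h2 f m (Finset.mem_univ m)⟩

/-- Partition of unity when the kernels of the projectors have trivial intersection. -/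
theorem exists_partition_one (P : ι → M →+ M) (hc : ∀ l m f, P l (P m f) = P m (P l f))
    (hid : ∀ l f, P l (P l f) = P l f) (h0 : ∀ f, (∀ l, P l f = 0) → f = 0) :
    ∃ T : ι → (M →+ M), (∀ l m f, T l (P m f) = P m (T l f)) ∧
      ∀ f, ∑ l, P l (T l f) = f := by
  obtain ⟨T, h1, h2⟩ := exists_partition P hc hid
  exact ⟨T, h1, fun f => (sub_eq_zero.1 (h0 _ (h2 f))).symm⟩

/-- Exactness of the all-tuples Čech complex in positive degrees. -/
theorem cech_exact (P : ι → M →+ M) (hc : ∀ l m f, P l (P m f) = P m (P l f))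
    (hid : ∀ l f, P l (P l f) = P l f) (h0 : ∀ f, (∀ l, P l f = 0) → f = 0)
    (q : ℕ) (c : (Fin (q + 2) → ι) → M) (hcI : ∀ s, ∀ m ∉ Set.range s, P m (c s) = c s)
    (hcoc : ∀ s : Fin (q + 3) → ι,
      ∑ k : Fin (q + 3), (-1 : ℤ) ^ (k : ℕ) • c (s ∘ k.succAbove) = 0) :
    ∃ b : (Fin (q + 1) → ι) → M, (∀ s, ∀ m ∉ Set.range s, P m (b s) = b s) ∧
      ∀ s : Fin (q + 2) → ι, c s = ∑ k : Fin (q + 2), (-1 : ℤ) ^ (k : ℕ) • b (s ∘ k.succAbove) := by
  obtain ⟨T, hT, hT1⟩ := exists_partition_one P hc hid h0
  refine ⟨fun s => ∑ l, P l (T l (c (Fin.cons l s))), ?_, ?_⟩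
  · intro s m hm
    rw [map_sum]
    refine Finset.sum_congr rfl fun l _ => ?_
    by_cases hml : m = l
    · subst hml
      exact hid _ _
    · rw [hc m l, ← hT l m, hcI]
      rintro ⟨i, hi⟩
      refine Fin.cases ?_ (fun i hi => ?_) i hi
      · intro h
        exact hml (by simpa using h.symm)
      · exact hm ⟨i, by simpa using hi⟩
  · intro s
    have h1 : ∀ l, ∑ k : Fin (q + 2), (-1 : ℤ) ^ (k : ℕ) • c (Fin.cons l (s ∘ k.succAbove)) =
        c s := by
      intro l
      have h2 := hcoc (Fin.cons l s)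
      rw [Fin.sum_univ_succ] at h2
      have h3 : (Fin.cons l s : Fin (q + 3) → ι) ∘ (0 : Fin (q + 3)).succAbove = s := by
        funext i
        simp
      rw [h3] at h2
      have h4 : ∀ k : Fin (q + 2), (Fin.cons l s : Fin (q + 3) → ι) ∘ (k.succ).succAbove =
          Fin.cons l (s ∘ k.succAbove) := by
        intro k
        funext i
        refine Fin.cases ?_ (fun i => ?_) i
        · simp
        · simp [Fin.succ_succAbove_succ]
      simp only [h4, Fin.val_zero, pow_zero, one_smul, Fin.val_succ, pow_succ, mul_neg, mul_one,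
        neg_smul, Finset.sum_neg_distrib] at h2
      rw [← sub_eq_add_neg, sub_eq_zero] at h2
      exact h2.symm
    calc c s = ∑ l, P l (T l (c s)) := (hT1 _).symm
      _ = ∑ l, P l (T l (∑ k : Fin (q + 2), (-1 : ℤ) ^ (k : ℕ) •
            c (Fin.cons l (s ∘ k.succAbove)))) := by
          refine Finset.sum_congr rfl fun l _ => ?_
          rw [h1 l]
      _ = ∑ l, ∑ k : Fin (q + 2), (-1 : ℤ) ^ (k : ℕ) •
            P l (T l (c (Fin.cons l (s ∘ k.succAbove)))) := by
          refine Finset.sum_congr rfl fun l _ => ?_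
          simp only [map_sum, map_zsmul]
      _ = _ := by
          rw [Finset.sum_comm]
          refine Finset.sum_congr rfl fun k _ => ?_
          rw [Finset.smul_sum]

/-- Degree `0`. -/
theorem cech_zero (P : ι → M →+ M) (hc : ∀ l m f, P l (P m f) = P m (P l f))
    (hid : ∀ l f, P l (P l f) = P l f) (h0 : ∀ f, (∀ l, P l f = 0) → f = 0)
    (c : M) (c' : ι → M) (hcI : ∀ l m, m ≠ l → P m (c' l) = c' l)
    (hcc : ∀ l, c' l = c) : ∀ m, P m c = c := by
  intro m
  obtain ⟨T, hT, hT1⟩ := exists_partition_one P hc hid h0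
  rw [← hT1 c, map_sum]
  refine Finset.sum_congr rfl fun l _ => ?_
  by_cases hml : m = l
  · subst hml
    exact hid _ _
  · rw [hc m l, ← hT l m, ← hcc l, hcI l m hml]

/-- Comparison form: without the hypothesis `⋂ ker P l = 0`. Every cocycle is a coboundary plus a
cocycle with values in any subgroup `L` which is stable by the `P l` and contains `⋂ ker P l`. -/
theorem cech_compare (P : ι → M →+ M) (hc : ∀ l m f, P l (P m f) = P m (P l f))
    (hid : ∀ l f, P l (P l f) = P l f)
    (q : ℕ) (c : (Fin (q + 2) → ι) → M) (hcI : ∀ s, ∀ m ∉ Set.range s, P m (c s) = c s)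
    (hcoc : ∀ s : Fin (q + 3) → ι,
      ∑ k : Fin (q + 3), (-1 : ℤ) ^ (k : ℕ) • c (s ∘ k.succAbove) = 0) :
    ∃ b : (Fin (q + 1) → ι) → M, (∀ s, ∀ m ∉ Set.range s, P m (b s) = b s) ∧
      ∀ s : Fin (q + 2) → ι, ∀ m,
        P m (c s - ∑ k : Fin (q + 2), (-1 : ℤ) ^ (k : ℕ) • b (s ∘ k.succAbove)) = 0 := by
  obtain ⟨T, hT, hT1⟩ := exists_partition P hc hid
  refine ⟨fun s => ∑ l, P l (T l (c (Fin.cons l s))), ?_, ?_⟩
  · intro s m hm
    rw [map_sum]
    refine Finset.sum_congr rfl fun l _ => ?_
    by_cases hml : m = l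
    · subst hml
      exact hid _ _
    · rw [hc m l, ← hT l m, hcI]
      rintro ⟨i, hi⟩
      refine Fin.cases ?_ (fun i hi => ?_) i hi
      · intro h
        exact hml (by simpa using h.symm)
      · exact hm ⟨i, by simpa using hi⟩
  · intro s
    have h1 : ∀ l, ∑ k : Fin (q + 2), (-1 : ℤ) ^ (k : ℕ) • c (Fin.cons l (s ∘ k.succAbove)) =
        c s := by
      intro l
      have h2 := hcoc (Fin.cons l s)
      rw [Fin.sum_univ_succ] at h2
      have h3 : (Fin.cons l s : Fin (q + 3) → ι) ∘ (0 : Fin (q + 3)).succAbove = s := by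
        funext i
        simp
      rw [h3] at h2
      have h4 : ∀ k : Fin (q + 2), (Fin.cons l s : Fin (q + 3) → ι) ∘ (k.succ).succAbove =
          Fin.cons l (s ∘ k.succAbove) := by
        intro k
        funext i
        refine Fin.cases ?_ (fun i => ?_) i
        · simp
        · simp [Fin.succ_succAbove_succ]
      simp only [h4, Fin.val_zero, pow_zero, one_smul, Fin.val_succ, pow_succ, mul_neg, mul_one,
        neg_smul, Finset.sum_neg_distrib] at h2
      rw [← sub_eq_add_neg, sub_eq_zero] at h2
      exact h2.symm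
    have h5 : ∑ k : Fin (q + 2), (-1 : ℤ) ^ (k : ℕ) •
        ∑ l, P l (T l (c (Fin.cons l (s ∘ k.succAbove)))) = ∑ l, P l (T l (c s)) := by
      simp only [Finset.smul_sum]
      rw [Finset.sum_comm]
      refine Finset.sum_congr rfl fun l _ => ?_
      rw [← h1 l]
      simp only [map_sum, map_zsmul]
    intro m
    beta_reduce
    rw [h5]
    exact hT1 (c s) m

end Groth.Agent.Gaga.H989.LauAlg
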