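import Groth.Agent.Gaga.H989.LauHom
import Groth.Agent.Gaga.H989.LauAlg

/-!
# The Čech complex of `O(j)` for the cover of `P^n × W` by the cones `Dom r {i}`

Main results: `cech_pos` (exactness in positive degrees for `j > - card ι`, all tuples) and
`cech_deg_zero` (degree zero).
-/

set_option autoImplicit false
set_option linter.unusedSectionVars false

open Complex Metric Set MeasureTheory Filter Topology
open Groth.Agent.Gaga.H506.Scv Groth.Agent.Gaga.H989.LauOne Groth.Agent.Gaga.H989.LauDom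
open Groth.Agent.Gaga.H989.LauHom

namespace Groth.Agent.Gaga.H989.LauCech

variable {ι : Type*} [Fintype ι] [DecidableEq ι]
variable {E : Type*} [NormedAddCommGroup E] [NormedSpace ℂ E]

/-- Sections of `O(j)` on the smallest cone, extended by zero. -/
def A (ι : Type*) [Fintype ι] [DecidableEq ι] (r : ℝ) (j : ℤ) (W : Set E) :
    AddSubgroup ((ι → ℂ) × E → ℂ) where
  carrier := {F | IsO r j W Finset.univ F ∧ ∀ p ∉ Dom r Finset.univ ×ˢ W, F p = 0}
  zero_mem' := ⟨isO_zero _ _ _ _, fun _ _ => rfl⟩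
  add_mem' := fun {F G} hF hG => ⟨hF.1.add hG.1, fun p hp => by
    rw [Pi.add_apply, hF.2 p hp, hG.2 p hp, add_zero]⟩
  neg_mem' := fun {F} hF => ⟨(hF.1.const_mul (-1)).congr fun p _ => by simp, fun p hp => by
    rw [Pi.neg_apply, hF.2 p hp, neg_zero]⟩

/-- The restriction of a section to the smallest cone. -/
noncomputable def res {r : ℝ} {j : ℤ} {W : Set E} {I : Finset ι} {F : (ι → ℂ) × E → ℂ}
    (hF : IsO r j W I F) : A (E := E) ι r j W :=
  ⟨(Dom r Finset.univ ×ˢ W).indicator F,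
    (hF.mono (Finset.subset_univ I)).congr fun _ hp => Set.indicator_of_mem hp F,
    fun _ hp => Set.indicator_of_notMem hp F⟩

theorem res_apply {r : ℝ} {j : ℤ} {W : Set E} {I : Finset ι} {F : (ι → ℂ) × E → ℂ}
    (hF : IsO r j W I F) {p : (ι → ℂ) × E} (hp : p ∈ Dom r Finset.univ ×ˢ W) :
    (res hF).1 p = F p := Set.indicator_of_mem hp F

theorem A_ext {r : ℝ} {j : ℤ} {W : Set E} {f g : A (E := E) ι r j W}
    (h : ∀ p ∈ Dom r Finset.univ ×ˢ W, f.1 p = g.1 p) : f = g := by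
  refine Subtype.ext (funext fun p => ?_)
  by_cases hp : p ∈ Dom r Finset.univ ×ˢ W
  · exact h p hp
  · rw [f.2.2 p hp, g.2.2 p hp]

theorem Pr_add {r : ℝ} (hr : 1 < r) {W : Set E} (hW : IsOpen W) {I : Finset ι} {l : ι}
    {F G : (ι → ℂ) × E → ℂ} (hF : DifferentiableOn ℂ F (Dom r I ×ˢ W))
    (hG : DifferentiableOn ℂ G (Dom r I ×ˢ W)) {z : ι → ℂ} {w : E}
    (hz : z ∈ Dom r (I.erase l)) (hw : w ∈ W) :
    Pr r I l (fun p => F p + G p) (z, w) = Pr r I l F (z, w) + Pr r I l G (z, w) := by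
  have hρ := rad_spec hr hz
  refine ci_add hρ.1.le hρ.2.1.ne (fun ζ hζ => ?_) (fun ζ hζ => ?_)
  · exact (differentiableAt_slice (differentiableAt_of hW hF
      (update_mem_Dom_of_Adm hr hz (by rw [hζ]; exact hρ)) hw)).continuousAt
  · exact (differentiableAt_slice (differentiableAt_of hW hG
      (update_mem_Dom_of_Adm hr hz (by rw [hζ]; exact hρ)) hw)).continuousAt

section

variable {r : ℝ} (hr : 1 < r) (j : ℤ) {W : Set E} (hW : IsOpen W)

/-- The projectors as endomorphisms of the group `A`. -/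
noncomputable def PA (l : ι) : A (E := E) ι r j W →+ A (E := E) ι r j W where
  toFun f := res (f.2.1.pr hr hW l)
  map_zero' := by
    refine A_ext fun p hp => ?_
    rw [res_apply _ hp]
    exact ci_zero _ _
  map_add' := fun f g => by
    refine A_ext fun p hp => ?_
    rw [res_apply _ hp]
    change _ = (res (f.2.1.pr hr hW l)).1 p + (res (g.2.1.pr hr hW l)).1 p
    rw [res_apply _ hp, res_apply _ hp]
    exact Pr_add hr hW f.2.1.diff g.2.1.diff (Dom_univ_subset _ hp.1) hp.2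

theorem PA_apply (l : ι) (f : A (E := E) ι r j W) {p : (ι → ℂ) × E}
    (hp : p ∈ Dom r Finset.univ ×ˢ W) : (PA hr j hW l f).1 p = Pr r Finset.univ l f.1 p :=
  res_apply (f.2.1.pr hr hW l) hp

theorem PA_PA (l m : ι) (f : A (E := E) ι r j W) {p : (ι → ℂ) × E}
    (hp : p ∈ Dom r Finset.univ ×ˢ W) : (PA hr j hW l (PA hr j hW m f)).1 p =
      Pr r (Finset.univ.erase m) l (Pr r Finset.univ m f.1) p := by
  obtain ⟨z, w⟩ := p
  rw [PA_apply hr j hW l _ hp,
    Pr_congr (F' := Pr r Finset.univ m f.1) hr (fun q hq => PA_apply hr j hW m f hq)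
      (Dom_univ_subset _ hp.1) hp.2,
    Pr_mono hr hW (Finset.erase_subset m Finset.univ)
      (differentiableOn_Pr hr hW m f.2.1.diff) (Dom_univ_subset _ hp.1) hp.2]

theorem PA_comm (l m : ι) (f : A (E := E) ι r j W) :
    PA hr j hW l (PA hr j hW m f) = PA hr j hW m (PA hr j hW l f) := by
  by_cases hlm : l = m
  · subst hlm; rfl
  refine A_ext fun p hp => ?_
  obtain ⟨z, w⟩ := p
  rw [PA_PA hr j hW l m f hp, PA_PA hr j hW m l f hp]
  exact (Pr_comm hr hW hlm f.2.1.diff (Dom_univ_subset _ hp.1) hp.2).symm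

theorem PA_idem (l : ι) (f : A (E := E) ι r j W) :
    PA hr j hW l (PA hr j hW l f) = PA hr j hW l f := by
  refine A_ext fun p hp => ?_
  obtain ⟨z, w⟩ := p
  rw [PA_apply hr j hW l _ hp,
    Pr_congr (F' := Pr r Finset.univ l f.1) hr (fun q hq => PA_apply hr j hW l f hq)
      (Dom_univ_subset _ hp.1) hp.2, PA_apply hr j hW l _ hp]
  exact Pr_idem hr hW l f.2.1.diff (Dom_univ_subset _ hp.1) hp.2

theorem PA_res {I : Finset ι} {F : (ι → ℂ) × E → ℂ} (hF : IsO r j W I F) {m : ι} (hm : m ∉ I) :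
    PA hr j hW m (res hF) = res hF := by
  refine A_ext fun p hp => ?_
  obtain ⟨z, w⟩ := p
  rw [PA_apply hr j hW m _ hp, res_apply _ hp,
    Pr_congr (F' := F) hr (fun q hq => res_apply _ hq) (Dom_univ_subset _ hp.1) hp.2]
  exact Pr_eq_self hr hW (Finset.subset_univ I) hm hF.diff (Dom_univ_subset _ hp.1) hp.2

theorem exists_of_PA (f : A (E := E) ι r j W) (I : Finset ι)
    (h : ∀ m ∉ I, PA hr j hW m f = f) :
    ∃ F : (ι → ℂ) × E → ℂ, IsO r j W I F ∧ ∀ p ∈ Dom r Finset.univ ×ˢ W, F p = f.1 p := by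
  obtain ⟨F, h1, h2⟩ := exists_extension hr hW f.2.1 (Finset.univ \ I) (by
    intro l hl p hp
    rw [← PA_apply hr j hW l f hp, h l (by simpa using hl)])
  refine ⟨F, ?_, h2⟩
  rwa [show Finset.univ \ (Finset.univ \ I) = I from by
    ext x
    simp] at h1

theorem PA_zero (hj : -(Fintype.card ι : ℤ) < j) (f : A (E := E) ι r j W)
    (h : ∀ l, PA hr j hW l f = 0) : f = 0 := by
  refine A_ext fun p hp => ?_
  refine eq_zero_of_Pr_eq_zero hr hj hW f.2.1 (fun l q hq => ?_) p hp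
  rw [← PA_apply hr j hW l f hq, h l]
  rfl

end

theorem image_univ_comp_subset {κ κ' : Type*} [Fintype κ] [Fintype κ'] (s : κ → ι) (φ : κ' → κ) :
    Finset.univ.image (s ∘ φ) ⊆ Finset.univ.image s := by
  intro x hx
  simp only [Finset.mem_image, Finset.mem_univ, true_and, Function.comp_apply] at hx ⊢
  obtain ⟨a, ha⟩ := hx
  exact ⟨φ a, ha⟩

/-- Two sections over the cone `Dom r I` which agree on the smallest cone agree. -/
theorem eq_of_eq_univ {r : ℝ} (hr : 1 < r) {j : ℤ} {W : Set E} (hW : IsOpen W) {I : Finset ι}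
    {F G : (ι → ℂ) × E → ℂ} (hF : IsO r j W I F) (hG : IsO r j W I G)
    (h : ∀ p ∈ Dom r Finset.univ ×ˢ W, F p = G p) : ∀ p ∈ Dom r I ×ˢ W, F p = G p := by
  intro p hp
  have h1 := eq_zero_of_eq_zero hr hW (F := fun p => F p + (-1) * G p)
    (hF.add (hG.const_mul (-1))).diff (fun q hq => by rw [h q hq]; ring) p hp
  linear_combination h1

/-- **Čech acyclicity in positive degrees** of `O(j)`, `j > - card ι` (`= -(n+1)` for `P^n`), for
the cover of `P^n × W` by the open cones `Dom r {i}`, all-tuples version, `W` any open subset of a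
normed space. -/
theorem cech_pos {r : ℝ} (hr : 1 < r) {j : ℤ} (hj : -(Fintype.card ι : ℤ) < j) {W : Set E}
    (hW : IsOpen W) (q : ℕ) (c : (Fin (q + 2) → ι) → (ι → ℂ) × E → ℂ)
    (hc : ∀ s, IsO r j W (Finset.univ.image s) (c s))
    (hcoc : ∀ s : Fin (q + 3) → ι, ∀ p ∈ Dom r (Finset.univ.image s) ×ˢ W,
      ∑ k : Fin (q + 3), (-1 : ℂ) ^ (k : ℕ) * c (s ∘ k.succAbove) p = 0) :
    ∃ b : (Fin (q + 1) → ι) → (ι → ℂ) × E → ℂ,
      (∀ s, IsO r j W (Finset.univ.image s) (b s)) ∧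
      ∀ s : Fin (q + 2) → ι, ∀ p ∈ Dom r (Finset.univ.image s) ×ˢ W,
        c s p = ∑ k : Fin (q + 2), (-1 : ℂ) ^ (k : ℕ) * b (s ∘ k.succAbove) p := by
  have hmem : ∀ {κ : Type} [Fintype κ] (s : κ → ι) (m : ι), m ∉ Set.range s ↔
      m ∉ Finset.univ.image s := by
    intro κ _ s m
    simp
  have hval : ∀ {κ : Type} (S : Finset κ) (u : κ → ℤ) (f : κ → A (E := E) ι r j W)
      (p : (ι → ℂ) × E), (∑ k ∈ S, u k • f k).1 p = ∑ k ∈ S, (u k : ℂ) * (f k).1 p := by
    intro κ S u f p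
    rw [AddSubgroup.val_finsetSum, Finset.sum_apply]
    refine Finset.sum_congr rfl fun k _ => ?_
    rw [AddSubgroup.coe_zsmul, Pi.smul_apply, zsmul_eq_mul]
  obtain ⟨b, hb1, hb2⟩ := LauAlg.cech_exact (PA hr j hW) (PA_comm hr j hW) (PA_idem hr j hW)
    (PA_zero hr j hW hj) q (fun s => res (hc s))
    (fun s m hm => PA_res hr j hW (hc s) ((hmem s m).1 hm)) (by
      intro s
      refine A_ext fun p hp => ?_
      rw [hval]
      simp only [Int.cast_pow, Int.cast_neg, Int.cast_one]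
      rw [Finset.sum_congr rfl fun k _ => by rw [res_apply _ hp]]
      exact hcoc s p (Set.prod_mono (Dom_univ_subset _) subset_rfl hp))
  choose B hB1 hB2 using fun s => exists_of_PA hr j hW (b s) (Finset.univ.image s)
    (fun m hm => hb1 s m ((hmem s m).2 hm))
  refine ⟨B, hB1, fun s => ?_⟩
  refine eq_of_eq_univ hr hW (hc s) (isO_sum _ fun k _ => ?_) ?_
  · exact ((hB1 _).mono (image_univ_comp_subset s _)).const_mul _
  · intro p hp
    have h1 := congrArg (fun f : A (E := E) ι r j W => f.1 p) (hb2 s)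
    rw [res_apply _ hp, hval] at h1
    rw [h1]
    refine Finset.sum_congr rfl fun k _ => ?_
    rw [hB2 _ p hp]
    push_cast
    rfl

/-- **Degree zero**: a compatible family of sections of `O(j)` on the cones `Dom r {i}` is the
restriction of a section on `Dom r ∅ ×ˢ W = univ ×ˢ W`. -/
theorem cech_deg_zero {r : ℝ} (hr : 1 < r) {j : ℤ} (hj : -(Fintype.card ι : ℤ) < j) {W : Set E}
    (hW : IsOpen W) [Nonempty ι] (c : ι → (ι → ℂ) × E → ℂ) (hc : ∀ i, IsO r j W {i} (c i))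
    (hcoc : ∀ i i', ∀ p ∈ Dom r {i, i'} ×ˢ W, c i p = c i' p) :
    ∃ F : (ι → ℂ) × E → ℂ, IsO r j W ∅ F ∧ ∀ i, ∀ p ∈ Dom r {i} ×ˢ W, c i p = F p := by
  obtain ⟨i₀⟩ := ‹Nonempty ι›
  obtain ⟨F, hF, hF'⟩ := exists_of_PA hr j hW (res (hc i₀)) ∅ (fun m _ =>
    LauAlg.cech_zero (PA hr j hW) (PA_comm hr j hW) (PA_idem hr j hW) (PA_zero hr j hW hj)
      (res (hc i₀)) (fun l => res (hc l))
      (fun l m hlm => PA_res hr j hW (hc l) (by simpa using hlm))
      (fun l => A_ext fun p hp => by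
        rw [res_apply _ hp, res_apply _ hp]
        exact hcoc l i₀ p (Set.prod_mono (Dom_univ_subset _) subset_rfl hp)) m)
  refine ⟨F, hF, fun i => eq_of_eq_univ hr hW (hc i) (hF.mono (Finset.empty_subset _)) ?_⟩
  intro p hp
  rw [hF' p hp, res_apply _ hp]
  exact hcoc i i₀ p (Set.prod_mono (Dom_univ_subset _) subset_rfl hp)

end Groth.Agent.Gaga.H989.LauCech
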