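import Groth.Agent.Gaga.H989.LauOne
import Groth.Agent.Gaga.H506.Scv

/-!
# Laurent projectors for homogeneous functions on the cone over the cover of `P^n`

`Dom r I = {z | ∀ i ∈ I, ∀ l, ‖z l‖ < r ‖z i‖}`: an open cone. For `F` holomorphic on
`Dom r I ×ˢ W` the projector `Pr r I l F` (nonnegative powers of `z l`) is holomorphic on
`Dom r (I.erase l) ×ˢ W`.
-/

set_option autoImplicit false
set_option linter.unusedSectionVars false

open Complex Metric Set MeasureTheory Filter Topology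
open Groth.Agent.Gaga.H506.Scv Groth.Agent.Gaga.H989.LauOne

namespace Groth.Agent.Gaga.H989.LauDom

variable {ι : Type*} [Fintype ι] [DecidableEq ι]

/-- The open cone. -/
def Dom (r : ℝ) (I : Finset ι) : Set (ι → ℂ) := {z | ∀ i ∈ I, ∀ l, ‖z l‖ < r * ‖z i‖}

theorem Dom_mono {r : ℝ} {I J : Finset ι} (h : I ⊆ J) : Dom r J ⊆ Dom r I :=
  fun _ hz i hi l => hz i (h hi) l

theorem isOpen_Dom (r : ℝ) (I : Finset ι) : IsOpen (Dom r I) := by
  have : Dom r I = ⋂ i ∈ I, ⋂ l, {z : ι → ℂ | ‖z l‖ < r * ‖z i‖} := by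
    ext z
    simp [Dom]
  rw [this]
  refine isOpen_biInter_finset fun i _ => isOpen_iInter_of_finite fun l => ?_
  exact isOpen_lt (by fun_prop) (by fun_prop)

theorem ne_zero_of_mem_Dom {r : ℝ} {I : Finset ι} {z : ι → ℂ} (hz : z ∈ Dom r I) {i : ι}
    (hi : i ∈ I) : z i ≠ 0 := by
  intro h
  have := hz i hi i
  rw [h, norm_zero, mul_zero] at this
  exact lt_irrefl _ this

theorem smul_mem_Dom {r : ℝ} {I : Finset ι} {z : ι → ℂ} (hz : z ∈ Dom r I) {t : ℂ} (ht : t ≠ 0) :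
    t • z ∈ Dom r I := by
  intro i hi l
  simp only [Pi.smul_apply, smul_eq_mul, norm_mul]
  have := mul_lt_mul_of_pos_left (hz i hi l) (norm_pos_iff.2 ht)
  linarith

theorem Dom_univ_subset {r : ℝ} (I : Finset ι) : Dom r Finset.univ ⊆ Dom r I :=
  Dom_mono (Finset.subset_univ I)

@[simp] theorem Dom_empty (r : ℝ) : Dom r (∅ : Finset ι) = Set.univ := by
  ext z
  simp [Dom]

/-- Admissible radii for the `l`-th variable at `z`. -/
def Adm (r : ℝ) (I : Finset ι) (l : ι) (z : ι → ℂ) (ρ : ℝ) : Prop :=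
  0 < ρ ∧ ‖z l‖ < ρ ∧ (∀ m, m ≠ l → ‖z m‖ < r * ρ) ∧ ∀ k ∈ I, k ≠ l → ρ < r * ‖z k‖

theorem Adm.mono {r : ℝ} {I J : Finset ι} (h : I ⊆ J) {l : ι} {z : ι → ℂ} {ρ : ℝ}
    (ha : Adm r J l z ρ) : Adm r I l z ρ :=
  ⟨ha.1, ha.2.1, ha.2.2.1, fun k hk hkl => ha.2.2.2 k (h hk) hkl⟩

theorem Adm.between {r : ℝ} (hr : 1 < r) {I : Finset ι} {l : ι} {z : ι → ℂ} {ρ₁ ρ₂ ρ : ℝ}
    (h1 : Adm r I l z ρ₁) (h2 : Adm r I l z ρ₂) (h : ρ₁ ≤ ρ) (h' : ρ ≤ ρ₂) : Adm r I l z ρ := by
  refine ⟨h1.1.trans_le h, h1.2.1.trans_le h, fun m hm => (h1.2.2.1 m hm).trans_le ?_,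
    fun k hk hkl => h'.trans_lt (h2.2.2.2 k hk hkl)⟩
  exact mul_le_mul_of_nonneg_left h (by linarith)

theorem Adm.erase {r : ℝ} {I : Finset ι} {l : ι} {z : ι → ℂ} {ρ : ℝ}
    (ha : Adm r (I.erase l) l z ρ) : Adm r I l z ρ :=
  ⟨ha.1, ha.2.1, ha.2.2.1, fun k hk hkl => ha.2.2.2 k (Finset.mem_erase.2 ⟨hkl, hk⟩) hkl⟩

/-- Existence of admissible radii, in the strong form needed for Fubini. -/
theorem exists_radius {r : ℝ} (hr : 1 < r) (K : Finset ι) (S : Set ι) {z : ι → ℂ}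
    (hz : z ∈ Dom r K) : ∃ ρ : ℝ, 0 < ρ ∧ (∀ l, ‖z l‖ < r * ρ) ∧ (∀ l, ‖z l‖ < ρ ∨ l ∉ S) ∧
      ∀ k ∈ K, ρ < r * ‖z k‖ := by
  have h1 : ∀ k ∈ K, ‖z‖ < r * ‖z k‖ := by
    intro k hk
    have h0 : 0 < r * ‖z k‖ := (norm_nonneg _).trans_lt (hz k hk k)
    exact (pi_norm_lt_iff h0).2 (hz k hk)
  have h2 : ∀ᶠ ρ in 𝓝[>] ‖z‖, ∀ k ∈ K, ρ < r * ‖z k‖ := by
    refine (Filter.eventually_all_finset K).2 fun k hk => ?_
    exact mem_nhdsWithin_of_mem_nhds (Iio_mem_nhds (h1 k hk))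
  obtain ⟨ρ, hρ, hρ'⟩ := (h2.and self_mem_nhdsWithin).exists
  have hρ'' : ‖z‖ < ρ := hρ'
  have hpos : 0 < ρ := (norm_nonneg z).trans_lt hρ''
  refine ⟨ρ, hpos, fun l => ?_, fun l => Or.inl ((norm_le_pi_norm z l).trans_lt hρ''), hρ⟩
  calc ‖z l‖ ≤ ‖z‖ := norm_le_pi_norm z l
    _ < ρ := hρ''
    _ ≤ r * ρ := by nlinarith

theorem exists_Adm {r : ℝ} (hr : 1 < r) {I : Finset ι} {l : ι} {z : ι → ℂ}
    (hz : z ∈ Dom r (I.erase l)) : ∃ ρ, Adm r I l z ρ := by
  obtain ⟨ρ, h0, h1, h2, h3⟩ := exists_radius hr (I.erase l) Set.univ hz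
  refine ⟨ρ, h0, ?_, fun m _ => h1 m, fun k hk hkl => h3 k (Finset.mem_erase.2 ⟨hkl, hk⟩)⟩
  rcases h2 l with h | h
  · exact h
  · exact absurd (Set.mem_univ l) h

/-- The chosen radius. -/
noncomputable def rad (r : ℝ) (I : Finset ι) (l : ι) (z : ι → ℂ) : ℝ :=
  open Classical in if h : ∃ ρ, Adm r I l z ρ then h.choose else 1

theorem rad_spec {r : ℝ} (hr : 1 < r) {I : Finset ι} {l : ι} {z : ι → ℂ}
    (hz : z ∈ Dom r (I.erase l)) : Adm r I l z (rad r I l z) := by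
  have h := exists_Adm hr hz
  rw [rad, dif_pos h]
  exact h.choose_spec

theorem rad_pos {r : ℝ} (I : Finset ι) (l : ι) (z : ι → ℂ) : 0 < rad r I l z := by
  unfold rad
  split_ifs with h
  · exact h.choose_spec.1
  · exact one_pos

theorem update_mem_Dom {r : ℝ} (hr : 1 < r) {I : Finset ι} {l : ι} {z : ι → ℂ}
    (hz : z ∈ Dom r (I.erase l)) {ζ : ℂ} (h0 : ζ ≠ 0) (h1 : ∀ m, m ≠ l → ‖z m‖ < r * ‖ζ‖)
    (h2 : ∀ k ∈ I, k ≠ l → ‖ζ‖ < r * ‖z k‖) : Function.update z l ζ ∈ Dom r I := by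
  intro i hi m
  by_cases hil : i = l
  · subst hil
    rw [Function.update_self]
    by_cases hm : m = i
    · subst hm
      rw [Function.update_self]
      have := norm_pos_iff.2 h0
      nlinarith
    · rw [Function.update_of_ne hm]
      exact h1 m hm
  · rw [Function.update_of_ne hil]
    by_cases hm : m = l
    · subst hm
      rw [Function.update_self]
      exact h2 i hi hil
    · rw [Function.update_of_ne hm]
      exact hz i (Finset.mem_erase.2 ⟨hil, hi⟩) m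

theorem update_mem_Dom_of_Adm {r : ℝ} (hr : 1 < r) {I : Finset ι} {l : ι} {z : ι → ℂ}
    (hz : z ∈ Dom r (I.erase l)) {ζ : ℂ} (h : Adm r I l z ‖ζ‖) :
    Function.update z l ζ ∈ Dom r I :=
  update_mem_Dom hr hz (norm_pos_iff.1 h.1) h.2.2.1 h.2.2.2

/-- If `l ∉ I`, the fibre of the cone in direction `l` is a disc. -/
theorem update_mem_Dom_of_not_mem {r : ℝ} {I : Finset ι} {l : ι} (hl : l ∉ I)
    {z : ι → ℂ} (hz : z ∈ Dom r I) {ζ : ℂ} (h2 : ∀ k ∈ I, ‖ζ‖ < r * ‖z k‖) :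
    Function.update z l ζ ∈ Dom r I := by
  intro i hi m
  have hil : i ≠ l := fun h => hl (h ▸ hi)
  rw [Function.update_of_ne hil]
  by_cases hm : m = l
  · subst hm
    rw [Function.update_self]
    exact h2 i hi
  · rw [Function.update_of_ne hm]
    exact hz i hi m

theorem differentiable_update₂ {G : Type*} [NormedAddCommGroup G] [NormedSpace ℂ G] (l : ι)
    {a : G → (ι → ℂ)} {b : G → ℂ} {x : G} (ha : DifferentiableAt ℂ a x)
    (hb : DifferentiableAt ℂ b x) :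
    DifferentiableAt ℂ (fun x => Function.update (a x) l (b x)) x := by
  rw [differentiableAt_pi]
  intro m
  by_cases hm : m = l
  · subst hm
    simpa using hb
  · simp only [Function.update_of_ne hm]
    exact (differentiableAt_pi.1 ha) m

variable {E : Type*} [NormedAddCommGroup E] [NormedSpace ℂ E]

/-- The projector on nonnegative powers of `z l`. -/
noncomputable def Pr (r : ℝ) (I : Finset ι) (l : ι) (F : (ι → ℂ) × E → ℂ) (p : (ι → ℂ) × E) : ℂ :=
  ci (rad r I l p.1) (fun ζ => F (Function.update p.1 l ζ, p.2)) (p.1 l)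

theorem differentiableAt_slice {F : (ι → ℂ) × E → ℂ} {l : ι} {z : ι → ℂ} {w : E} {ζ : ℂ}
    (h : DifferentiableAt ℂ F (Function.update z l ζ, w)) :
    DifferentiableAt ℂ (fun ζ => F (Function.update z l ζ, w)) ζ := by
  have h1 : DifferentiableAt ℂ (fun ζ : ℂ => (Function.update z l ζ, w)) ζ :=
    (differentiable_update₂ l (differentiableAt_const z) differentiableAt_id).prodMk
      (differentiableAt_const w)
  exact DifferentiableAt.comp ζ (g := F) (f := fun ζ : ℂ => (Function.update z l ζ, w)) h h1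

theorem differentiableAt_of {W : Set E} (hW : IsOpen W) {r : ℝ} {I : Finset ι}
    {F : (ι → ℂ) × E → ℂ} (hF : DifferentiableOn ℂ F (Dom r I ×ˢ W)) {z : ι → ℂ} {w : E}
    (hz : z ∈ Dom r I) (hw : w ∈ W) : DifferentiableAt ℂ F (z, w) :=
  (hF (z, w) ⟨hz, hw⟩).differentiableAt (((isOpen_Dom r I).prod hW).mem_nhds ⟨hz, hw⟩)

theorem ci_indep {r : ℝ} (hr : 1 < r) {W : Set E} (hW : IsOpen W) {I : Finset ι} {l : ι}
    {F : (ι → ℂ) × E → ℂ} (hF : DifferentiableOn ℂ F (Dom r I ×ˢ W)) {z : ι → ℂ} {w : E}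
    (hz : z ∈ Dom r (I.erase l)) (hw : w ∈ W) {ρ₁ ρ₂ : ℝ} (h1 : Adm r I l z ρ₁)
    (h2 : Adm r I l z ρ₂) :
    ci ρ₁ (fun ζ => F (Function.update z l ζ, w)) (z l) =
      ci ρ₂ (fun ζ => F (Function.update z l ζ, w)) (z l) := by
  wlog h : ρ₁ ≤ ρ₂ generalizing ρ₁ ρ₂
  · exact (this h2 h1 (le_of_not_ge h)).symm
  refine ci_eq_of_le h1.1 h h1.2.1 fun ζ hζ hζ' => ?_
  exact differentiableAt_slice (differentiableAt_of hW hF
    (update_mem_Dom_of_Adm hr hz (h1.between hr h2 hζ hζ')) hw)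

theorem Pr_eq_ci {r : ℝ} (hr : 1 < r) {W : Set E} (hW : IsOpen W) {I : Finset ι} {l : ι}
    {F : (ι → ℂ) × E → ℂ} (hF : DifferentiableOn ℂ F (Dom r I ×ˢ W)) {z : ι → ℂ} {w : E}
    (hz : z ∈ Dom r (I.erase l)) (hw : w ∈ W) {ρ : ℝ} (h : Adm r I l z ρ) :
    Pr r I l F (z, w) = ci ρ (fun ζ => F (Function.update z l ζ, w)) (z l) :=
  ci_indep hr hW hF hz hw (rad_spec hr hz) h

/-- Admissibility is an open condition. -/
theorem eventually_Adm {r : ℝ} {I : Finset ι} {l : ι} {z : ι → ℂ} {ρ : ℝ} (h : Adm r I l z ρ) :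
    ∀ᶠ z' in 𝓝 z, Adm r I l z' ρ := by
  have h1 : ∀ᶠ z' : ι → ℂ in 𝓝 z, ‖z' l‖ < ρ :=
    (isOpen_lt (by fun_prop) (by fun_prop) :
      IsOpen {z' : ι → ℂ | ‖z' l‖ < ρ}).mem_nhds h.2.1
  have h2 : ∀ᶠ z' : ι → ℂ in 𝓝 z, ∀ m ∈ Finset.univ, m ≠ l → ‖z' m‖ < r * ρ := by
    refine (Filter.eventually_all_finset _).2 fun m _ => ?_
    by_cases hm : m = l
    · exact Eventually.of_forall fun z' h => absurd hm h
    · filter_upwards [(isOpen_lt (by fun_prop) (by fun_prop) :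
        IsOpen {z' : ι → ℂ | ‖z' m‖ < r * ρ}).mem_nhds (h.2.2.1 m hm)] with z' hz' _
      exact hz'
  have h3 : ∀ᶠ z' : ι → ℂ in 𝓝 z, ∀ k ∈ I, k ≠ l → ρ < r * ‖z' k‖ := by
    refine (Filter.eventually_all_finset _).2 fun k hk => ?_
    by_cases hkl : k = l
    · exact Eventually.of_forall fun z' h => absurd hkl h
    · filter_upwards [(isOpen_lt (by fun_prop) (by fun_prop) :
        IsOpen {z' : ι → ℂ | ρ < r * ‖z' k‖}).mem_nhds (h.2.2.2 k hk hkl)] with z' hz' _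
      exact hz'
  filter_upwards [h1, h2, h3] with z' a b c
  exact ⟨h.1, a, fun m => b m (Finset.mem_univ m), c⟩

/-- The projector preserves holomorphy and extends the domain. -/
theorem differentiableOn_Pr {r : ℝ} (hr : 1 < r) {W : Set E} (hW : IsOpen W) {I : Finset ι} (l : ι)
    {F : (ι → ℂ) × E → ℂ} (hF : DifferentiableOn ℂ F (Dom r I ×ˢ W)) :
    DifferentiableOn ℂ (Pr r I l F) (Dom r (I.erase l) ×ˢ W) := by
  rintro ⟨z, w⟩ ⟨hz, hw⟩
  simp only at hz hw
  obtain ⟨ρ, hρ⟩ := exists_Adm hr hz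
  have hev : ∀ᶠ p : (ι → ℂ) × E in 𝓝 (z, w),
      ci ρ (fun ζ => F (Function.update p.1 l ζ, p.2)) (p.1 l) = Pr r I l F p := by
    have e1 : ∀ᶠ p : (ι → ℂ) × E in 𝓝 (z, w), Adm r I l p.1 ρ :=
      continuousAt_fst.eventually (eventually_Adm hρ)
    have e2 : ∀ᶠ p : (ι → ℂ) × E in 𝓝 (z, w), p ∈ Dom r (I.erase l) ×ˢ W :=
      ((isOpen_Dom r (I.erase l)).prod hW).mem_nhds ⟨hz, hw⟩
    filter_upwards [e1, e2] with p h1 h2
    exact (Pr_eq_ci hr hW hF h2.1 h2.2 h1).symm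
  refine (DifferentiableAt.congr_of_eventuallyEq ?_
    (hev.mono fun p hp => hp.symm)).differentiableWithinAt
  have hmain : DifferentiableAt ℂ (fun p : (ι → ℂ) × E => ∮ ζ in C(0, ρ), (ζ - p.1 l)⁻¹ •
      F (Function.update p.1 l ζ, p.2)) (z, w) := ?_
  · exact hmain.const_smul ((2 * Real.pi * Complex.I : ℂ)⁻¹)
  refine differentiableAt_circleIntegral ?_
  intro ζ hζ
  rw [abs_of_pos hρ.1] at hζ
  have hζ' : ‖ζ‖ = ρ := by simpa using hζ
  have a1 : HolAt (fun q : ((ι → ℂ) × E) × ℂ => (q.2 - q.1.1 l)⁻¹) ((z, w), ζ) := by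
    refine HolAt.inv (f := fun q : ((ι → ℂ) × E) × ℂ => q.2 - q.1.1 l)
      (Eventually.of_forall fun _ => by fun_prop) ?_
    intro h
    simp only [sub_eq_zero] at h
    have := hρ.2.1
    rw [← h, hζ'] at this
    exact lt_irrefl _ this
  have a2 : HolAt (fun q : ((ι → ℂ) × E) × ℂ => F (Function.update q.1.1 l q.2, q.1.2))
      ((z, w), ζ) := by
    refine HolAt.comp (f := F)
      (g := fun q : ((ι → ℂ) × E) × ℂ => (Function.update q.1.1 l q.2, q.1.2)) ?_ ?_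
    · refine holAt_of_differentiableOn ((isOpen_Dom r I).prod hW) hF ⟨?_, hw⟩
      exact update_mem_Dom_of_Adm hr hz (by rw [hζ']; exact hρ)
    · refine Eventually.of_forall fun q => ?_
      exact (differentiable_update₂ l (by fun_prop) (by fun_prop)).prodMk (by fun_prop)
  exact a1.smul a2

/-- Cauchy: identity on functions which are already holomorphic on a domain without `l`. -/
theorem Pr_eq_self {r : ℝ} (hr : 1 < r) {W : Set E} (hW : IsOpen W) {I J : Finset ι} (hIJ : I ⊆ J)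
    {l : ι} (hl : l ∉ I) {F : (ι → ℂ) × E → ℂ} (hF : DifferentiableOn ℂ F (Dom r I ×ˢ W))
    {z : ι → ℂ} {w : E} (hz : z ∈ Dom r (J.erase l)) (hw : w ∈ W) :
    Pr r J l F (z, w) = F (z, w) := by
  have hρ := rad_spec hr hz
  have hIJl : I ⊆ J.erase l := fun i hi =>
    Finset.mem_erase.2 ⟨fun h => hl (h ▸ hi), hIJ hi⟩
  unfold Pr
  rw [ci_eq_self hρ.2.1]
  · simp
  · intro ζ hζ
    refine differentiableAt_slice (differentiableAt_of hW hF ?_ hw)
    refine update_mem_Dom_of_not_mem hl (Dom_mono hIJl hz) fun k hk => ?_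
    exact hζ.trans_lt (hρ.2.2.2 k (hIJ hk) fun h => hl (h ▸ hk))

theorem Pr_mono {r : ℝ} (hr : 1 < r) {W : Set E} (hW : IsOpen W) {I J : Finset ι} (hIJ : I ⊆ J)
    {l : ι} {F : (ι → ℂ) × E → ℂ} (hF : DifferentiableOn ℂ F (Dom r I ×ˢ W))
    {z : ι → ℂ} {w : E} (hz : z ∈ Dom r (J.erase l)) (hw : w ∈ W) :
    Pr r J l F (z, w) = Pr r I l F (z, w) :=
  (Pr_eq_ci hr hW hF (Dom_mono (Finset.erase_subset_erase l hIJ) hz) hw
    ((rad_spec hr hz).mono hIJ)).symm

theorem Pr_congr {r : ℝ} (hr : 1 < r) {W : Set E} {I : Finset ι}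
    {l : ι} {F F' : (ι → ℂ) × E → ℂ} (hFF' : ∀ p ∈ Dom r I ×ˢ W, F p = F' p)
    {z : ι → ℂ} {w : E} (hz : z ∈ Dom r (I.erase l)) (hw : w ∈ W) :
    Pr r I l F (z, w) = Pr r I l F' (z, w) := by
  refine ci_congr (rad_pos I l z).le _ fun ζ hζ => ?_
  exact hFF' _ ⟨update_mem_Dom_of_Adm hr hz (by rw [hζ]; exact rad_spec hr hz), hw⟩

/-- The projectors commute. -/
theorem Pr_comm {r : ℝ} (hr : 1 < r) {W : Set E} (hW : IsOpen W) {I : Finset ι} {l m : ι}
    (hlm : l ≠ m) {F : (ι → ℂ) × E → ℂ} (hF : DifferentiableOn ℂ F (Dom r I ×ˢ W))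
    {z : ι → ℂ} {w : E} (hz : z ∈ Dom r ((I.erase l).erase m)) (hw : w ∈ W) :
    Pr r (I.erase l) m (Pr r I l F) (z, w) = Pr r (I.erase m) l (Pr r I m F) (z, w) := by
  obtain ⟨ρ, h0, h1, h2, h3⟩ := exists_radius hr ((I.erase l).erase m) Set.univ hz
  have h2' : ∀ k, ‖z k‖ < ρ := fun k => (h2 k).resolve_right fun h => h (Set.mem_univ k)
  -- a double integral formula
  have key : ∀ l m : ι, l ≠ m → z ∈ Dom r ((I.erase l).erase m) →
      (∀ k ∈ (I.erase l).erase m, ρ < r * ‖z k‖) →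
      Pr r (I.erase l) m (Pr r I l F) (z, w) = ci ρ (fun ξ => ci ρ (fun ζ =>
        F (Function.update (Function.update z m ξ) l ζ, w)) (z l)) (z m) := by
    intro l m hlm hz h3
    have hA : Adm r (I.erase l) m z ρ :=
      ⟨h0, h2' m, fun k _ => h1 k, fun k hk hkm => h3 k (Finset.mem_erase.2 ⟨hkm, hk⟩)⟩
    rw [Pr_eq_ci hr hW (differentiableOn_Pr hr hW l hF) hz hw hA]
    refine ci_congr h0.le _ fun ξ hξ => ?_
    have hmem : Function.update z m ξ ∈ Dom r (I.erase l) :=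
      update_mem_Dom_of_Adm hr hz (by rw [hξ]; exact hA)
    have hB : Adm r I l (Function.update z m ξ) ρ := by
      refine ⟨h0, ?_, ?_, ?_⟩
      · rw [Function.update_of_ne hlm]; exact h2' l
      · intro k hk
        by_cases hkm : k = m
        · subst hkm
          rw [Function.update_self, hξ]
          nlinarith
        · rw [Function.update_of_ne hkm]
          exact h1 k
      · intro k hk hkl
        by_cases hkm : k = m
        · subst hkm
          rw [Function.update_self, hξ]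
          nlinarith
        · rw [Function.update_of_ne hkm]
          exact h3 k (Finset.mem_erase.2 ⟨hkm, Finset.mem_erase.2 ⟨hkl, hk⟩⟩)
    rw [Pr_eq_ci hr hW hF hmem hw hB, Function.update_of_ne hlm]
  have hz' : z ∈ Dom r ((I.erase m).erase l) := by rwa [Finset.erase_right_comm]
  rw [key l m hlm hz h3, key m l hlm.symm hz' (by
    intro k hk
    rw [Finset.erase_right_comm] at hk
    exact h3 k hk)]
  rw [ci_swap h0 h0 (h2' m) (h2' l)]
  · refine ci_congr h0.le _ fun ξ hξ => ci_congr h0.le _ fun ζ hζ => ?_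
    rw [Function.update_comm hlm]
  · -- continuity
    intro p hp
    obtain ⟨hp1, hp2⟩ := hp
    have hp1' : ‖p.1‖ = ρ := by simpa using hp1
    have hp2' : ‖p.2‖ = ρ := by simpa using hp2
    have hmem : Function.update (Function.update z m p.1) l p.2 ∈ Dom r I := by
      refine update_mem_Dom_of_Adm hr ?_ ?_
      · refine update_mem_Dom_of_Adm hr hz ?_
        rw [hp1']
        exact ⟨h0, h2' m, fun k _ => h1 k, fun k hk hkm => h3 k (Finset.mem_erase.2 ⟨hkm, hk⟩)⟩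
      · rw [hp2']
        refine ⟨h0, ?_, ?_, ?_⟩
        · rw [Function.update_of_ne hlm]; exact h2' l
        · intro k hk
          by_cases hkm : k = m
          · subst hkm
            rw [Function.update_self, hp1']
            nlinarith
          · rw [Function.update_of_ne hkm]
            exact h1 k
        · intro k hk hkl
          by_cases hkm : k = m
          · subst hkm
            rw [Function.update_self, hp1']
            nlinarith
          · rw [Function.update_of_ne hkm]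
            exact h3 k (Finset.mem_erase.2 ⟨hkm, Finset.mem_erase.2 ⟨hkl, hk⟩⟩)
    have hc := (differentiableAt_of hW hF hmem hw).continuousAt
    have hd : ContinuousAt (fun p : ℂ × ℂ =>
        (Function.update (Function.update z m p.1) l p.2, w)) p := by
      refine (DifferentiableAt.prodMk (𝕜 := ℂ) (differentiable_update₂ l
        (differentiable_update₂ m (differentiableAt_const z) differentiableAt_fst)
        differentiableAt_snd) (differentiableAt_const w)).continuousAt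
    exact (ContinuousAt.comp (g := F) (f := fun p : ℂ × ℂ =>
        (Function.update (Function.update z m p.1) l p.2, w)) hc hd).continuousWithinAt

end Groth.Agent.Gaga.H989.LauDom
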