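import Groth.Agent.Gaga.H989.LauCech

/-!
# Germs along `{|z l| ≤ |z i|, i ∈ I} × {y}` live on `Dom r I ×ˢ W`
-/

set_option autoImplicit false
set_option linter.unusedSectionVars false

open Complex Metric Set Filter Topology
open Groth.Agent.Gaga.H989.LauDom

namespace Groth.Agent.Gaga.H989.LauGerm

variable {ι : Type*} [Fintype ι] [DecidableEq ι]
variable {E : Type*} [NormedAddCommGroup E] [NormedSpace ℂ E]

/-- The closed cone (without the origin) over `K_I`. -/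
def KC (I : Finset ι) : Set (ι → ℂ) := {z | z ≠ 0 ∧ ∀ i ∈ I, ∀ l, ‖z l‖ ≤ ‖z i‖}

theorem KC_subset_Dom {r : ℝ} (hr : 1 < r) (I : Finset ι) : KC I ⊆ Dom r I := by
  rintro z ⟨hz, h⟩ i hi l
  have h0 : 0 < ‖z i‖ := by
    rw [norm_pos_iff]
    intro h0
    apply hz
    funext m
    have := h i hi m
    rw [h0, norm_zero] at this
    simpa using this
  have := h i hi l
  nlinarith

theorem Dom_mono_r {r r' : ℝ} (h : r ≤ r') (I : Finset ι) : Dom r I ⊆ Dom r' I := by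
  intro z hz i hi l
  exact (hz i hi l).trans_le (mul_le_mul_of_nonneg_right h (norm_nonneg _))

theorem ne_zero_of_mem {r : ℝ} {I : Finset ι} (hI : I.Nonempty) {z : ι → ℂ} (hz : z ∈ Dom r I) :
    z ≠ 0 := by
  obtain ⟨i, hi⟩ := hI
  intro h
  exact ne_zero_of_mem_Dom hz hi (by rw [h]; rfl)

/-- A conic open set containing `K_I × {y}` contains some `Dom r I ×ˢ W`. -/
theorem exists_Dom_subset {I : Finset ι} (hI : I.Nonempty) {U : Set ((ι → ℂ) × E)}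
    (hU : IsOpen U) (hcone : ∀ z w, ∀ t : ℂ, t ≠ 0 → (z, w) ∈ U → (t • z, w) ∈ U) (y : E)
    (hK : ∀ z ∈ KC I, (z, y) ∈ U) :
    ∃ r : ℝ, 1 < r ∧ ∃ W : Set E, IsOpen W ∧ y ∈ W ∧ Dom r I ×ˢ W ⊆ U := by
  set S : Set (ι → ℂ) := sphere 0 1 with hS
  have hSc : IsCompact S := isCompact_sphere 0 1
  have hcl : IsClosed {z : ι → ℂ | ∀ i ∈ I, ∀ l, ‖z l‖ ≤ ‖z i‖} := by
    have : {z : ι → ℂ | ∀ i ∈ I, ∀ l, ‖z l‖ ≤ ‖z i‖} =
        ⋂ i ∈ I, ⋂ l, {z : ι → ℂ | ‖z l‖ ≤ ‖z i‖} := by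
      ext z
      simp
    rw [this]
    exact isClosed_biInter fun i _ => isClosed_iInter fun l =>
      isClosed_le (by fun_prop) (by fun_prop)
  have hKc : IsCompact (S ∩ {z : ι → ℂ | ∀ i ∈ I, ∀ l, ‖z l‖ ≤ ‖z i‖}) := hSc.inter_right hcl
  have hsub : (S ∩ {z : ι → ℂ | ∀ i ∈ I, ∀ l, ‖z l‖ ≤ ‖z i‖}) ×ˢ ({y} : Set E) ⊆ U := by
    rintro ⟨z, w⟩ ⟨⟨hz, hz'⟩, hw⟩
    simp only [mem_singleton_iff] at hw
    subst hw
    refine hK z ⟨?_, hz'⟩
    rintro rfl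
    simp [hS] at hz
  obtain ⟨u, v, hu, hv, hKu, hyv, huv⟩ := generalized_tube_lemma hKc isCompact_singleton hU hsub
  have hφ : Continuous fun z : ι → ℂ => I.inf' hI fun i => ‖z i‖ :=
    Continuous.finset_inf'_apply hI fun i _ => by fun_prop
  have hlt : ∀ z ∈ S \ u, (I.inf' hI fun i => ‖z i‖) < 1 := by
    rintro z ⟨hz, hzu⟩
    by_contra hge
    rw [not_lt] at hge
    apply hzu
    refine hKu ⟨hz, fun i hi l => ?_⟩
    have h1 : ‖z‖ = 1 := by simpa [hS] using hz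
    calc ‖z l‖ ≤ ‖z‖ := norm_le_pi_norm z l
      _ = 1 := h1
      _ ≤ I.inf' hI fun i => ‖z i‖ := hge
      _ ≤ ‖z i‖ := Finset.inf'_le _ hi
  obtain ⟨r, hr, hr'⟩ : ∃ r : ℝ, 1 < r ∧ ∀ z ∈ S \ u, r * (I.inf' hI fun i => ‖z i‖) < 1 := by
    by_cases hne : (S \ u).Nonempty
    · obtain ⟨z₀, hz₀, hmax⟩ := (hSc.diff hu).exists_isMaxOn hne hφ.continuousOn
      set M := I.inf' hI fun i => ‖z₀ i‖ with hM
      have hM0 : 0 ≤ M := by
        rw [hM, Finset.le_inf'_iff]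
        exact fun i _ => norm_nonneg _
      have hM1 : M < 1 := hlt z₀ hz₀
      refine ⟨2 / (1 + M), ?_, fun z hz => ?_⟩
      · rw [lt_div_iff₀ (by linarith)]
        linarith
      · have h1 : (I.inf' hI fun i => ‖z i‖) ≤ M := hmax hz
        have h2 : 0 < 2 / (1 + M) := by positivity
        calc 2 / (1 + M) * (I.inf' hI fun i => ‖z i‖) ≤ 2 / (1 + M) * M :=
              mul_le_mul_of_nonneg_left h1 h2.le
          _ < 1 := by
              rw [div_mul_eq_mul_div, div_lt_one (by linarith)]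
              linarith
    · refine ⟨2, by norm_num, fun z hz => absurd ⟨z, hz⟩ hne⟩
  refine ⟨r, hr, v, hv, hyv (mem_singleton y), ?_⟩
  rintro ⟨z, w⟩ ⟨hz, hw⟩
  simp only at hz hw
  have hz0 : z ≠ 0 := ne_zero_of_mem hI hz
  have hn : (‖z‖ : ℂ) ≠ 0 := by
    exact_mod_cast (norm_ne_zero_iff.2 hz0)
  set z' : ι → ℂ := (‖z‖ : ℂ)⁻¹ • z with hz'
  have hz'S : z' ∈ S := by
    rw [hS, mem_sphere_zero_iff_norm, hz', norm_smul, norm_inv, Complex.norm_real, norm_norm]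
    exact inv_mul_cancel₀ (norm_ne_zero_iff.2 hz0)
  have hz'D : z' ∈ Dom r I := smul_mem_Dom hz (inv_ne_zero hn)
  have hz'u : z' ∈ u := by
    by_contra hnu
    have h1 := hr' z' ⟨hz'S, hnu⟩
    obtain ⟨i, hi, hi'⟩ := Finset.exists_mem_eq_inf' hI fun i => ‖z' i‖
    rw [hi'] at h1
    have h2 : ‖z'‖ < r * ‖z' i‖ := by
      refine (pi_norm_lt_iff ((norm_nonneg _).trans_lt (hz'D i hi i))).2 (hz'D i hi)
    have h3 : ‖z'‖ = 1 := by simpa [hS] using hz'S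
    linarith
  have h1 : (z', w) ∈ U := huv ⟨hz'u, hw⟩
  have h2 := hcone z' w (‖z‖ : ℂ) hn h1
  rwa [hz', smul_smul, mul_inv_cancel₀ hn, one_smul] at h2

/-- Common `r` and `W` for a finite family. -/
theorem exists_Dom_subset_finite {κ : Type*} [Finite κ] (I : κ → Finset ι)
    (hI : ∀ k, (I k).Nonempty) {U : κ → Set ((ι → ℂ) × E)}
    (hU : ∀ k, IsOpen (U k))
    (hcone : ∀ k, ∀ z w, ∀ t : ℂ, t ≠ 0 → (z, w) ∈ U k → (t • z, w) ∈ U k) (y : E)
    (hK : ∀ k, ∀ z ∈ KC (I k), (z, y) ∈ U k) :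
    ∃ r : ℝ, 1 < r ∧ ∃ W : Set E, IsOpen W ∧ y ∈ W ∧ ∀ k, Dom r (I k) ×ˢ W ⊆ U k := by
  cases nonempty_fintype κ
  choose r hr W hW hy hsub using fun k =>
    exists_Dom_subset (hI k) (hU k) (hcone k) y (hK k)
  by_cases hne : Nonempty κ
  · refine ⟨Finset.univ.inf' Finset.univ_nonempty r, ?_, ⋂ k, W k,
      isOpen_iInter_of_finite hW, mem_iInter.2 hy, fun k => ?_⟩
    · rw [Finset.lt_inf'_iff]
      exact fun k _ => hr k
    · refine (Set.prod_mono (Dom_mono_r (Finset.inf'_le _ (Finset.mem_univ k)) _)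
        (iInter_subset W k)).trans (hsub k)
  · exact ⟨2, by norm_num, univ, isOpen_univ, mem_univ y, fun k => absurd ⟨k⟩ hne⟩

end Groth.Agent.Gaga.H989.LauGerm
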