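import Groth.Agent.Gaga.H989.LauDom

/-!
# Homogeneous holomorphic functions on the cones `Dom r I`, extension and uniqueness
-/

set_option autoImplicit false
set_option linter.unusedSectionVars false

open Complex Metric Set MeasureTheory Filter Topology
open Groth.Agent.Gaga.H506.Scv Groth.Agent.Gaga.H989.LauOne Groth.Agent.Gaga.H989.LauDom

namespace Groth.Agent.Gaga.H989.LauHom

variable {ι : Type*} [Fintype ι] [DecidableEq ι]
variable {E : Type*} [NormedAddCommGroup E] [NormedSpace ℂ E]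

/-- `F` is a section of `O(j)` over (cone `Dom r I`) times `W`. -/
structure IsO (r : ℝ) (j : ℤ) (W : Set E) (I : Finset ι) (F : (ι → ℂ) × E → ℂ) : Prop where
  diff : DifferentiableOn ℂ F (Dom r I ×ˢ W)
  hom : ∀ z ∈ Dom r I, ∀ w ∈ W, ∀ t : ℂ, t ≠ 0 → F (t • z, w) = t ^ j * F (z, w)

theorem IsO.mono {r : ℝ} {j : ℤ} {W : Set E} {I J : Finset ι} (hIJ : I ⊆ J)
    {F : (ι → ℂ) × E → ℂ} (hF : IsO r j W I F) : IsO r j W J F :=
  ⟨hF.diff.mono (Set.prod_mono (Dom_mono hIJ) subset_rfl),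
    fun z hz w hw t ht => hF.hom z (Dom_mono hIJ hz) w hw t ht⟩

theorem IsO.congr {r : ℝ} {j : ℤ} {W : Set E} {I : Finset ι}
    {F F' : (ι → ℂ) × E → ℂ} (hF : IsO r j W I F) (h : ∀ p ∈ Dom r I ×ˢ W, F' p = F p) :
    IsO r j W I F' := by
  refine ⟨hF.diff.congr h, fun z hz w hw t ht => ?_⟩
  rw [h (t • z, w) ⟨smul_mem_Dom hz ht, hw⟩, h (z, w) ⟨hz, hw⟩]
  exact hF.hom z hz w hw t ht

theorem isO_zero (r : ℝ) (j : ℤ) (W : Set E) (I : Finset ι) : IsO r j W I (fun _ => 0) :=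
  ⟨differentiableOn_const 0, fun _ _ _ _ _ _ => by simp⟩

theorem IsO.add {r : ℝ} {j : ℤ} {W : Set E} {I : Finset ι}
    {F F' : (ι → ℂ) × E → ℂ} (hF : IsO r j W I F) (hF' : IsO r j W I F') :
    IsO r j W I (fun p => F p + F' p) :=
  ⟨hF.diff.add hF'.diff, fun z hz w hw t ht => by
    rw [hF.hom z hz w hw t ht, hF'.hom z hz w hw t ht, mul_add]⟩

theorem IsO.const_mul {r : ℝ} {j : ℤ} {W : Set E} {I : Finset ι} (a : ℂ)
    {F : (ι → ℂ) × E → ℂ} (hF : IsO r j W I F) :
    IsO r j W I (fun p => a * F p) :=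
  ⟨hF.diff.const_mul a, fun z hz w hw t ht => by
    rw [hF.hom z hz w hw t ht]; ring⟩

theorem isO_sum {κ : Type*} (s : Finset κ) {r : ℝ} {j : ℤ} {W : Set E} {I : Finset ι}
    {F : κ → (ι → ℂ) × E → ℂ} (hF : ∀ k ∈ s, IsO r j W I (F k)) :
    IsO r j W I (fun p => ∑ k ∈ s, F k p) := by
  classical
  induction s using Finset.induction_on with
  | empty => simpa using isO_zero r j W I
  | insert a s ha ih =>
    have h1 := (hF a (Finset.mem_insert_self a s)).add
      (ih fun k hk => hF k (Finset.mem_insert_of_mem hk))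
    refine h1.congr fun p _ => ?_
    rw [Finset.sum_insert ha]

theorem Adm.smul {r : ℝ} {I : Finset ι} {l : ι} {z : ι → ℂ} {ρ : ℝ} (h : Adm r I l z ρ) {t : ℂ}
    (ht : t ≠ 0) : Adm r I l (t • z) (‖t‖ * ρ) := by
  have ht' : 0 < ‖t‖ := norm_pos_iff.2 ht
  refine ⟨mul_pos ht' h.1, ?_, fun m hm => ?_, fun k hk hkl => ?_⟩
  · simp only [Pi.smul_apply, smul_eq_mul, norm_mul]
    exact mul_lt_mul_of_pos_left h.2.1 ht'
  · simp only [Pi.smul_apply, smul_eq_mul, norm_mul]
    have := mul_lt_mul_of_pos_left (h.2.2.1 m hm) ht'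
    linarith
  · simp only [Pi.smul_apply, smul_eq_mul, norm_mul]
    have := mul_lt_mul_of_pos_left (h.2.2.2 k hk hkl) ht'
    linarith

/-- The projector preserves homogeneity. -/
theorem IsO.pr {r : ℝ} (hr : 1 < r) {j : ℤ} {W : Set E} (hW : IsOpen W) {I : Finset ι} (l : ι)
    {F : (ι → ℂ) × E → ℂ} (hF : IsO r j W I F) : IsO r j W (I.erase l) (Pr r I l F) := by
  refine ⟨differentiableOn_Pr hr hW l hF.diff, fun z hz w hw t ht => ?_⟩
  have hρ := rad_spec hr hz
  rw [Pr_eq_ci hr hW hF.diff (smul_mem_Dom hz ht) hw (Adm.smul hρ ht)]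
  simp only [Pi.smul_apply, smul_eq_mul]
  rw [ci_scale ht]
  have : ∀ ζ, ‖ζ‖ = rad r I l z → F (Function.update (t • z) l (t * ζ), w) =
      t ^ j * F (Function.update z l ζ, w) := by
    intro ζ hζ
    have h1 : Function.update (t • z) l (t * ζ) = t • Function.update z l ζ := by
      rw [← smul_eq_mul, Function.update_smul]
    rw [h1]
    exact hF.hom _ (update_mem_Dom_of_Adm hr hz (by rw [hζ]; exact hρ)) w hw t ht
  rw [ci_congr hρ.1.le _ this, ci_smul]
  rfl

/-- Uniqueness of extensions. -/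
theorem eq_zero_of_eq_zero {r : ℝ} (hr : 1 < r) {W : Set E} (hW : IsOpen W) {I : Finset ι}
    {F : (ι → ℂ) × E → ℂ} (hF : DifferentiableOn ℂ F (Dom r I ×ˢ W))
    (h0 : ∀ p ∈ Dom r Finset.univ ×ˢ W, F p = 0) : ∀ p ∈ Dom r I ×ˢ W, F p = 0 := by
  have key : ∀ S : Finset ι, Disjoint S I → ∀ p ∈ Dom r (Finset.univ \ S) ×ˢ W, F p = 0 := by
    intro S
    induction S using Finset.induction_on with
    | empty =>
      intro _
      simpa using h0
    | insert a S ha ih =>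
      intro hd p hp
      have haI : a ∉ I := Finset.disjoint_left.1 hd (Finset.mem_insert_self a S)
      have hSI : Disjoint S I := Finset.disjoint_of_subset_left (Finset.subset_insert a S) hd
      have he : Finset.univ \ insert a S = (Finset.univ \ S).erase a := by
        ext x
        simp [not_or]
      rw [he] at hp
      obtain ⟨hz, hw⟩ := hp
      have hsub : I ⊆ Finset.univ \ S := by
        intro i hi
        simp only [Finset.mem_sdiff, Finset.mem_univ, true_and]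
        exact fun h => Finset.disjoint_left.1 hSI h hi
      have h1 := Pr_eq_self hr hW hsub haI hF hz hw
      have h2 : Pr r (Finset.univ \ S) a F (p.1, p.2) =
          Pr r (Finset.univ \ S) a (fun _ => 0) (p.1, p.2) :=
        Pr_congr hr (fun q hq => ih hSI q hq) hz hw
      have h3 : Pr r (Finset.univ \ S) a (fun _ : (ι → ℂ) × E => 0) (p.1, p.2) = 0 := ci_zero _ _
      rw [h2, h3] at h1
      exact h1.symm
  have := key (Finset.univ \ I) Finset.sdiff_disjoint
  rwa [show Finset.univ \ (Finset.univ \ I) = I from by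
    ext x
    simp] at this

/-- Extension: a function on the smallest cone, fixed by the projectors `Pr l`, `l ∈ S`, extends
to the cone of `univ \ S`. -/
theorem exists_extension {r : ℝ} (hr : 1 < r) {j : ℤ} {W : Set E} (hW : IsOpen W)
    {f : (ι → ℂ) × E → ℂ} (hf : IsO r j W Finset.univ f) (S : Finset ι)
    (hS : ∀ l ∈ S, ∀ p ∈ Dom r Finset.univ ×ˢ W, Pr r Finset.univ l f p = f p) :
    ∃ F : (ι → ℂ) × E → ℂ, IsO r j W (Finset.univ \ S) F ∧
      ∀ p ∈ Dom r Finset.univ ×ˢ W, F p = f p := by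
  induction S using Finset.induction_on with
  | empty => exact ⟨f, by simpa using hf, fun _ _ => rfl⟩
  | insert a S ha ih =>
    obtain ⟨F, hF, hFf⟩ := ih fun l hl => hS l (Finset.mem_insert_of_mem hl)
    have he : Finset.univ \ insert a S = (Finset.univ \ S).erase a := by
      ext x
      simp [not_or]
    refine ⟨Pr r (Finset.univ \ S) a F, ?_, ?_⟩
    · rw [he]
      exact hF.pr hr hW a
    · rintro ⟨z, w⟩ ⟨hz, hw⟩
      have hz' : z ∈ Dom r (Finset.univ.erase a) := Dom_univ_subset _ hz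
      rw [← Pr_mono hr hW (Finset.subset_univ _) hF.diff hz' hw, Pr_congr hr hFf hz' hw]
      exact hS a (Finset.mem_insert_self a S) (z, w) ⟨hz, hw⟩

/-- Idempotence. -/
theorem Pr_idem {r : ℝ} (hr : 1 < r) {W : Set E} (hW : IsOpen W) {I : Finset ι} (l : ι)
    {F : (ι → ℂ) × E → ℂ} (hF : DifferentiableOn ℂ F (Dom r I ×ˢ W)) {z : ι → ℂ} {w : E}
    (hz : z ∈ Dom r (I.erase l)) (hw : w ∈ W) :
    Pr r I l (Pr r I l F) (z, w) = Pr r I l F (z, w) :=
  Pr_eq_self hr hW (Finset.erase_subset l I) (Finset.notMem_erase l I)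
    (differentiableOn_Pr hr hW l hF) hz hw

/-- Entire homogeneous functions of negative degree vanish. -/
theorem eq_zero_of_neg {r : ℝ} {j : ℤ} (hj : j < 0) {W : Set E} (hW : IsOpen W)
    {F : (ι → ℂ) × E → ℂ} (hF : IsO r j W (∅ : Finset ι) F) (z : ι → ℂ) {w : E} (hw : w ∈ W) :
    F (z, w) = 0 := by
  by_contra hne
  have hmem : ∀ z : ι → ℂ, z ∈ Dom r (∅ : Finset ι) := fun z => by simp
  have hc : ContinuousAt (fun t : ℂ => F (t • z, w)) 0 := by
    have h1 : ContinuousAt F ((0 : ℂ) • z, w) :=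
      (differentiableAt_of hW hF.diff (hmem _) hw).continuousAt
    exact ContinuousAt.comp (g := F) (f := fun t : ℂ => (t • z, w)) h1 (by fun_prop)
  obtain ⟨k, rfl⟩ : ∃ k : ℕ, j = -(k + 1 : ℤ) := by
    obtain ⟨k, hk⟩ := Int.eq_ofNat_of_zero_le (a := -j - 1) (by omega)
    exact ⟨k, by omega⟩
  -- `t^(k+1) F(tz) = F(z)` for `t ≠ 0`; let `t → 0`
  have h2 : ContinuousAt (fun t : ℂ => t ^ (k + 1) * F (t • z, w)) 0 :=
    (continuousAt_id.pow (k + 1)).mul hc
  have h3 : Tendsto (fun t : ℂ => t ^ (k + 1) * F (t • z, w)) (𝓝[≠] 0) (𝓝 0) := by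
    have := h2.tendsto.mono_left (nhdsWithin_le_nhds (s := {(0 : ℂ)}ᶜ))
    simpa using this
  have h4 : Tendsto (fun t : ℂ => t ^ (k + 1) * F (t • z, w)) (𝓝[≠] 0) (𝓝 (F (z, w))) := by
    refine Tendsto.congr' ?_ tendsto_const_nhds
    filter_upwards [self_mem_nhdsWithin] with t ht
    have ht' : t ≠ 0 := ht
    rw [hF.hom z (hmem z) w hw t ht']
    rw [zpow_neg, ← mul_assoc]
    have : t ^ (k + 1) * (t ^ ((k : ℤ) + 1))⁻¹ = 1 := by
      have h5 : t ^ ((k : ℤ) + 1) = t ^ (k + 1) := by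
        rw [← zpow_natCast]
        push_cast
        rfl
      rw [h5]
      exact mul_inv_cancel₀ (pow_ne_zero _ ht')
    rw [this, one_mul]
  exact hne (tendsto_nhds_unique h4 h3)

theorem differentiableAt_prod {G : Type*} [NormedAddCommGroup G] [NormedSpace ℂ G] {κ : Type*}
    (s : Finset κ) (f : κ → G → ℂ) {x : G} (h : ∀ k ∈ s, DifferentiableAt ℂ (f k) x) :
    DifferentiableAt ℂ (fun x => ∏ k ∈ s, f k x) x := by
  classical
  induction s using Finset.induction_on with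
  | empty => simp
  | insert a s ha ih =>
    simp only [Finset.prod_insert ha]
    exact (h a (Finset.mem_insert_self a s)).mul
      (ih fun k hk => h k (Finset.mem_insert_of_mem hk))

/-- The inversion trick. -/
noncomputable def invol (f : (ι → ℂ) × E → ℂ) (p : (ι → ℂ) × E) : ℂ :=
  (∏ l, p.1 l)⁻¹ * f (fun l => (p.1 l)⁻¹, p.2)

theorem inv_mem_Dom {r : ℝ} {z : ι → ℂ} (hz : z ∈ Dom r Finset.univ) :
    (fun l => (z l)⁻¹) ∈ Dom r Finset.univ := by
  intro i _ l
  have h1 := hz l (Finset.mem_univ l) i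
  have hi : 0 < ‖z i‖ := norm_pos_iff.2 (ne_zero_of_mem_Dom hz (Finset.mem_univ i))
  have hl : 0 < ‖z l‖ := norm_pos_iff.2 (ne_zero_of_mem_Dom hz (Finset.mem_univ l))
  simp only [norm_inv]
  rw [← div_eq_mul_inv, lt_div_iff₀ hi, inv_mul_eq_div, div_lt_iff₀ hl]
  exact h1

theorem invol_invol {r : ℝ} (f : (ι → ℂ) × E → ℂ) {p : (ι → ℂ) × E}
    (hp : p.1 ∈ Dom r Finset.univ) : invol (invol f) p = f p := by
  unfold invol
  have h : ∏ l, p.1 l ≠ 0 :=
    Finset.prod_ne_zero_iff.2 fun l hl => ne_zero_of_mem_Dom hp hl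
  simp only [inv_inv, Finset.prod_inv_distrib]
  rw [← mul_assoc, inv_mul_cancel₀ h, one_mul]

theorem isO_invol {r : ℝ} {j : ℤ} {W : Set E} (hW : IsOpen W)
    {f : (ι → ℂ) × E → ℂ} (hf : IsO r j W Finset.univ f) :
    IsO r (-j - Fintype.card ι) W Finset.univ (invol f) := by
  refine ⟨?_, ?_⟩
  · rintro ⟨z, w⟩ ⟨hz, hw⟩
    simp only at hz hw
    have hne : ∀ l, z l ≠ 0 := fun l => ne_zero_of_mem_Dom hz (Finset.mem_univ l)
    have h1 : DifferentiableAt ℂ (fun p : (ι → ℂ) × E => (∏ l, p.1 l)⁻¹) (z, w) := by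
      have h0 : DifferentiableAt ℂ (fun p : (ι → ℂ) × E => ∏ l, p.1 l) (z, w) :=
        differentiableAt_prod Finset.univ (fun l (p : (ι → ℂ) × E) => p.1 l)
          fun l _ => by fun_prop
      exact h0.inv (Finset.prod_ne_zero_iff.2 fun l _ => hne l)
    have h2 : DifferentiableAt ℂ (fun p : (ι → ℂ) × E => (fun l => (p.1 l)⁻¹, p.2)) (z, w) := by
      refine DifferentiableAt.prodMk ?_ differentiableAt_snd
      rw [differentiableAt_pi]
      intro l
      exact DifferentiableAt.inv (by fun_prop) (hne l)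
    have h3 : DifferentiableAt ℂ f (fun l => (z l)⁻¹, w) :=
      differentiableAt_of hW hf.diff (inv_mem_Dom hz) hw
    exact (h1.mul (DifferentiableAt.comp (z, w) (g := f)
      (f := fun p : (ι → ℂ) × E => (fun l => (p.1 l)⁻¹, p.2)) h3 h2)).differentiableWithinAt
  · intro z hz w hw t ht
    unfold invol
    simp only [Pi.smul_apply, smul_eq_mul, Finset.prod_mul_distrib, Finset.prod_const,
      Finset.card_univ]
    have h1 : (fun l => (t * z l)⁻¹) = t⁻¹ • (fun l => (z l)⁻¹) := by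
      funext l
      change (t * z l)⁻¹ = t⁻¹ * (z l)⁻¹
      rw [mul_inv]
    rw [h1, hf.hom _ (inv_mem_Dom hz) w hw _ (inv_ne_zero ht)]
    rw [mul_inv, inv_zpow', zpow_sub₀ ht, zpow_natCast]
    ring

/-- If `Pr l f = 0` then `Pr l (invol f) = invol f`. -/
theorem Pr_invol {r : ℝ} (hr : 1 < r) {j : ℤ} {W : Set E} (hW : IsOpen W)
    {f : (ι → ℂ) × E → ℂ} (hf : IsO r j W Finset.univ f) (l : ι)
    (h0 : ∀ p ∈ Dom r Finset.univ ×ˢ W, Pr r Finset.univ l f p = 0) :
    ∀ p ∈ Dom r Finset.univ ×ˢ W, Pr r Finset.univ l (invol f) p = invol f p := by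
  rintro ⟨z, w⟩ ⟨hz, hw⟩
  simp only at hz hw
  have hne : ∀ l, z l ≠ 0 := fun l => ne_zero_of_mem_Dom hz (Finset.mem_univ l)
  have hz' : z ∈ Dom r (Finset.univ.erase l) := Dom_univ_subset _ hz
  set z' : ι → ℂ := fun l => (z l)⁻¹ with hz'def
  have hi : z' ∈ Dom r Finset.univ := inv_mem_Dom hz
  have hi' : z' ∈ Dom r (Finset.univ.erase l) := Dom_univ_subset _ hi
  obtain ⟨ρ, hρ⟩ := exists_Adm hr hz'
  obtain ⟨ρ₂, hρ₂⟩ := exists_Adm hr hi'
  rw [Pr_eq_ci hr hW (isO_invol hW hf).diff hz' hw hρ]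
  set h : ℂ → ℂ := fun ξ => f (Function.update z' l ξ, w) with hh
  set c : ℂ := (∏ m ∈ Finset.univ.erase l, z m)⁻¹ with hc
  have hprod : ∀ ζ : ℂ, ∏ m, Function.update z l ζ m = ζ * ∏ m ∈ Finset.univ.erase l, z m := by
    intro ζ
    rw [← Finset.mul_prod_erase Finset.univ _ (Finset.mem_univ l), Function.update_self]
    congr 1
    refine Finset.prod_congr rfl fun m hm => ?_
    rw [Function.update_of_ne (Finset.ne_of_mem_erase hm)]
  have e1 : ∀ ζ, ‖ζ‖ = ρ → invol f (Function.update z l ζ, w) = c * (ζ⁻¹ * h ζ⁻¹) := by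
    intro ζ _
    have h2 : (fun m => (Function.update z l ζ m)⁻¹) = Function.update z' l ζ⁻¹ := by
      funext m
      by_cases hm : m = l
      · subst hm; simp
      · simp [Function.update_of_ne hm, hz'def]
    unfold invol
    simp only [hh]
    rw [hprod, h2, mul_inv, hc]
    ring
  rw [ci_congr hρ.1.le _ e1, ci_smul, ci_inv ρ hρ.1 (hne l)]
  -- annulus formula
  have hρpos : 0 < ρ⁻¹ := inv_pos.2 hρ.1
  have h1 : ρ⁻¹ < ‖(z l)⁻¹‖ := by
    rw [norm_inv]
    exact inv_strictAnti₀ (norm_pos_iff.2 (hne l)) hρ.2.1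
  have h2 : ‖(z l)⁻¹‖ < ρ₂ := hρ₂.2.1
  have h3 := ci_sub_ci (g := h) hρpos h1 h2 (by
    intro ξ hξ1 hξ2
    refine differentiableAt_slice (differentiableAt_of hW hf.diff ?_ hw)
    refine update_mem_Dom hr hi' (norm_pos_iff.1 (hρpos.trans_le hξ1)) ?_ ?_
    · intro m hm
      have hm1 := hρ.2.2.2 m (Finset.mem_univ m) hm
      have hm0 : 0 < ‖z m‖ := norm_pos_iff.2 (hne m)
      have hm2 : ‖z' m‖ < r * ρ⁻¹ := by
        simp only [hz'def, norm_inv]
        rw [← div_eq_mul_inv, lt_div_iff₀ hρ.1, inv_mul_eq_div, div_lt_iff₀ hm0]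
        exact hm1
      refine hm2.trans_le (mul_le_mul_of_nonneg_left hξ1 (by linarith))
    · intro k hk hkl
      exact hξ2.trans_lt (hρ₂.2.2.2 k hk hkl))
  have h4 : ci ρ₂ h (z l)⁻¹ = 0 := by
    have := h0 (z', w) ⟨hi, hw⟩
    rw [Pr_eq_ci hr hW hf.diff hi' hw hρ₂] at this
    exact this
  rw [h4, zero_sub] at h3
  have h5 : h (z l)⁻¹ = f (z', w) := by
    simp only [hh]
    rw [show Function.update z' l (z l)⁻¹ = z' from by
      simp [hz'def]]
  rw [h5] at h3
  have h6 : invol f (z, w) = c * ((z l)⁻¹ * f (z', w)) := by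
    unfold invol
    simp only
    rw [← Finset.mul_prod_erase Finset.univ _ (Finset.mem_univ l), mul_inv, hc]
    ring
  rw [h6, ← h3]
  ring

/-- **Key vanishing**: for `j > - card ι`, a section of `O(j)` on the smallest cone all of whose
Laurent exponents are negative is zero. -/
theorem eq_zero_of_Pr_eq_zero {r : ℝ} (hr : 1 < r) {j : ℤ} (hj : -(Fintype.card ι : ℤ) < j)
    {W : Set E} (hW : IsOpen W)
    {f : (ι → ℂ) × E → ℂ} (hf : IsO r j W Finset.univ f)
    (h0 : ∀ l, ∀ p ∈ Dom r Finset.univ ×ˢ W, Pr r Finset.univ l f p = 0) :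
    ∀ p ∈ Dom r Finset.univ ×ˢ W, f p = 0 := by
  obtain ⟨G, hG, hGf⟩ := exists_extension hr hW (isO_invol hW hf) Finset.univ
    (fun l _ => Pr_invol hr hW hf l (h0 l))
  rw [Finset.sdiff_self] at hG
  rintro ⟨z, w⟩ ⟨hz, hw⟩
  simp only at hz hw
  have h1 : ∀ z ∈ Dom r Finset.univ, invol f (z, w) = 0 := by
    intro z hz
    rw [← hGf (z, w) ⟨hz, hw⟩]
    exact eq_zero_of_neg (by omega) hW hG z hw
  rw [← invol_invol f hz]
  change (∏ l, z l)⁻¹ * invol f (fun l => (z l)⁻¹, w) = 0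
  rw [h1 _ (inv_mem_Dom hz), mul_zero]

end Groth.Agent.Gaga.H989.LauHom
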