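import Mathlib.Analysis.Complex.CauchyIntegral
import Mathlib.Analysis.Complex.RemovableSingularity
import Mathlib.MeasureTheory.Integral.IntervalIntegral.Periodic
import Mathlib.MeasureTheory.Integral.Prod

/-!
# One variable Laurent splitting, by Cauchy integrals over circles centered at `0`
-/

set_option autoImplicit false

open Complex Metric Set MeasureTheory
open scoped Real

namespace Groth.Agent.Gaga.H989.LauOne

/-- `(2πi)⁻¹ ∮_{|ζ| = ρ} g ζ / (ζ - z) dζ`. -/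
noncomputable def ci (ρ : ℝ) (g : ℂ → ℂ) (z : ℂ) : ℂ :=
  (2 * π * I : ℂ)⁻¹ • ∮ ζ in C(0, ρ), (ζ - z)⁻¹ • g ζ

theorem two_pi_I_ne : (2 * π * I : ℂ) ≠ 0 := by simp [Real.pi_ne_zero]

theorem ci_congr {ρ : ℝ} (hρ : 0 ≤ ρ) {g g' : ℂ → ℂ} (z : ℂ) (h : ∀ ζ, ‖ζ‖ = ρ → g ζ = g' ζ) :
    ci ρ g z = ci ρ g' z := by
  unfold ci
  congr 1
  refine circleIntegral.integral_congr hρ fun ζ hζ => ?_
  rw [h ζ (by simpa using hζ)]

theorem ci_smul (ρ : ℝ) (g : ℂ → ℂ) (z a : ℂ) : ci ρ (fun ζ => a * g ζ) z = a * ci ρ g z := by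
  unfold ci
  have : (∮ ζ in C(0, ρ), (ζ - z)⁻¹ • (a * g ζ)) = a * ∮ ζ in C(0, ρ), (ζ - z)⁻¹ • g ζ := by
    rw [← circleIntegral.integral_const_mul]
    congr 1
    funext ζ
    simp only [smul_eq_mul]
    ring
  rw [this]
  simp only [smul_eq_mul]
  ring

theorem ci_zero (ρ : ℝ) (z : ℂ) : ci ρ (fun _ => 0) z = 0 := by
  simpa using ci_smul ρ (fun _ => 0) z 0

theorem circleIntegrable_inv_smul {ρ : ℝ} (hρ : 0 ≤ ρ) {g : ℂ → ℂ} {z : ℂ} (hz : ‖z‖ ≠ ρ)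
    (hg : ∀ ζ, ‖ζ‖ = ρ → ContinuousAt g ζ) :
    CircleIntegrable (fun ζ => (ζ - z)⁻¹ • g ζ) 0 ρ := by
  refine ContinuousOn.circleIntegrable hρ ?_
  intro ζ hζ
  have hζ' : ‖ζ‖ = ρ := by simpa using hζ
  have hne : ζ - z ≠ 0 := by
    intro h
    rw [sub_eq_zero] at h
    exact hz (h ▸ hζ')
  exact (((continuousAt_id.sub continuousAt_const).inv₀ hne).smul
    (hg ζ hζ')).continuousWithinAt

theorem ci_add {ρ : ℝ} (hρ : 0 ≤ ρ) {g g' : ℂ → ℂ} {z : ℂ} (hz : ‖z‖ ≠ ρ)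
    (hg : ∀ ζ, ‖ζ‖ = ρ → ContinuousAt g ζ) (hg' : ∀ ζ, ‖ζ‖ = ρ → ContinuousAt g' ζ) :
    ci ρ (fun ζ => g ζ + g' ζ) z = ci ρ g z + ci ρ g' z := by
  unfold ci
  rw [← smul_add, ← circleIntegral.integral_add (circleIntegrable_inv_smul hρ hz hg)
    (circleIntegrable_inv_smul hρ hz hg')]
  congr 2
  funext ζ
  simp [mul_add]

/-- Independence of the radius. -/
theorem ci_eq_of_le {ρ₁ ρ₂ : ℝ} (h1 : 0 < ρ₁) (h : ρ₁ ≤ ρ₂) {g : ℂ → ℂ} {z : ℂ} (hz : ‖z‖ < ρ₁)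
    (hg : ∀ ζ, ρ₁ ≤ ‖ζ‖ → ‖ζ‖ ≤ ρ₂ → DifferentiableAt ℂ g ζ) : ci ρ₁ g z = ci ρ₂ g z := by
  unfold ci
  congr 1
  have hd : ∀ ζ, ρ₁ ≤ ‖ζ‖ → ‖ζ‖ ≤ ρ₂ → DifferentiableAt ℂ (fun ζ => (ζ - z)⁻¹ • g ζ) ζ := by
    intro ζ h1 h2
    have hne : ζ - z ≠ 0 := by
      intro h
      rw [sub_eq_zero] at h
      subst h
      linarith
    exact ((differentiableAt_id.sub_const z).inv hne).smul (hg ζ h1 h2)
  refine (circleIntegral_eq_of_differentiable_on_annulus_off_countable h1 h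
    Set.countable_empty ?_ ?_).symm
  · intro ζ hζ
    refine (hd ζ ?_ ?_).continuousAt.continuousWithinAt
    · simpa using hζ.2
    · simpa using hζ.1
  · intro ζ hζ
    refine hd ζ ?_ ?_
    · have := hζ.1.2
      simp at this
      exact this.le
    · have := hζ.1.1
      simp at this
      exact this.le

/-- Cauchy's formula on the disc. -/
theorem ci_eq_self {ρ : ℝ} {g : ℂ → ℂ} {z : ℂ} (hz : ‖z‖ < ρ)
    (hg : ∀ ζ, ‖ζ‖ ≤ ρ → DifferentiableAt ℂ g ζ) : ci ρ g z = g z := by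
  have hd : DifferentiableOn ℂ g (closedBall 0 ρ) := fun ζ hζ =>
    (hg ζ (by simpa using hζ)).differentiableWithinAt
  have := hd.circleIntegral_sub_inv_smul (w := z) (by simpa using hz)
  unfold ci
  rw [this, smul_smul, inv_mul_cancel₀ two_pi_I_ne, one_smul]

theorem ci_one_outer {ρ : ℝ} {z : ℂ} (h0 : 0 ≤ ρ) (hz : ρ < ‖z‖) (a : ℂ) :
    ci ρ (fun _ => a) z = 0 := by
  unfold ci
  have h : (∮ ζ in C(0, ρ), (ζ - z)⁻¹ • a) = 0 := by
    refine circleIntegral_eq_zero_of_differentiable_on_off_countable h0 Set.countable_empty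
      ?_ ?_
    · intro ζ hζ
      have hζ' : ‖ζ‖ ≤ ρ := by simpa using hζ
      have hne : ζ - z ≠ 0 := by
        intro h
        rw [sub_eq_zero] at h
        subst h
        linarith
      have h1 : DifferentiableAt ℂ (fun ζ : ℂ => (ζ - z)⁻¹ • a) ζ :=
        ((differentiableAt_id.sub_const z).inv hne).smul (differentiableAt_const a)
      exact h1.continuousAt.continuousWithinAt
    · intro ζ hζ
      have hζ' : ‖ζ‖ < ρ := by simpa using hζ.1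
      have hne : ζ - z ≠ 0 := by
        intro h
        rw [sub_eq_zero] at h
        subst h
        linarith
      exact ((differentiableAt_id.sub_const z).inv hne).smul (differentiableAt_const a)
  rw [h, smul_zero]

/-- Cauchy's formula on an annulus. -/
theorem ci_sub_ci {ρ₁ ρ₂ : ℝ} (h1 : 0 < ρ₁) {g : ℂ → ℂ} {z : ℂ} (hz1 : ρ₁ < ‖z‖) (hz2 : ‖z‖ < ρ₂)
    (hg : ∀ ζ, ρ₁ ≤ ‖ζ‖ → ‖ζ‖ ≤ ρ₂ → DifferentiableAt ℂ g ζ) :
    ci ρ₂ g z - ci ρ₁ g z = g z := by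
  -- the difference quotient
  have hds : (∮ ζ in C(0, ρ₂), dslope g z ζ) = ∮ ζ in C(0, ρ₁), dslope g z ζ := by
    refine circleIntegral_eq_of_differentiable_on_annulus_off_countable h1 (hz1.trans hz2).le
      (Set.countable_singleton z) ?_ ?_
    · intro ζ hζ
      have h2 : ρ₁ ≤ ‖ζ‖ := by simpa using hζ.2
      have h3 : ‖ζ‖ ≤ ρ₂ := by simpa using hζ.1
      by_cases hzz : ζ = z
      · subst hzz
        exact (continuousAt_dslope_same.2 (hg ζ h2 h3)).continuousWithinAt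
      · exact ((continuousAt_dslope_of_ne hzz).2 (hg ζ h2 h3).continuousAt).continuousWithinAt
    · intro ζ hζ
      have h2 : ρ₁ < ‖ζ‖ := by
        have := hζ.1.2
        simpa using this
      have h3 : ‖ζ‖ < ρ₂ := by
        have := hζ.1.1
        simpa using this
      exact (differentiableAt_dslope_of_ne hζ.2).2 (hg ζ h2.le h3.le)
  have key : ∀ ρ : ℝ, 0 < ρ → ‖z‖ ≠ ρ → (∀ ζ, ‖ζ‖ = ρ → ContinuousAt g ζ) →
      (2 * π * I : ℂ)⁻¹ • (∮ ζ in C(0, ρ), dslope g z ζ) = ci ρ g z - ci ρ (fun _ => g z) z := by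
    intro ρ hρ hz hgc
    unfold ci
    rw [← smul_sub, ← circleIntegral.integral_sub (circleIntegrable_inv_smul hρ.le hz hgc)
      (circleIntegrable_inv_smul hρ.le hz fun _ _ => continuousAt_const)]
    congr 1
    refine circleIntegral.integral_congr hρ.le fun ζ hζ => ?_
    have hζ' : ‖ζ‖ = ρ := by simpa using hζ
    have hne : ζ ≠ z := by
      rintro rfl
      exact hz hζ'
    change dslope g z ζ = (ζ - z)⁻¹ • g ζ - (ζ - z)⁻¹ • g z
    rw [dslope_of_ne _ hne, slope_def_module, smul_sub]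
  have hρ₂ : 0 < ρ₂ := (norm_nonneg z).trans_lt hz2
  have k1 := key ρ₁ h1 hz1.ne' fun ζ hζ => (hg ζ hζ.ge (by linarith)).continuousAt
  have k2 := key ρ₂ hρ₂ hz2.ne fun ζ hζ => (hg ζ (by linarith) hζ.le).continuousAt
  rw [ci_one_outer h1.le hz1] at k1
  rw [ci_eq_self hz2 (g := fun _ => g z) (fun _ _ => differentiableAt_const _)] at k2
  rw [hds, k1] at k2
  linear_combination -k2

/-- Rotation and scaling of circle integrals. -/
theorem circleIntegral_mul (t : ℂ) (ρ : ℝ) (h : ℂ → ℂ) :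
    (∮ ζ in C(0, ‖t‖ * ρ), h ζ) = t • ∮ ζ in C(0, ρ), h (t * ζ) := by
  have hper : Function.Periodic (fun θ : ℝ => deriv (circleMap 0 (‖t‖ * ρ)) θ •
      h (circleMap 0 (‖t‖ * ρ) θ)) (2 * π) := by
    intro θ
    simp only [deriv_circleMap]
    rw [periodic_circleMap 0 (‖t‖ * ρ) θ]
  have hmap : ∀ θ : ℝ, circleMap 0 (‖t‖ * ρ) (θ + arg t) = t * circleMap 0 ρ θ := by
    intro θ
    rw [circleMap_zero, circleMap_zero]
    conv_rhs => rw [← norm_mul_exp_arg_mul_I t]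
    push_cast
    rw [add_mul, Complex.exp_add]
    ring
  unfold circleIntegral
  have h1 := hper.intervalIntegral_add_eq 0 (arg t)
  rw [zero_add] at h1
  rw [h1, ← intervalIntegral.integral_smul]
  have h2 := intervalIntegral.integral_comp_add_right (a := 0) (b := 2 * π)
    (fun θ : ℝ => deriv (circleMap 0 (‖t‖ * ρ)) θ • h (circleMap 0 (‖t‖ * ρ) θ)) (arg t)
  rw [zero_add, add_comm (2 * π)] at h2
  rw [← h2]
  congr 1
  funext θ
  simp only [deriv_circleMap, hmap, smul_eq_mul]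
  ring

/-- Inversion in circle integrals. -/
theorem circleIntegral_inv (ρ : ℝ) (h : ℂ → ℂ) :
    (∮ ζ in C(0, ρ), h ζ) = ∮ ξ in C(0, ρ⁻¹), (ξ ^ 2)⁻¹ • h ξ⁻¹ := by
  by_cases hρ : ρ = 0
  · subst hρ
    simp
  have hper : Function.Periodic (fun θ : ℝ => deriv (circleMap 0 ρ) θ • h (circleMap 0 ρ θ))
      (2 * π) := by
    intro θ
    simp only [deriv_circleMap]
    rw [periodic_circleMap 0 ρ θ]
  have hmap : ∀ θ : ℝ, circleMap 0 ρ (-θ) = (circleMap 0 ρ⁻¹ θ)⁻¹ := by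
    intro θ
    rw [circleMap_zero, circleMap_zero, mul_inv, ← Complex.exp_neg]
    push_cast
    rw [inv_inv, neg_mul]
  have hne : ∀ θ : ℝ, circleMap 0 ρ⁻¹ θ ≠ 0 := fun θ => circleMap_ne_center (inv_ne_zero hρ)
  unfold circleIntegral
  have h1 := hper.intervalIntegral_add_eq 0 (-(2 * π))
  rw [zero_add, neg_add_cancel] at h1
  rw [h1]
  have h2 := intervalIntegral.integral_comp_neg (a := 0) (b := 2 * π)
    (fun θ : ℝ => deriv (circleMap 0 ρ) θ • h (circleMap 0 ρ θ))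
  rw [neg_zero] at h2
  rw [← h2]
  congr 1
  funext θ
  simp only [deriv_circleMap, hmap, smul_eq_mul]
  have := hne θ
  field_simp

theorem ci_inv (ρ : ℝ) {z : ℂ} (hρ : 0 < ρ) (hz : z ≠ 0) (h : ℂ → ℂ) :
    ci ρ (fun ζ => ζ⁻¹ * h ζ⁻¹) z = - z⁻¹ * ci ρ⁻¹ h z⁻¹ := by
  unfold ci
  rw [circleIntegral_inv]
  have : (∮ ξ in C(0, ρ⁻¹), (ξ ^ 2)⁻¹ • ((ξ⁻¹ - z)⁻¹ • (ξ⁻¹⁻¹ * h ξ⁻¹⁻¹))) =
      - z⁻¹ * ∮ ξ in C(0, ρ⁻¹), (ξ - z⁻¹)⁻¹ • h ξ := by
    rw [← circleIntegral.integral_const_mul]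
    refine circleIntegral.integral_congr (inv_nonneg.2 hρ.le) fun ξ hξ => ?_
    have hξ' : ‖ξ‖ = ρ⁻¹ := by simpa using hξ
    have hξ0 : ξ ≠ 0 := by
      rintro rfl
      rw [norm_zero] at hξ'
      exact (inv_pos.2 hρ).ne hξ'
    simp only [smul_eq_mul, inv_inv]
    have e1 : (ξ ^ 2)⁻¹ * ((ξ⁻¹ - z)⁻¹ * (ξ * h ξ)) = (1 - z * ξ)⁻¹ * h ξ := by
      have : (1 - z * ξ)⁻¹ = (ξ ^ 2)⁻¹ * (ξ⁻¹ - z)⁻¹ * ξ := by
        have h3 : (1 - z * ξ) = ξ * (ξ⁻¹ - z) := by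
          field_simp
        rw [h3, mul_inv]
        field_simp
      rw [this]
      ring
    have e2 : - z⁻¹ * ((ξ - z⁻¹)⁻¹ * h ξ) = (1 - z * ξ)⁻¹ * h ξ := by
      have : (1 - z * ξ)⁻¹ = - z⁻¹ * (ξ - z⁻¹)⁻¹ := by
        have h3 : (1 - z * ξ) = (-z) * (ξ - z⁻¹) := by
          field_simp
          ring
        rw [h3, mul_inv, inv_neg]
      rw [this]
      ring
    rw [e1, e2]
  rw [this]
  simp only [smul_eq_mul]
  ring

/-- Scaling for `ci`. -/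
theorem ci_scale {t : ℂ} (ht : t ≠ 0) (ρ : ℝ) (h : ℂ → ℂ) (z : ℂ) :
    ci (‖t‖ * ρ) h (t * z) = ci ρ (fun ζ => h (t * ζ)) z := by
  unfold ci
  rw [circleIntegral_mul, ← circleIntegral.integral_smul]
  congr 2
  funext ζ
  simp only [smul_eq_mul]
  rw [← mul_sub, mul_inv]
  field_simp

/-- Fubini for two circles. -/
theorem circleIntegral_swap {ρ ρ' : ℝ} (hρ : 0 ≤ ρ) (hρ' : 0 ≤ ρ') {H : ℂ → ℂ → ℂ}
    (hH : ContinuousOn (Function.uncurry H) (sphere 0 ρ ×ˢ sphere 0 ρ')) :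
    (∮ ζ in C(0, ρ), ∮ ξ in C(0, ρ'), H ζ ξ) = ∮ ξ in C(0, ρ'), ∮ ζ in C(0, ρ), H ζ ξ := by
  unfold circleIntegral
  have hd : ∀ R : ℝ, Continuous (deriv (circleMap 0 R)) := by
    intro R
    have : deriv (circleMap 0 R) = fun θ => circleMap 0 R θ * Complex.I := by
      ext θ; rw [deriv_circleMap]
    rw [this]; fun_prop
  have hcont : Continuous (Function.uncurry fun θ θ' : ℝ => deriv (circleMap 0 ρ) θ •
      (deriv (circleMap 0 ρ') θ' • H (circleMap 0 ρ θ) (circleMap 0 ρ' θ'))) := by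
    have h1 : Continuous (fun p : ℝ × ℝ => Function.uncurry H
        (circleMap 0 ρ p.1, circleMap 0 ρ' p.2)) := by
      refine hH.comp_continuous (by fun_prop) ?_
      intro p
      refine ⟨?_, ?_⟩
      · exact circleMap_mem_sphere 0 hρ p.1
      · exact circleMap_mem_sphere 0 hρ' p.2
    exact ((hd ρ).comp continuous_fst).smul (((hd ρ').comp continuous_snd).smul h1)
  have key := intervalIntegral_intervalIntegral_swap (a := 0) (b := 2 * π) (c := 0) (d := 2 * π)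
    (F := fun θ θ' : ℝ => deriv (circleMap 0 ρ) θ •
      (deriv (circleMap 0 ρ') θ' • H (circleMap 0 ρ θ) (circleMap 0 ρ' θ')))
    (by
      have h1 : IntegrableOn (Function.uncurry fun θ θ' : ℝ => deriv (circleMap 0 ρ) θ •
        (deriv (circleMap 0 ρ') θ' • H (circleMap 0 ρ θ) (circleMap 0 ρ' θ')))
        (uIcc 0 (2 * π) ×ˢ uIcc 0 (2 * π)) :=
        hcont.continuousOn.integrableOn_compact (isCompact_uIcc.prod isCompact_uIcc)
      exact h1.mono_set (Set.prod_mono uIoc_subset_uIcc uIoc_subset_uIcc))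
  simp only [← intervalIntegral.integral_smul]
  rw [key]
  congr 1
  funext θ'
  congr 1
  funext θ
  simp only [smul_eq_mul]
  ring

theorem ci_swap {ρ ρ' : ℝ} (hρ : 0 < ρ) (hρ' : 0 < ρ') {g : ℂ → ℂ → ℂ} {z z' : ℂ}
    (hz : ‖z‖ < ρ) (hz' : ‖z'‖ < ρ')
    (hg : ContinuousOn (Function.uncurry g) (sphere 0 ρ ×ˢ sphere 0 ρ')) :
    ci ρ (fun ζ => ci ρ' (fun ξ => g ζ ξ) z') z = ci ρ' (fun ξ => ci ρ (fun ζ => g ζ ξ) z) z' := by
  have key := circleIntegral_swap hρ.le hρ'.le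
    (H := fun ζ ξ => (ζ - z)⁻¹ * ((ξ - z')⁻¹ * g ζ ξ)) (by
      have h1 : ContinuousOn (fun p : ℂ × ℂ => (p.1 - z)⁻¹) (sphere 0 ρ ×ˢ sphere 0 ρ') := by
        refine ContinuousOn.inv₀ (by fun_prop) ?_
        rintro ⟨a, b⟩ ⟨ha, hb⟩ h
        simp only [sub_eq_zero] at h
        simp only [mem_sphere_iff_norm, sub_zero] at ha
        rw [h] at ha
        exact hz.ne ha
      have h2 : ContinuousOn (fun p : ℂ × ℂ => (p.2 - z')⁻¹) (sphere 0 ρ ×ˢ sphere 0 ρ') := by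
        refine ContinuousOn.inv₀ (by fun_prop) ?_
        rintro ⟨a, b⟩ ⟨ha, hb⟩ h
        simp only [sub_eq_zero] at h
        simp only [mem_sphere_iff_norm, sub_zero] at hb
        rw [h] at hb
        exact hz'.ne hb
      exact h1.mul (h2.mul hg))
  simp only [ci, smul_eq_mul]
  have e1 : (∮ ζ in C(0, ρ), (ζ - z)⁻¹ * ((2 * π * I : ℂ)⁻¹ *
      ∮ ξ in C(0, ρ'), (ξ - z')⁻¹ * g ζ ξ)) = (2 * π * I : ℂ)⁻¹ *
      ∮ ζ in C(0, ρ), ∮ ξ in C(0, ρ'), (ζ - z)⁻¹ * ((ξ - z')⁻¹ * g ζ ξ) := by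
    rw [← circleIntegral.integral_const_mul]
    congr 1
    funext ζ
    rw [circleIntegral.integral_const_mul]
    ring
  have e2 : (∮ ξ in C(0, ρ'), (ξ - z')⁻¹ * ((2 * π * I : ℂ)⁻¹ *
      ∮ ζ in C(0, ρ), (ζ - z)⁻¹ * g ζ ξ)) = (2 * π * I : ℂ)⁻¹ *
      ∮ ξ in C(0, ρ'), ∮ ζ in C(0, ρ), (ζ - z)⁻¹ * ((ξ - z')⁻¹ * g ζ ξ) := by
    rw [← circleIntegral.integral_const_mul]
    congr 1
    funext ξ
    have : (fun ζ => (ζ - z)⁻¹ * ((ξ - z')⁻¹ * g ζ ξ)) =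
        fun ζ => (ξ - z')⁻¹ * ((ζ - z)⁻¹ * g ζ ξ) := by
      funext ζ
      ring
    rw [this, circleIntegral.integral_const_mul]
    ring
  rw [e1, e2, key]

end Groth.Agent.Gaga.H989.LauOne
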