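import Groth.Agent.Gaga.H294.ConeChart
import Groth.Agent.Gaga.H294.GenIso

/-!
# The sheaf of homogeneous holomorphic functions of degree `j` on the cone

`C : HomCoords (An.top X) ι κ`, and holomorphic functions on `X(ℂ)` are the functions which are differentiable on
the cone (`HolIff C`). `OAn C hol j : An.AnMod X` has as sections on `W` the differentiable functions on the cone
over `W` which are homogeneous of degree `j`; `homSheaf_OAn`, and `HomSheaf.ofIso`.
-/

set_option autoImplicit false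

open CategoryTheory TopologicalSpace Opposite AlgebraicGeometry

noncomputable section

namespace Groth.Agent.Gaga.H989.OAn

open Groth.Agent.Gaga.H294.Cone Groth.Agent.Gaga.H975.ModSec

variable {ι κ : Type} [Fintype ι] [Fintype κ]

section Top

variable {T : TopCat.{0}} (C : HomCoords T ι κ)

theorem mem_cone {W : Opens T} {p : (ι → ℂ) × (κ → ℂ)} : p ∈ C.cone W ↔ p.1 ≠ 0 ∧ C.pt p ∈ W := Iff.rfl

theorem isOpen_cone (W : Opens T) : IsOpen (C.cone W) :=
  C.continuousOn_pt.isOpen_inter_preimage (isOpen_ne_fun (by fun_prop) (by fun_prop)) W.2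

theorem cone_mono {V W : Opens T} (h : V ≤ W) : C.cone V ⊆ C.cone W := fun _ hp => ⟨hp.1, h hp.2⟩

theorem smul_mem_cone {W : Opens T} {p : (ι → ℂ) × (κ → ℂ)} (hp : p ∈ C.cone W) {t : ℂ} (ht : t ≠ 0) :
    (t • p.1, p.2) ∈ C.cone W :=
  ⟨smul_ne_zero ht hp.1, by
    have := HomCoords.pt_smul C hp.1 ht
    rw [this]
    exact hp.2⟩

/-- A function on an open subset as a function on the cone (extended by zero). -/
def lft (W : Opens T) (g : W → ℂ) (p : (ι → ℂ) × (κ → ℂ)) : ℂ := by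
  classical exact if h : C.pt p ∈ W then g ⟨C.pt p, h⟩ else 0

theorem lft_of_mem {W : Opens T} (g : W → ℂ) {p : (ι → ℂ) × (κ → ℂ)} (h : C.pt p ∈ W) :
    lft C W g p = g ⟨C.pt p, h⟩ := dif_pos h

theorem lft_res {V W : Opens T} (h : V ≤ W) (g : W → ℂ) {p : (ι → ℂ) × (κ → ℂ)} (hp : C.pt p ∈ V) :
    lft C V (fun x => g ⟨x.1, h x.2⟩) p = lft C W g p := by
  rw [lft_of_mem C _ hp, lft_of_mem C _ (h hp)]

/-- The homogeneous holomorphic functions of degree `j` on the cone over `W`. -/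
def HF (j : ℤ) (W : Opens T) : AddSubgroup ((ι → ℂ) × (κ → ℂ) → ℂ) where
  carrier := {f | DifferentiableOn ℂ f (C.cone W) ∧
    (∀ p ∈ C.cone W, ∀ t : ℂ, t ≠ 0 → f (t • p.1, p.2) = t ^ j * f p) ∧ ∀ p, p ∉ C.cone W → f p = 0}
  zero_mem' := ⟨differentiableOn_const 0, fun p _ t _ => by simp, fun p _ => rfl⟩
  add_mem' := by
    rintro f g ⟨h1, h2, h3⟩ ⟨h1', h2', h3'⟩
    exact ⟨h1.add h1', fun p hp t ht => by simp only [Pi.add_apply, h2 p hp t ht, h2' p hp t ht, mul_add],
      fun p hp => by simp only [Pi.add_apply, h3 p hp, h3' p hp, add_zero]⟩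
  neg_mem' := by
    rintro f ⟨h1, h2, h3⟩
    exact ⟨h1.neg, fun p hp t ht => by simp only [Pi.neg_apply, h2 p hp t ht, mul_neg],
      fun p hp => by simp only [Pi.neg_apply, h3 p hp, neg_zero]⟩

variable {C}

theorem mem_HF {j : ℤ} {W : Opens T} {f : (ι → ℂ) × (κ → ℂ) → ℂ} : f ∈ HF C j W ↔
    DifferentiableOn ℂ f (C.cone W) ∧ (∀ p ∈ C.cone W, ∀ t : ℂ, t ≠ 0 → f (t • p.1, p.2) = t ^ j * f p) ∧
      ∀ p, p ∉ C.cone W → f p = 0 := Iff.rfl

variable (C)

/-- Cut off a function outside the cone. -/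
def cut (W : Opens T) (f : (ι → ℂ) × (κ → ℂ) → ℂ) : (ι → ℂ) × (κ → ℂ) → ℂ := (C.cone W).indicator f

theorem cut_of_mem {W : Opens T} (f : (ι → ℂ) × (κ → ℂ) → ℂ) {p : (ι → ℂ) × (κ → ℂ)} (h : p ∈ C.cone W) :
    cut C W f p = f p := Set.indicator_of_mem h f

theorem cut_of_notMem {W : Opens T} (f : (ι → ℂ) × (κ → ℂ) → ℂ) {p : (ι → ℂ) × (κ → ℂ)} (h : p ∉ C.cone W) :
    cut C W f p = 0 := Set.indicator_of_notMem h f

theorem cut_mem {j : ℤ} {W : Opens T} {f : (ι → ℂ) × (κ → ℂ) → ℂ} (h1 : DifferentiableOn ℂ f (C.cone W))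
    (h2 : ∀ p ∈ C.cone W, ∀ t : ℂ, t ≠ 0 → f (t • p.1, p.2) = t ^ j * f p) : cut C W f ∈ HF C j W :=
  ⟨h1.congr fun p hp => cut_of_mem C f hp, fun p hp t ht => by
    rw [cut_of_mem C f hp, cut_of_mem C f (smul_mem_cone C hp ht), h2 p hp t ht], fun p hp => cut_of_notMem C f hp⟩

/-- Restriction. -/
def resHF (j : ℤ) {V W : Opens T} (h : W ≤ V) : HF C j V →+ HF C j W where
  toFun f := ⟨cut C W f.1, cut_mem C (f.2.1.mono (cone_mono C h)) fun p hp t ht => f.2.2.1 p (cone_mono C h hp) t ht⟩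
  map_zero' := Subtype.ext (Set.indicator_zero' _)
  map_add' _ _ := Subtype.ext (Set.indicator_add' _ _ _)

variable {C}

theorem HF_ext {j : ℤ} {W : Opens T} {f g : HF C j W} (h : ∀ p ∈ C.cone W, f.1 p = g.1 p) : f = g := by
  refine Subtype.ext (funext fun p => ?_)
  by_cases hp : p ∈ C.cone W
  · exact h p hp
  · rw [f.2.2.2 p hp, g.2.2.2 p hp]

theorem resHF_apply {j : ℤ} {V W : Opens T} (h : W ≤ V) (f : HF C j V) {p : (ι → ℂ) × (κ → ℂ)}
    (hp : p ∈ C.cone W) : (resHF C j h f).1 p = f.1 p := cut_of_mem C f.1 hp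

theorem HF_glue {j : ℤ} {α : Type} (U : α → Opens T) (s : ∀ a, HF C j (U a))
    (hs : ∀ a b, resHF C j (inf_le_left : U a ⊓ U b ≤ U a) (s a) = resHF C j (inf_le_right : U a ⊓ U b ≤ U b) (s b)) :
    ∃ t : HF C j (⨆ a, U a), ∀ a, resHF C j (le_iSup U a) t = s a := by
  classical
  have hm : ∀ p ∈ C.cone (⨆ a, U a), ∃ a, p ∈ C.cone (U a) := fun p hp => by
    obtain ⟨a, ha⟩ := Opens.mem_iSup.1 hp.2
    exact ⟨a, hp.1, ha⟩
  let f : (ι → ℂ) × (κ → ℂ) → ℂ := fun p => if h : ∃ a, p ∈ C.cone (U a) then (s h.choose).1 p else 0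
  have hf : ∀ a, ∀ p ∈ C.cone (U a), f p = (s a).1 p := by
    intro a p hp
    have h : ∃ a, p ∈ C.cone (U a) := ⟨a, hp⟩
    have h1 := congrArg (fun w : HF C j _ => w.1 p) (hs h.choose a)
    have h2 : p ∈ C.cone (U h.choose ⊓ U a) := ⟨hp.1, h.choose_spec.2, hp.2⟩
    simp only [resHF_apply _ _ h2] at h1
    rw [← h1]
    exact dif_pos h
  have hf0 : ∀ p, p ∉ C.cone (⨆ a, U a) → f p = 0 := fun p hp =>
    dif_neg fun ⟨a, ha⟩ => hp (cone_mono C (le_iSup U a) ha)
  refine ⟨⟨f, ?_, ?_, hf0⟩, fun a => HF_ext fun p hp => ?_⟩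
  · intro p hp
    obtain ⟨a, ha⟩ := hm p hp
    have h1 := ((s a).2.1 p ha).differentiableAt ((isOpen_cone C (U a)).mem_nhds ha)
    refine (h1.congr_of_eventuallyEq ?_).differentiableWithinAt
    filter_upwards [(isOpen_cone C (U a)).mem_nhds ha] with q hq
    exact hf a q hq
  · intro p hp t ht
    obtain ⟨a, ha⟩ := hm p hp
    rw [hf a p ha, hf a _ (smul_mem_cone C ha ht), (s a).2.2.1 p ha t ht]
  · rw [resHF_apply _ _ hp]
    exact hf a p hp

end Top

variable {X : Scheme.{0}} [X.Over An.SC] (C : HomCoords (An.top X) ι κ)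

/-- Holomorphic functions on `X(ℂ)` are the functions which are differentiable on the cone. -/
def HolIff : Prop := ∀ (W : Opens (An.top X)) (g : W → ℂ),
  (An.holPred X).pred g ↔ DifferentiableOn ℂ (lft C W g) (C.cone W)

variable {C}

theorem HolIff.diff (h : HolIff C) {W : Opens (An.top X)} (r : O (An.hol X) W) :
    DifferentiableOn ℂ (lft C W r.1) (C.cone W) := (h W r.1).1 r.2

theorem lft_smul {W : Opens (An.top X)} (g : W → ℂ) {p : (ι → ℂ) × (κ → ℂ)} (hp : p ∈ C.cone W) {t : ℂ} (ht : t ≠ 0) :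
    lft C W g (t • p.1, p.2) = lft C W g p := by
  rw [lft_of_mem C g hp.2, lft_of_mem C g (smul_mem_cone C hp ht).2]
  congr 2
  exact HomCoords.pt_smul C hp.1 ht

variable (hol : HolIff C)

include hol in
theorem smul_mem {j : ℤ} {W : Opens (An.top X)} (r : O (An.hol X) W) {f : (ι → ℂ) × (κ → ℂ) → ℂ}
    (hf : f ∈ HF C j W) : lft C W r.1 * f ∈ HF C j W :=
  ⟨(hol.diff r).mul hf.1, fun p hp t ht => by
    rw [Pi.mul_apply, Pi.mul_apply, lft_smul r.1 hp ht, hf.2.1 p hp t ht]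
    ring, fun p hp => by rw [Pi.mul_apply, hf.2.2 p hp, mul_zero]⟩

/-- The module structure on homogeneous functions. -/
@[reducible]
def modHF (j : ℤ) (W : Opens (An.top X)) : Module (O (An.hol X) W) (HF C j W) where
  smul r f := ⟨lft C W r.1 * f.1, smul_mem hol r f.2⟩
  one_smul f := HF_ext fun p hp => by
    change lft C W (1 : O (An.hol X) W).1 p * f.1 p = f.1 p
    rw [lft_of_mem C _ hp.2]
    exact one_mul _
  mul_smul r s f := HF_ext fun p hp => by
    change lft C W (r * s : O (An.hol X) W).1 p * f.1 p = lft C W r.1 p * (lft C W s.1 p * f.1 p)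
    rw [lft_of_mem C _ hp.2, lft_of_mem C _ hp.2, lft_of_mem C _ hp.2, ← mul_assoc]
    rfl
  smul_zero r := HF_ext fun p _ => mul_zero _
  smul_add r f g := HF_ext fun p _ => mul_add _ _ _
  add_smul r s f := HF_ext fun p hp => by
    change lft C W (r + s : O (An.hol X) W).1 p * f.1 p = lft C W r.1 p * f.1 p + lft C W s.1 p * f.1 p
    rw [lft_of_mem C _ hp.2, lft_of_mem C _ hp.2, lft_of_mem C _ hp.2, ← add_mul]
    rfl
  zero_smul f := HF_ext fun p hp => by
    change lft C W (0 : O (An.hol X) W).1 p * f.1 p = 0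
    rw [lft_of_mem C _ hp.2]
    exact zero_mul _

/-- The data of the sheaf `OAn`. -/
def dat (j : ℤ) : Data (An.hol X) where
  S W := HF C j W
  mod W := modHF hol j W
  r h := resHF C j h
  r_self h s := HF_ext fun p hp => resHF_apply _ _ hp
  r_r h h' s := HF_ext fun p hp => by
    rw [resHF_apply _ _ hp, resHF_apply _ _ hp, resHF_apply _ _ (cone_mono C h' hp)]
  r_smul h a s := HF_ext fun p hp => by
    rw [resHF_apply _ _ hp]
    change lft C _ a.1 p * s.1 p = lft C _ (resO h a).1 p * (resHF C j h s).1 p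
    rw [resHF_apply _ _ hp, lft_of_mem C _ (h hp.2), lft_of_mem C _ hp.2]
    rfl
  ext U s t h := HF_ext fun p hp => by
    obtain ⟨a, ha⟩ := Opens.mem_iSup.1 hp.2
    have h1 := congrArg (fun w : HF C j _ => w.1 p) (h a)
    have h2 : p ∈ C.cone (U a) := ⟨hp.1, ha⟩
    simpa only [resHF_apply _ _ h2] using h1
  glue U s h := HF_glue U s h

/-- The sheaf of homogeneous holomorphic functions of degree `j`. -/
def OAn (j : ℤ) : An.AnMod X := (dat hol j).toMod

/-- Sections of `OAn`. -/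
def toSec (j : ℤ) {W : Opens (An.top X)} (f : HF C j W) : Sec (R := An.hol X) (OAn hol j) W := f

/-- The function attached to a section of `OAn`. -/
def ofSec (j : ℤ) {W : Opens (An.top X)} (s : Sec (R := An.hol X) (OAn hol j) W) : HF C j W := s

theorem ofSec_res (j : ℤ) {V W : Opens (An.top X)} (h : W ≤ V) (s : Sec (R := An.hol X) (OAn hol j) V) :
    ofSec hol j (res (R := An.hol X) (OAn hol j) h s) = resHF C j h (ofSec hol j s) := rfl

theorem ofSec_smul (j : ℤ) {W : Opens (An.top X)} (r : O (An.hol X) W) (s : Sec (R := An.hol X) (OAn hol j) W) :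
    (ofSec hol j (r • s)).1 = lft C W r.1 * (ofSec hol j s).1 := rfl

theorem ofSec_add (j : ℤ) {W : Opens (An.top X)} (s t : Sec (R := An.hol X) (OAn hol j) W) :
    (ofSec hol j (s + t)).1 = (ofSec hol j s).1 + (ofSec hol j t).1 := rfl

/-- `OAn` is a sheaf of homogeneous functions. -/
def homSheaf_OAn (j : ℤ) : HomSheaf C (An.AnMod.toAb (OAn hol j)) j where
  ev W s := (ofSec hol j s).1
  ev_add W s t p hp := rfl
  ev_res V W h s p hp := resHF_apply h (ofSec hol j s) hp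
  ev_diff W s := (ofSec hol j s).2.1
  ev_hom W s := (ofSec hol j s).2.2.1
  ev_inj W s t h := HF_ext (f := ofSec hol j s) (g := ofSec hol j t) h
  ev_surj W f h1 h2 := ⟨(⟨cut C W f, cut_mem C h1 h2⟩ : HF C j W), fun p hp => cut_of_mem C f hp⟩

/-- Transport along an isomorphism. -/
def HomSheaf.ofIso {T : TopCat.{0}} {C : HomCoords T ι κ} {F G : CohTop.Ab T} {j : ℤ} (h : HomSheaf C F j)
    (e : G ≅ F) : HomSheaf C G j where
  ev W s := h.ev W (e.hom.hom.app (op W) s)
  ev_add W s t p hp := by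
    rw [map_add]
    exact h.ev_add W _ _ p hp
  ev_res V W hVW s p hp := by
    have h1 := congr($(e.hom.hom.naturality (homOfLE hVW).op) s)
    simp only [ConcreteCategory.comp_apply] at h1
    rw [h1]
    exact h.ev_res V W hVW _ p hp
  ev_diff W s := h.ev_diff W _
  ev_hom W s := h.ev_hom W _
  ev_inj W s t hst := by
    have h1 := h.ev_inj W _ _ hst
    have h2 : ∀ s : G.obj.obj (op W), e.inv.hom.app (op W) (e.hom.hom.app (op W) s) = s := fun s => by
      have h3 : (e.hom ≫ e.inv).hom.app (op W) s = (𝟙 G : G ⟶ G).hom.app (op W) s := by rw [e.hom_inv_id]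
      exact h3
    rw [← h2 s, ← h2 t, h1]
  ev_surj W f h1 h2 := by
    obtain ⟨s, hs⟩ := h.ev_surj W f h1 h2
    refine ⟨e.inv.hom.app (op W) s, fun p hp => ?_⟩
    have h3 : e.hom.hom.app (op W) (e.inv.hom.app (op W) s) = s := by
      have h3 : (e.inv ≫ e.hom).hom.app (op W) s = (𝟙 F : F ⟶ F).hom.app (op W) s := by rw [e.inv_hom_id]
      exact h3
    rw [h3]
    exact hs p hp

end Groth.Agent.Gaga.H989.OAn
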