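import Groth.Agent.Gaga.H989.UnramAn

/-!
# `S4323` from `S4314`

`unramified_of_S4314`: the hypothesis is literally the statement of `S4314`; the file
`Groth/Agent/S4323.lean` is then `unramified_of_S4314 (fun X _ _ _ x => S4314.result X x) X Y f`.
-/

set_option autoImplicit false
open CategoryTheory AlgebraicGeometry Topology TopologicalSpace

namespace Groth.Agent.Gaga.H989.S4323_of_S4314

theorem unramified_of_S4314
    (h4314 : ∀ (X : Scheme.{0}) [X.Over An.SC] [LocallyOfFiniteType (X ↘ An.SC)] [IsReduced X]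
      (x : An.Pts X),
      (((IsLocalRing.maximalIdeal (X.presheaf.stalk x.pt)).map
        (PresheafedSpace.Hom.stalkMap (An.anToScheme X) x).hom).IsMaximal ∧
      ∀ I : Ideal ((An.anSpace X).presheaf.stalk x), I.IsMaximal →
        I = (IsLocalRing.maximalIdeal (X.presheaf.stalk x.pt)).map
          (PresheafedSpace.Hom.stalkMap (An.anToScheme X) x).hom) ∧
    ∀ n : ℕ,
      (∀ b : (An.anSpace X).presheaf.stalk x, ∃ a : X.presheaf.stalk x.pt,
        (PresheafedSpace.Hom.stalkMap (An.anToScheme X) x).hom a - b ∈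
          ((IsLocalRing.maximalIdeal (X.presheaf.stalk x.pt)).map
            (PresheafedSpace.Hom.stalkMap (An.anToScheme X) x).hom) ^ n) ∧
      (∀ a : X.presheaf.stalk x.pt,
        (PresheafedSpace.Hom.stalkMap (An.anToScheme X) x).hom a ∈
          ((IsLocalRing.maximalIdeal (X.presheaf.stalk x.pt)).map
            (PresheafedSpace.Hom.stalkMap (An.anToScheme X) x).hom) ^ n →
        a ∈ (IsLocalRing.maximalIdeal (X.presheaf.stalk x.pt)) ^ n))
    (X Y : Scheme.{0}) [X.Over An.SC] [Y.Over An.SC] [LocallyOfFiniteType (X ↘ An.SC)]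
    [LocallyOfFiniteType (Y ↘ An.SC)] [IsReduced X] [IsReduced Y] (f : X ⟶ Y) [f.IsOver An.SC] :
    FormallyUnramified f ↔ ∀ (x : An.Pts X) (m : Ideal ((An.anSpace X).presheaf.stalk x)), m.IsMaximal →
      ∃ m' : Ideal ((An.anSpace Y).presheaf.stalk (An.Pts.map f x)), m'.IsMaximal ∧
        m'.map (PresheafedSpace.Hom.stalkMap (An.anMap f) x).hom = m :=
  UnramAn.unramified_iff f (fun x => h4314 X x) (fun y => h4314 Y y)

end Groth.Agent.Gaga.H989.S4323_of_S4314
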