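import Groth.Agent.An.H871.Surj
import Mathlib.AlgebraicGeometry.Morphisms.FormallyUnramified
import Mathlib.AlgebraicGeometry.ResidueField
import Mathlib.RingTheory.Unramified.LocalRing
import Mathlib.RingTheory.Unramified.Locus

/-!
# Unramified morphisms of schemes locally of finite type over `ℂ` and complex points
-/

set_option autoImplicit false

open CategoryTheory AlgebraicGeometry Topology TopologicalSpace Opposite

noncomputable section

namespace Groth.Agent.Gaga.H989.UnramPts

open Groth.Agent.An.H871.Basic Groth.Agent.An.H871.Surj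

variable {X Y : Scheme.{0}} [X.Over An.SC] [Y.Over An.SC]
variable [LocallyOfFiniteType (X ↘ An.SC)]

/-- The map on residue fields at a complex point is surjective. -/
theorem residueFieldMap_surjective (f : X ⟶ Y) [f.IsOver An.SC] (x : X)
    (hx : IsClosed ({x} : Set X)) : Function.Surjective (f.residueFieldMap x).hom := by
  have h1 : X.fromSpecResidueField x ≫ f ≫ (Y ↘ An.SC) =
      Spec.map (f.residueFieldMap x) ≫ Y.fromSpecResidueField (f x) ≫ (Y ↘ An.SC) := by
    rw [← Scheme.Hom.SpecMap_residueFieldMap_fromSpecResidueField_assoc]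
  rw [comp_over f] at h1
  have h2 := SpecMap_residueFieldIsoBase_inv (K := ℂ) (X ↘ An.SC) x hx
  have h3 : (residueFieldIsoBase (K := ℂ) (X ↘ An.SC) x hx).inv =
      Spec.preimage (Y.fromSpecResidueField (f x) ≫ (Y ↘ An.SC)) ≫ f.residueFieldMap x := by
    apply Spec.map_injective
    rw [h2, Spec.map_comp, Spec.map_preimage]
    exact h1
  intro b
  obtain ⟨a, ha⟩ := (ConcreteCategory.bijective_of_isIso
    (residueFieldIsoBase (K := ℂ) (X ↘ An.SC) x hx).inv).2 b
  rw [h3] at ha
  exact ⟨_, ha⟩

/-- At a closed point, the stalk map is formally unramified iff the maximal ideal downstairs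
generates the one upstairs. -/
theorem formallyUnramified_stalkMap_iff (f : X ⟶ Y) [f.IsOver An.SC]
    [LocallyOfFiniteType (Y ↘ An.SC)] (x : X) (hx : IsClosed ({x} : Set X)) :
    (f.stalkMap x).hom.FormallyUnramified ↔
      (IsLocalRing.maximalIdeal (Y.presheaf.stalk (f x))).map (f.stalkMap x).hom =
        IsLocalRing.maximalIdeal (X.presheaf.stalk x) := by
  have := locallyOfFiniteType_of_isOver f
  algebraize [(f.stalkMap x).hom]
  have h0 : IsLocalHom (algebraMap (Y.presheaf.stalk (f x)) (X.presheaf.stalk x)) :=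
    inferInstanceAs <| IsLocalHom (f.stalkMap x).hom
  have h1 : Algebra.EssFiniteType (Y.presheaf.stalk (f x)) (X.presheaf.stalk x) := by
    rw [← RingHom.essFiniteType_algebraMap, RingHom.algebraMap_toAlgebra]
    exact LocallyOfFiniteType.stalkMap f x
  have h2 : Algebra.IsSeparable (IsLocalRing.ResidueField <| Y.presheaf.stalk (f x))
      (IsLocalRing.ResidueField <| X.presheaf.stalk x) := by
    constructor
    intro b
    obtain ⟨a, rfl⟩ := residueFieldMap_surjective f x hx b
    obtain ⟨a, rfl⟩ := IsLocalRing.residue_surjective a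
    exact isSeparable_algebraMap (IsLocalRing.residue _ a)
  have h3 := Algebra.FormallyUnramified.iff_map_maximalIdeal_eq
    (R := Y.presheaf.stalk (f x)) (S := X.presheaf.stalk x)
  rw [← RingHom.formallyUnramified_algebraMap, RingHom.algebraMap_toAlgebra] at h3
  rw [h3]
  exact ⟨fun h => h.2, fun h => ⟨h2, h⟩⟩

/-- A morphism between schemes locally of finite type over `ℂ` is formally unramified iff the stalk
maps at complex points are. -/
theorem formallyUnramified_of_stalkMap (f : X ⟶ Y) [f.IsOver An.SC]
    [LocallyOfFiniteType (Y ↘ An.SC)]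
    (H : ∀ x : An.Pts X, (f.stalkMap x.pt).hom.FormallyUnramified) :
    FormallyUnramified f := by
  have := locallyOfFiniteType_of_isOver f
  have hQi := (HasRingHomProperty.isLocal_ringHomProperty @FormallyUnramified).respectsIso
  refine ⟨fun {U} hU {V} hV e => ?_⟩
  have hft : (f.appLE U V e).hom.FiniteType := LocallyOfFiniteType.finiteType_appLE f hU hV e
  algebraize [(f.appLE U V e).hom]
  change Algebra.FormallyUnramified _ _
  rw [← Algebra.unramifiedLocus_eq_univ_iff]
  by_contra hne
  have hopen : IsOpen (Algebra.unramifiedLocus Γ(Y, U) Γ(X, V)) := Algebra.isOpen_unramifiedLocus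
  have hne' : ((Algebra.unramifiedLocus Γ(Y, U) Γ(X, V))ᶜ).Nonempty := by
    rwa [Set.nonempty_compl]
  -- the image of the complement is locally closed
  have hlc : IsLocallyClosed (hV.fromSpec '' (Algebra.unramifiedLocus Γ(Y, U) Γ(X, V))ᶜ) := by
    have := hV.fromSpec.isOpenEmbedding
    exact hopen.isClosed_compl.isLocallyClosed.image this.isInducing
      this.isOpen_range.isLocallyClosed
  obtain ⟨x, q, hq, hqx⟩ := exists_pts_mem_of_isLocallyClosed hlc (hne'.image _)
  apply hq
  have hxV : x.pt ∈ V := by
    rw [← hqx]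
    have : hV.fromSpec q ∈ Set.range hV.fromSpec := ⟨q, rfl⟩
    rwa [hV.range_fromSpec] at this
  have hqe : q = hV.primeIdealOf ⟨x.pt, hxV⟩ := by
    apply hV.fromSpec.isOpenEmbedding.injective
    rw [hqx, hV.fromSpec_primeIdealOf]
  subst hqe
  have h1 := (hQi.arrow_mk_iso_iff (IsAffineOpen.arrowStalkMapIso f U hU V hV e hxV)).mp (H x)
  have h2 : (algebraMap Γ(Y, U) (Localization.AtPrime
      (hU.primeIdealOf ⟨f x.pt, e hxV⟩).asIdeal)).FormallyUnramified := by
    rw [RingHom.formallyUnramified_algebraMap]
    exact Algebra.FormallyUnramified.of_isLocalization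
      (hU.primeIdealOf ⟨f x.pt, e hxV⟩).asIdeal.primeCompl
  have h3 := RingHom.FormallyUnramified.comp (f := algebraMap Γ(Y, U) (Localization.AtPrime
      (hU.primeIdealOf ⟨f x.pt, e hxV⟩).asIdeal)) h2 h1
  change Algebra.FormallyUnramified _ _
  rw [← RingHom.formallyUnramified_algebraMap]
  convert! h3 using 1
  ext a
  simp only [CommRingCat.hom_ofHom, RingHom.comp_apply, Localization.localRingHom_to_map]
  rfl

end Groth.Agent.Gaga.H989.UnramPts
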