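import Groth.Prelude.Def_AnHol
import Groth.Agent.Gaga.H989.UnramPts
import Groth.Agent.Gaga.H989.Alg
import Mathlib.Geometry.RingedSpace.Stalks
import Mathlib.RingTheory.LocalRing.MaximalIdeal.Basic
import Mathlib.RingTheory.LocalRing.RingHom.Basic

/-!
# Unramified morphisms and maximal ideals of the local rings of holomorphic functions

Conditional on the comparison of completions (`S4314`).
-/

set_option autoImplicit false

open CategoryTheory AlgebraicGeometry Topology TopologicalSpace Opposite

noncomputable section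

namespace Groth.Agent.Gaga.H989.UnramAn

open Groth.Agent.An.H871.Basic Groth.Agent.An.H871.Surj

/-- An isomorphism of local rings carries the maximal ideal to the maximal ideal. -/
theorem map_maximalIdeal_of_isIso {A B : CommRingCat.{0}} [IsLocalRing A] [IsLocalRing B]
    (e : A ⟶ B) [IsIso e] :
    (IsLocalRing.maximalIdeal A).map e.hom = IsLocalRing.maximalIdeal B := by
  have hb := ConcreteCategory.bijective_of_isIso e
  have : ((IsLocalRing.maximalIdeal A).map e.hom).IsMaximal :=
    Ideal.map_isMaximal_of_equiv (RingEquiv.ofBijective e.hom hb)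
  exact IsLocalRing.eq_maximalIdeal this

variable {X Y : Scheme.{0}} [X.Over An.SC] [Y.Over An.SC] (f : X ⟶ Y) [f.IsOver An.SC]

/-- The square `X^an → Y^an → Y = X^an → X → Y`. -/
theorem anMap_anToScheme : An.anMap f ≫ An.anToScheme Y = An.anToScheme X ≫ f.toPshHom := by
  have hbase : (An.anMap f ≫ An.anToScheme Y).base = (An.anToScheme X ≫ f.toPshHom).base := by
    ext x
    exact An.Pts.pt_map f x
  refine PresheafedSpace.ext _ _ hbase ?_
  ext U g
  apply Subtype.ext
  funext x
  have hx : x.1.pt ∈ f ⁻¹ᵁ U := x.2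
  have h : (An.Pts.map f x.1).pt ∈ U := by rw [An.Pts.pt_map]; exact hx
  change An.Pts.ev (An.Pts.map f x.1) U h g = An.Pts.ev x.1 (f ⁻¹ᵁ U) hx (f.app U g)
  exact An.Pts.ev_map f x.1 U h g

/-- The map on stalks `O_{X,x} → O_{X^an,x}`. -/
abbrev phi (X : Scheme.{0}) [X.Over An.SC] (x : An.Pts X) :
    X.presheaf.stalk x.pt →+* (An.anSpace X).presheaf.stalk x :=
  (PresheafedSpace.Hom.stalkMap (An.anToScheme X) x).hom

/-- The extended maximal ideal of `O_{X^an,x}`. -/
abbrev mAn (X : Scheme.{0}) [X.Over An.SC] (x : An.Pts X) :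
    Ideal ((An.anSpace X).presheaf.stalk x) :=
  (IsLocalRing.maximalIdeal (X.presheaf.stalk x.pt)).map (phi X x)

/-- Transport of stalks along `(f^an x).pt = f x.pt`. -/
def trans (x : An.Pts X) : Y.presheaf.stalk (An.Pts.map f x).pt ⟶ Y.presheaf.stalk (f x.pt) :=
  eqToHom (by rw [An.Pts.pt_map])

instance (x : An.Pts X) : IsIso (trans f x) := by unfold trans; infer_instance

/-- The commutative square on stalks. -/
theorem stalk_square (x : An.Pts X) :
    (PresheafedSpace.Hom.stalkMap (An.anMap f) x).hom.comp (phi Y (An.Pts.map f x)) =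
      (phi X x).comp ((f.stalkMap x.pt).hom.comp (trans f x).hom) := by
  have h1 := PresheafedSpace.stalkMap.comp (An.anMap f) (An.anToScheme Y) x
  have h2 := PresheafedSpace.stalkMap.comp (An.anToScheme X) f.toPshHom x
  have h3 := PresheafedSpace.stalkMap.congr_hom _ _ (anMap_anToScheme f) x
  rw [h1, h2] at h3
  exact congrArg CommRingCat.Hom.hom h3

/-- The statement of `S4314` at a point. -/
abbrev Compl (X : Scheme.{0}) [X.Over An.SC] (x : An.Pts X) : Prop :=
  ((mAn X x).IsMaximal ∧ ∀ I : Ideal ((An.anSpace X).presheaf.stalk x), I.IsMaximal → I = mAn X x) ∧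
    ∀ n : ℕ, (∀ b : (An.anSpace X).presheaf.stalk x, ∃ a : X.presheaf.stalk x.pt,
        phi X x a - b ∈ mAn X x ^ n) ∧
      (∀ a : X.presheaf.stalk x.pt, phi X x a ∈ mAn X x ^ n →
        a ∈ (IsLocalRing.maximalIdeal (X.presheaf.stalk x.pt)) ^ n)

/-- Extension of the extended maximal ideal of `O_{Y^an,f(x)}` to `O_{X^an,x}`. -/
theorem mAn_map (x : An.Pts X) :
    (mAn Y (An.Pts.map f x)).map (PresheafedSpace.Hom.stalkMap (An.anMap f) x).hom =
      ((IsLocalRing.maximalIdeal (Y.presheaf.stalk (f x.pt))).map (f.stalkMap x.pt).hom).map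
        (phi X x) := by
  have h1 := Ideal.map_map (I := IsLocalRing.maximalIdeal (Y.presheaf.stalk (An.Pts.map f x).pt))
    (phi Y (An.Pts.map f x)) (PresheafedSpace.Hom.stalkMap (An.anMap f) x).hom
  refine h1.trans ?_
  have h2 := congrArg (fun g => Ideal.map g
    (IsLocalRing.maximalIdeal (Y.presheaf.stalk (An.Pts.map f x).pt))) (stalk_square f x)
  refine h2.trans ?_
  change Ideal.map ((phi X x).comp ((f.stalkMap x.pt).hom.comp (trans f x).hom)) _ = _
  rw [← Ideal.map_map, ← Ideal.map_map, map_maximalIdeal_of_isIso]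

/-- The relation between the two conditions on maximal ideals at a point. -/
theorem an_iff (x : An.Pts X) (hX : Compl X x) (hY : Compl Y (An.Pts.map f x))
    [LocallyOfFiniteType (X ↘ An.SC)] :
    (∀ m : Ideal ((An.anSpace X).presheaf.stalk x), m.IsMaximal →
      ∃ m' : Ideal ((An.anSpace Y).presheaf.stalk (An.Pts.map f x)), m'.IsMaximal ∧
        m'.map (PresheafedSpace.Hom.stalkMap (An.anMap f) x).hom = m) ↔
    (IsLocalRing.maximalIdeal (Y.presheaf.stalk (f x.pt))).map (f.stalkMap x.pt).hom =
        IsLocalRing.maximalIdeal (X.presheaf.stalk x.pt) := by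
  constructor
  · intro H
    obtain ⟨m', hm', h⟩ := H _ hX.1.1
    rw [hY.1.2 m' hm', mAn_map] at h
    have := isLocallyNoetherian X
    refine Alg.eq_maximalIdeal_of_map_eq (phi X x) ?_ ?_ _ ?_ h
    · intro b
      simpa using (hX.2 1).1 b
    · exact (hX.2 2).2
    · exact ((IsLocalRing.local_hom_TFAE (f.stalkMap x.pt).hom).out 0 2 rfl rfl).mp inferInstance
  · intro H m hm
    refine ⟨_, hY.1.1, ?_⟩
    rw [mAn_map, H, hX.1.2 m hm]

/-- `f` is unramified iff `f^an` is, assuming the comparison of completions. -/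
theorem unramified_iff [LocallyOfFiniteType (X ↘ An.SC)] [LocallyOfFiniteType (Y ↘ An.SC)]
    (hX : ∀ x : An.Pts X, Compl X x) (hY : ∀ y : An.Pts Y, Compl Y y) :
    FormallyUnramified f ↔ ∀ (x : An.Pts X) (m : Ideal ((An.anSpace X).presheaf.stalk x)),
      m.IsMaximal → ∃ m' : Ideal ((An.anSpace Y).presheaf.stalk (An.Pts.map f x)), m'.IsMaximal ∧
        m'.map (PresheafedSpace.Hom.stalkMap (An.anMap f) x).hom = m := by
  constructor
  · intro hf x
    rw [an_iff f x (hX x) (hY _), ← UnramPts.formallyUnramified_stalkMap_iff f x.pt (isClosed_pt x)]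
    exact FormallyUnramified.stalkMap f x.pt
  · intro H
    refine UnramPts.formallyUnramified_of_stalkMap f fun x => ?_
    rw [UnramPts.formallyUnramified_stalkMap_iff f x.pt (isClosed_pt x),
      ← an_iff f x (hX x) (hY _)]
    exact H x

end Groth.Agent.Gaga.H989.UnramAn
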